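import Mathlib
import Cfsg.Agent.Lib.CK.LDefs
import Cfsg.Agent.Lib.CK.Syl

/-! Rank 3 actions of the linear groups (plans/KL.md): definitions. -/

set_option autoImplicit false

namespace CfsgLib.KL

open CfsgLib.CK Module

section Rep

variable {G : Type*} [Group G]

/-- the normaliser of a Sylow subgroup -/
abbrev Bor {p : ℕ} (U : Sylow p G) : Subgroup G := Subgroup.normalizer ((U : Subgroup G) : Set G)

/-- the functions invariant under some Sylow normaliser do not span -/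
def NGen (p : ℕ) (G Ω : Type*) [Group G] [MulAction G Ω] : Prop :=
  Submodule.span ℂ {f : Ω → ℂ | ∃ U : Sylow p G, ∀ b ∈ Bor U, ∀ a, f (b • a) = f a} ≠ ⊤

/-- one constituent: every bi-invariant function is an affine combination of right translates of any
non-constant one -/
def SP (p : ℕ) (H : Subgroup G) : Prop :=
  ∀ (U U' : Sylow p G) (f h : G → ℂ), (∀ k ∈ H, ∀ y, f (k * y) = f y) → (∀ k ∈ H, ∀ y, h (k * y) = h y) →
    (∀ b ∈ Bor U, ∀ y, f (y * b) = f y) → (∀ b ∈ Bor U', ∀ y, h (y * b) = h y) → (∃ y y', f y ≠ f y') →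
    ∃ (c : ℂ) (t : G → ℂ), ∀ y, h y = c + ∑ᶠ x, t x * f (y * x)

variable {X Y : Type*} [MulAction G X] [MulAction G Y]

/-- the sum of `u` over `S` -/
noncomputable def sm (S : Set X) (u : X → ℂ) : ℂ := ∑ᶠ x ∈ S, u x

/-- all translates of `S` meet `O` in the same number of elements -/
def Bal (G : Type*) [Group G] [MulAction G X] (O S : Set X) : Prop :=
  ∀ g : G, {x | x ∈ S ∧ g • x ∈ O}.ncard = (O ∩ S).ncard

/-- `Q` is equivariant -/
def Eqv (G : Type*) [Group G] [MulAction G X] [MulAction G Y] (Q : Y → Set X) : Prop :=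
  ∀ (g : G) y x, g • x ∈ Q (g • y) ↔ x ∈ Q y

/-- `u` depends only on the position relative to `y` and has sum zero over every balanced set -/
structure Adm (G : Type*) [Group G] [MulAction G X] (A O : Set X) (same : X → X → Prop) (u : X → ℂ) : Prop where
  pos : ∀ x ∈ A, ∀ x' ∈ A, same x x' → u x = u x'
  bal : ∀ S ⊆ A, Bal G O S → sm S u = 0

/-- `O` is a non-empty proper `H`-invariant part of `A` -/
structure Part (H : Subgroup G) (A O : Set X) : Prop where
  sub : O ⊆ A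
  inv : Inv H O
  ne : O.Nonempty
  ne' : ∃ x ∈ A, x ∉ O

/-- every `H`-invariant function on `B` is an affine combination of the counts `|O ∩ Q i y|`, as soon as the
sums over the `Q i y` determine the admissible functions -/
def Span (H : Subgroup G) (A : Set X) (B : Set Y) (same : Y → X → X → Prop) : Prop :=
  ∀ O : Set X, Part H A O → ∀ (k : ℕ) (Q : Fin k → Y → Set X), (∀ i, ∀ y ∈ B, Q i y ⊆ A) → (∀ i, Eqv G (Q i)) →
    (∀ y ∈ B, ∀ u, Adm G A O (same y) u → (∀ i, sm (Q i y) u = 0) → ∀ x ∈ A, u x = 0) →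
    ∀ hh : Y → ℂ, (∀ g ∈ H, ∀ y, hh (g • y) = hh y) →
      ∃ (c₀ : ℂ) (c : Fin k → ℂ), ∀ y ∈ B, hh y = c₀ + ∑ i, c i * (O ∩ Q i y).ncard

end Rep

section Geo

variable {G L : Type*} [Group G] [CompleteLattice L] [MulAction G L]

/-- subspaces of rank `a` -/
def F1 (P : PG G L) (a : ℕ) : Set L := {z | P.rk z = a}

/-- flags with two members -/
def F2 (P : PG G L) (a b : ℕ) : Set (L × L) := {x | x.1 ≤ x.2 ∧ P.rk x.1 = a ∧ P.rk x.2 = b}

/-- flags with three members (repetitions allowed) -/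
def F3 (P : PG G L) (a b c : ℕ) : Set (L × L × L) :=
  {x | x.1 ≤ x.2.1 ∧ x.2.1 ≤ x.2.2 ∧ P.rk x.1 = a ∧ P.rk x.2.1 = b ∧ P.rk x.2.2 = c}

/-- the position of `z` relative to the flag `y` -/
def pos (P : PG G L) (y : L × L × L) (z : L) : ℕ × ℕ × ℕ :=
  (P.rk (z ⊓ y.1), P.rk (z ⊓ y.2.1), P.rk (z ⊓ y.2.2))

/-- same position, one member -/
def same1 (P : PG G L) (y : L × L × L) (z z' : L) : Prop := pos P y z = pos P y z'

/-- same position, two members -/
def same2 (P : PG G L) (y : L × L × L) (x x' : L × L) : Prop :=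
  pos P y x.1 = pos P y x'.1 ∧ pos P y x.2 = pos P y x'.2

/-- same position, three members -/
def same3 (P : PG G L) (y x x' : L × L × L) : Prop :=
  pos P y x.1 = pos P y x'.1 ∧ pos P y x.2.1 = pos P y x'.2.1 ∧ pos P y x.2.2 = pos P y x'.2.2

/-- the span property for all flag spaces -/
structure GSP (P : PG G L) (H : Subgroup G) : Prop where
  one : ∀ a b c d, Span H (F1 P a) (F3 P b c d) (same1 P)
  two : ∀ a a' b c d, Span H (F2 P a a') (F3 P b c d) (same2 P)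
  three : ∀ a a' a'' b c d, Span H (F3 P a a' a'') (F3 P b c d) (same3 P)

/-- line of the interval `[o, t]` -/
def Ln (P : PG G L) (o t l : L) : Prop := o ≤ l ∧ l ≤ t ∧ P.d o l = 2

/-- the number of members of `R` below `t` -/
noncomputable def cnt (R : Set L) (t : L) : ℕ := {e | e ∈ R ∧ e ≤ t}.ncard

/-- the number of members of `C` inside `S` meeting `l`, other than `l` -/
noncomputable def kap (C : Set L) (l S : L) : ℕ := {m | m ∈ C ∧ m ≤ S ∧ m ≠ l ∧ m ⊓ l ≠ ⊥}.ncard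

/-- case B: the lines of `C` through the point `x` are the lines through `x` in `W x` -/
structure BS (P : PG G L) (C : Set L) (W : L → L) (w : ℕ) : Prop where
  five : 5 ≤ P.n
  sub : ∀ l ∈ C, P.rk l = 2
  le : ∀ x, P.rk x = 1 → x ≤ W x
  rk : ∀ x, P.rk x = 1 → P.rk (W x) = w
  mem : ∀ x l, P.rk x = 1 → P.rk l = 2 → x ≤ l → (l ∈ C ↔ l ≤ W x)
  two : 2 ≤ w
  lt : w < P.n
  i1 : (∃ k, ∀ l π, l ∈ C → l ≤ π → P.rk π = 3 → cnt C π = k) ∨
    ∃ k, ∀ l π, P.rk l = 2 → l ∉ C → l ≤ π → P.rk π = 3 → cnt C π = k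
  i3 : ∃ c₀ c₁ c₂ c₃ : ℂ,
    (∀ l S, l ∈ C → l ≤ S → P.rk S = 4 → (cnt C S : ℂ) = c₀ + c₁ + c₂ * kap C l S + c₃ * cnt C S) ∧
    ∀ l S, P.rk l = 2 → l ∉ C → l ≤ S → P.rk S = 4 → 0 = c₀ + c₂ * kap C l S + c₃ * cnt C S

/-- the stabiliser of every plane is flag-transitive on it -/
def PlFl (P : PG G L) (H : Subgroup G) : Prop :=
  ∀ y ∈ F3 P 1 2 3, ∀ y' ∈ F3 P 1 2 3, y.2.2 = y'.2.2 → ∃ g ∈ H, g • y = y'

/-- the stabiliser of some flag `x ≤ l` is transitive on the other points of `l` -/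
def Loc (P : PG G L) (H : Subgroup G) : Prop :=
  ∃ x l, P.rk x = 1 ∧ P.rk l = 2 ∧ x ≤ l ∧ Tr (Stab (Stab H l) x) {e | P.Pt ⊥ l e ∧ e ≠ x}

end Geo

section Lin

variable {F V : Type*} [Field F] [AddCommGroup V] [Module F V]

/-- scalar map -/
def Sc (g : V ≃ₗ[F] V) : Prop := ∃ c : F, ∀ v, g v = c • v

/-- the standing hypothesis -/
structure Hyp [Finite F] [Finite V] (H : Subgroup (V ≃ₗ[F] V)) : Prop where
  five : 5 ≤ finrank F V
  gsp : GSP (lin F V) H
  irr : ∀ U : Submodule F V, Fx H U → U = ⊥ ∨ U = ⊤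
  sc : ∀ g, Sc g → g ∈ H
  inv : ∃ t ∈ H, ¬ Sc t ∧ Sc (t * t)

end Lin

end CfsgLib.KL
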