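import Mathlib
import Cfsg.Agent.Lib.KL.Defs

/-! KL: the common tools. -/

set_option autoImplicit false
set_option linter.unusedSectionVars false

namespace CfsgLib.KL

open CfsgLib.CK

section Sm

variable {X : Type*} [Finite X] {S : Set X} {u : X → ℂ}

theorem sm_single (x : X) (u : X → ℂ) : sm {x} u = u x := finsum_mem_singleton

theorem sm_empty (u : X → ℂ) : sm ∅ u = 0 := finsum_mem_empty

theorem sm_eq_sum (S : Set X) (u : X → ℂ) : sm S u = ∑ x ∈ S.toFinite.toFinset, u x :=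
  finsum_mem_eq_finite_toFinset_sum u S.toFinite

/-- if the sum is zero and all values are `0` or `u a`, then `u a = 0` -/
theorem sm_zero (h : sm S u = 0) {a : X} (ha : a ∈ S) (hb : ∀ b ∈ S, u b = 0 ∨ u b = u a) : u a = 0 := by
  classical
  by_contra h0
  rw [sm_eq_sum, ← Finset.sum_filter_ne_zero, Finset.sum_congr rfl (g := fun _ => u a) fun b hb' => by
    rw [Finset.mem_filter, Set.Finite.mem_toFinset] at hb'
    exact (hb b hb'.1).resolve_left hb'.2, Finset.sum_const, nsmul_eq_mul, mul_eq_zero, or_iff_left h0,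
    Nat.cast_eq_zero, Finset.card_eq_zero] at h
  exact Finset.notMem_empty a (h ▸ Finset.mem_filter.2 ⟨(Set.Finite.mem_toFinset _).2 ha, h0⟩)

/-- downward induction on a potential -/
theorem inj_of_panels {A : Set X} (μ : X → ℕ)
    (h : ∀ x ∈ A, u x = 0 ∨ ∃ S ⊆ A, x ∈ S ∧ sm S u = 0 ∧ ∀ x' ∈ S, u x' = u x ∨ μ x < μ x') :
    ∀ x ∈ A, u x = 0 := by
  obtain ⟨M, hM⟩ := (Set.finite_range μ).bddAbove
  have key : ∀ k, ∀ x ∈ A, M ≤ μ x + k → u x = 0 := by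
    intro k
    induction k with
    | zero =>
      intro x hx hk
      obtain h | ⟨S, hS, h1, h2, h3⟩ := h x hx
      · exact h
      · exact sm_zero h2 h1 fun b hb => .inr ((h3 b hb).resolve_right fun h4 => by
          have := hM ⟨b, rfl⟩; omega)
    | succ k ih =>
      intro x hx hk
      obtain h | ⟨S, hS, h1, h2, h3⟩ := h x hx
      · exact h
      · exact sm_zero h2 h1 fun b hb => (h3 b hb).symm.imp_left fun h4 => ih b (hS hb) (by omega)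
  exact fun x hx => key M x hx (by omega)

end Sm

section Act

variable {G : Type*} [Group G] {X Y : Type*} [MulAction G X] [MulAction G Y] {H : Subgroup G} {A O : Set X}
  {B : Set Y} {same : Y → X → X → Prop}

theorem inv_iff (hO : Inv H O) {g : G} (hg : g ∈ H) {x : X} : g • x ∈ O ↔ x ∈ O :=
  ⟨fun h => by simpa using hO g⁻¹ (inv_mem hg) _ h, hO g hg x⟩

theorem Eqv.ncard {Q : Y → Set X} (hQ : Eqv G Q) (O : Set X) (g : G) (y : Y) :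
    {x | x ∈ Q y ∧ g • x ∈ O}.ncard = (O ∩ Q (g • y)).ncard :=
  Set.ncard_congr (fun x _ => g • x) (fun x hx => ⟨hx.2, (hQ g y x).2 hx.1⟩) (fun _ _ _ _ h => smul_left_cancel g h)
    fun x hx => ⟨g⁻¹ • x, ⟨(hQ g y _).1 (by simpa using hx.2), by simpa using hx.1⟩, smul_inv_smul g x⟩

/-- the counts are `H`-invariant -/
theorem Eqv.cnt_inv {Q : Y → Set X} (hQ : Eqv G Q) (hO : Inv H O) {g : G} (hg : g ∈ H) (y : Y) :
    (O ∩ Q (g • y)).ncard = (O ∩ Q y).ncard := by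
  rw [← hQ.ncard]
  congr 1
  ext x
  simp only [Set.mem_setOf_eq, inv_iff hO hg, Set.mem_inter_iff, and_comm]

/-- the counts are constant on a set on which `H` is transitive -/
theorem Eqv.cnt_tr {Q : Y → Set X} (hQ : Eqv G Q) (hO : Inv H O) {Z : Set Y} (hZ : Tr H Z) {y y' : Y} (hy : y ∈ Z)
    (hy' : y' ∈ Z) : (O ∩ Q y).ncard = (O ∩ Q y').ncard := by
  obtain ⟨g, hg, rfl⟩ := hZ y hy y' hy'
  exact (hQ.cnt_inv hO hg y).symm

/-- the members of an equivariant family over a `G`-invariant set on which `H` is transitive are balanced -/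
theorem Eqv.bal {Q : Y → Set X} (hQ : Eqv G Q) (hO : Inv H O) {Z : Set Y} (hZ : Tr H Z)
    (hG : ∀ g : G, ∀ z ∈ Z, g • z ∈ Z) {z : Y} (hz : z ∈ Z) : Bal G O (Q z) := fun g =>
  (hQ.ncard O g z).trans (hQ.cnt_tr hO hZ (hG g z hz) hz)

theorem bal_self (hA : ∀ g : G, ∀ x ∈ A, g • x ∈ A) (O : Set X) : Bal G O A := fun g =>
  Eqv.ncard (Y := X → X) (Q := fun _ => A)
    (fun g _ x => ⟨fun h => by simpa using hA g⁻¹ _ h, hA g x⟩) O g id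

theorem eqv_single {pt : Y → X} (h : ∀ (g : G) y, pt (g • y) = g • pt y) : Eqv G fun y => {pt y} := fun g y x => by
  simp [h]

theorem Part.compl (h : Part H A O) (hA : Inv H A) : Part H A (A \ O) where
  sub := Set.diff_subset
  inv g hg x hx := ⟨hA g hg x hx.1, fun h' => hx.2 ((inv_iff h.inv hg).1 h')⟩
  ne := h.ne'
  ne' := let ⟨x, hx⟩ := h.ne; ⟨x, h.sub hx, fun h' => h'.2 hx⟩

theorem inv_orb (H : Subgroup G) (a : X) : Inv H (orb H a) := by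
  rintro g hg _ ⟨k, hk, rfl⟩
  exact ⟨g * k, mul_mem hg hk, mul_smul g k a⟩

theorem exists_part (hA : Inv H A) (h : ¬ Tr H A) : ∃ O, Part H A O := by
  unfold Tr at h
  push Not at h
  obtain ⟨a, ha, b, hb, h⟩ := h
  exact ⟨orb H a, by rintro _ ⟨g, hg, rfl⟩; exact hA g hg a ha, inv_orb H a, ⟨a, 1, one_mem H, one_smul G a⟩,
    b, hb, fun ⟨g, hg, e⟩ => h g hg e⟩

theorem ncard_inter_single (O : Set X) (x : X) [Decidable (x ∈ O)] : (O ∩ {x}).ncard = if x ∈ O then 1 else 0 := by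
  split_ifs with h
  · rw [Set.inter_eq_right.2 (by simpa using h), Set.ncard_singleton]
  · rw [Set.inter_singleton_eq_empty.2 h, Set.ncard_empty]

theorem Span.q1 (h : Span H A B same) (hO : Part H A O) {Q : Y → Set X} (s : ∀ y ∈ B, Q y ⊆ A) (e : Eqv G Q)
    (inj : ∀ y ∈ B, ∀ u, Adm G A O (same y) u → sm (Q y) u = 0 → ∀ x ∈ A, u x = 0)
    (hh : Y → ℂ) (hi : ∀ g ∈ H, ∀ y, hh (g • y) = hh y) :
    ∃ c₀ c₁ : ℂ, ∀ y ∈ B, hh y = c₀ + c₁ * (O ∩ Q y).ncard := by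
  obtain ⟨c₀, c, hc⟩ := h O hO 1 (fun _ => Q) (fun _ => s) (fun _ => e) (fun y hy u hu h1 => inj y hy u hu (h1 0)) hh hi
  exact ⟨c₀, c 0, fun y hy => by simpa using hc y hy⟩

theorem Span.q2 (h : Span H A B same) (hO : Part H A O) {Q₁ Q₂ : Y → Set X} (s₁ : ∀ y ∈ B, Q₁ y ⊆ A)
    (s₂ : ∀ y ∈ B, Q₂ y ⊆ A) (e₁ : Eqv G Q₁) (e₂ : Eqv G Q₂)
    (inj : ∀ y ∈ B, ∀ u, Adm G A O (same y) u → sm (Q₁ y) u = 0 → sm (Q₂ y) u = 0 → ∀ x ∈ A, u x = 0)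
    (hh : Y → ℂ) (hi : ∀ g ∈ H, ∀ y, hh (g • y) = hh y) :
    ∃ c₀ c₁ c₂ : ℂ, ∀ y ∈ B, hh y = c₀ + c₁ * (O ∩ Q₁ y).ncard + c₂ * (O ∩ Q₂ y).ncard := by
  obtain ⟨c₀, c, hc⟩ := h O hO 2 ![Q₁, Q₂] (Fin.forall_fin_two.2 ⟨s₁, s₂⟩) (Fin.forall_fin_two.2 ⟨e₁, e₂⟩)
    (fun y hy u hu h1 => inj y hy u hu (h1 0) (h1 1)) hh hi
  exact ⟨c₀, c 0, c 1, fun y hy => by simpa [add_assoc] using hc y hy⟩

theorem Span.q3 (h : Span H A B same) (hO : Part H A O) {Q₁ Q₂ Q₃ : Y → Set X} (s₁ : ∀ y ∈ B, Q₁ y ⊆ A)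
    (s₂ : ∀ y ∈ B, Q₂ y ⊆ A) (s₃ : ∀ y ∈ B, Q₃ y ⊆ A) (e₁ : Eqv G Q₁) (e₂ : Eqv G Q₂) (e₃ : Eqv G Q₃)
    (inj : ∀ y ∈ B, ∀ u, Adm G A O (same y) u → sm (Q₁ y) u = 0 → sm (Q₂ y) u = 0 → sm (Q₃ y) u = 0 →
      ∀ x ∈ A, u x = 0) (hh : Y → ℂ) (hi : ∀ g ∈ H, ∀ y, hh (g • y) = hh y) :
    ∃ c₀ c₁ c₂ c₃ : ℂ, ∀ y ∈ B,
      hh y = c₀ + c₁ * (O ∩ Q₁ y).ncard + c₂ * (O ∩ Q₂ y).ncard + c₃ * (O ∩ Q₃ y).ncard := by
  obtain ⟨c₀, c, hc⟩ := h O hO 3 ![Q₁, Q₂, Q₃] (fun i => by fin_cases i <;> assumption)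
    (fun i => by fin_cases i <;> assumption) (fun y hy u hu h1 => inj y hy u hu (h1 0) (h1 1) (h1 2)) hh hi
  exact ⟨c₀, c 0, c 1, c 2, fun y hy => by simpa [add_assoc, Fin.sum_univ_three] using hc y hy⟩

/-- one count: it takes at most two values -/
theorem Span.two (h : Span H A B same) (hO : Part H A O) {Q : Y → Set X} (s : ∀ y ∈ B, Q y ⊆ A) (e : Eqv G Q)
    (inj : ∀ y ∈ B, ∀ u, Adm G A O (same y) u → sm (Q y) u = 0 → ∀ x ∈ A, u x = 0) :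
    ∃ a b : ℕ, ∀ y ∈ B, (O ∩ Q y).ncard = a ∨ (O ∩ Q y).ncard = b := by
  obtain ⟨c₀, c₁, hc⟩ := h.q1 hO s e inj (fun y => ((O ∩ Q y).ncard : ℂ) ^ 2) fun g hg y => by
    rw [e.cnt_inv hO.inv hg]
  by_contra! h1
  obtain ⟨y, hy, -⟩ := h1 0 0
  obtain ⟨y', hy', h2, -⟩ := h1 (O ∩ Q y).ncard 0
  obtain ⟨y'', hy'', h3, h4⟩ := h1 (O ∩ Q y).ncard (O ∩ Q y').ncard
  have a1 := hc y hy
  have a2 := hc y' hy'
  have a3 := hc y'' hy''
  have b2 : ((O ∩ Q y').ncard : ℂ) - (O ∩ Q y).ncard ≠ 0 := sub_ne_zero.2 (by exact_mod_cast h2)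
  have b3 : ((O ∩ Q y'').ncard : ℂ) - (O ∩ Q y).ncard ≠ 0 := sub_ne_zero.2 (by exact_mod_cast h3)
  have b4 : ((O ∩ Q y'').ncard : ℂ) - (O ∩ Q y').ncard ≠ 0 := sub_ne_zero.2 (by exact_mod_cast h4)
  refine mul_ne_zero (mul_ne_zero b2 b3) b4 ?_
  linear_combination (((O ∩ Q y'').ncard : ℂ) - (O ∩ Q y').ncard) * a1 -
    (((O ∩ Q y'').ncard : ℂ) - (O ∩ Q y).ncard) * a2 + (((O ∩ Q y').ncard : ℂ) - (O ∩ Q y).ncard) * a3

/-- a marked element and one count: the count is constant on the marked or on the unmarked flags -/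
theorem Span.dich (h : Span H A B same) (hO : Part H A O) {pt : Y → X} {Q : Y → Set X} (s₁ : ∀ y ∈ B, pt y ∈ A)
    (s₂ : ∀ y ∈ B, Q y ⊆ A) (e₁ : ∀ (g : G) y, pt (g • y) = g • pt y) (e₂ : Eqv G Q)
    (inj : ∀ y ∈ B, ∀ u, Adm G A O (same y) u → u (pt y) = 0 → sm (Q y) u = 0 → ∀ x ∈ A, u x = 0) :
    (∃ k, ∀ y ∈ B, pt y ∈ O → (O ∩ Q y).ncard = k) ∨ ∃ k, ∀ y ∈ B, pt y ∉ O → (O ∩ Q y).ncard = k := by
  classical
  obtain ⟨c₀, c₁, c₂, hc⟩ := h.q2 hO (Q₁ := fun y => {pt y}) (fun y hy => by simpa using s₁ y hy) s₂ (eqv_single e₁)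
    e₂ (fun y hy u hu h1 => inj y hy u hu (finsum_mem_singleton.symm.trans h1))
    (fun y => ((O ∩ {pt y}).ncard : ℂ) * (O ∩ Q y).ncard) fun g hg y => by
      rw [e₂.cnt_inv hO.inv hg, (eqv_single e₁).cnt_inv hO.inv hg]
  simp only [ncard_inter_single] at hc
  by_contra! h1
  obtain ⟨h1, h2⟩ := h1
  obtain ⟨y, hy, a1, -⟩ := h1 0
  obtain ⟨y', hy', a2, a3⟩ := h1 (O ∩ Q y).ncard
  obtain ⟨z, hz, a4, -⟩ := h2 0
  obtain ⟨z', hz', a5, a6⟩ := h2 (O ∩ Q z).ncard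
  have b1 := hc y hy
  have b2 := hc y' hy'
  have b3 := hc z hz
  have b4 := hc z' hz'
  simp only [a1, a2, a4, a5, if_true, if_false, Nat.cast_one, Nat.cast_zero] at b1 b2 b3 b4
  have d1 : ((O ∩ Q y').ncard : ℂ) - (O ∩ Q y).ncard ≠ 0 := sub_ne_zero.2 (by exact_mod_cast a3)
  have d2 : ((O ∩ Q z').ncard : ℂ) - (O ∩ Q z).ncard ≠ 0 := sub_ne_zero.2 (by exact_mod_cast a6)
  refine mul_ne_zero d1 d2 ?_
  linear_combination (((O ∩ Q z').ncard : ℂ) - (O ∩ Q z).ncard) * (b2 - b1) -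
    (((O ∩ Q y').ncard : ℂ) - (O ∩ Q y).ncard) * (b4 - b3)

/-- the counts separate the orbits -/
theorem Span.orb2 (h : Span H A B same) (hO : Part H A O) {Q₁ Q₂ : Y → Set X} (s₁ : ∀ y ∈ B, Q₁ y ⊆ A)
    (s₂ : ∀ y ∈ B, Q₂ y ⊆ A) (e₁ : Eqv G Q₁) (e₂ : Eqv G Q₂)
    (inj : ∀ y ∈ B, ∀ u, Adm G A O (same y) u → sm (Q₁ y) u = 0 → sm (Q₂ y) u = 0 → ∀ x ∈ A, u x = 0)
    {y y' : Y} (hy : y ∈ B) (hy' : y' ∈ B) (h1 : (O ∩ Q₁ y).ncard = (O ∩ Q₁ y').ncard)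
    (h2 : (O ∩ Q₂ y).ncard = (O ∩ Q₂ y').ncard) : ∃ g ∈ H, g • y = y' := by
  classical
  obtain ⟨c₀, c₁, c₂, hc⟩ := h.q2 hO s₁ s₂ e₁ e₂ inj (fun z => if z ∈ orb H y then 1 else 0) fun g hg z => by
    simp only [inv_iff (inv_orb H y) hg]
  have a1 := hc y hy
  rw [h1, h2, ← hc y' hy', if_pos ⟨1, one_mem H, one_smul G y⟩] at a1
  by_contra h3
  rw [if_neg (show y' ∉ orb H y from h3)] at a1
  exact one_ne_zero a1

theorem Span.orb1 (h : Span H A B same) (hO : Part H A O) {Q : Y → Set X} (s : ∀ y ∈ B, Q y ⊆ A) (e : Eqv G Q)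
    (inj : ∀ y ∈ B, ∀ u, Adm G A O (same y) u → sm (Q y) u = 0 → ∀ x ∈ A, u x = 0)
    {y y' : Y} (hy : y ∈ B) (hy' : y' ∈ B) (h1 : (O ∩ Q y).ncard = (O ∩ Q y').ncard) : ∃ g ∈ H, g • y = y' :=
  h.orb2 hO s s e e (fun y hy u hu h _ => inj y hy u hu h) hy hy' h1 h1

end Act

section Geo

variable {G L : Type*} [Group G] [CompleteLattice L] [MulAction G L] {P : PG G L}

theorem smul_F1 {a : ℕ} (g : G) : ∀ z ∈ F1 P a, g • z ∈ F1 P a := fun z hz => (P.rk_smul g z).trans hz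

theorem smul_F2 {a b : ℕ} (g : G) : ∀ x ∈ F2 P a b, g • x ∈ F2 P a b := fun x hx =>
  ⟨P.smul_mono g hx.1, (P.rk_smul g _).trans hx.2.1, (P.rk_smul g _).trans hx.2.2⟩

theorem smul_F3 {a b c : ℕ} (g : G) : ∀ x ∈ F3 P a b c, g • x ∈ F3 P a b c := fun x hx =>
  ⟨P.smul_mono g hx.1, P.smul_mono g hx.2.1, (P.rk_smul g _).trans hx.2.2.1, (P.rk_smul g _).trans hx.2.2.2.1,
    (P.rk_smul g _).trans hx.2.2.2.2⟩

theorem ln_iff {o t l : L} : Ln P o t l ↔ o ≤ l ∧ l ≤ t ∧ P.rk l = P.rk o + 2 :=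
  and_congr_right fun h => and_congr_right fun _ => by have := P.rk_add_d h; omega

/-- the position only depends on the intersection with the top member -/
theorem pos_eq_of_inf {y : L × L × L} (h1 : y.1 ≤ y.2.1) (h2 : y.2.1 ≤ y.2.2) {z z' : L}
    (h : z ⊓ y.2.2 = z' ⊓ y.2.2) : pos P y z = pos P y z' := by
  have k : ∀ a ≤ y.2.2, z ⊓ a = z' ⊓ a := fun a ha => by
    rw [← inf_eq_right.2 ha, ← inf_assoc, h, inf_assoc]
  rw [pos, k _ (h1.trans h2), k _ h2, h, pos]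

/-- the potential -/
def mu (P : PG G L) (y : L × L × L) (z : L) : ℕ := P.rk (z ⊓ y.1) + P.rk (z ⊓ y.2.1) + P.rk (z ⊓ y.2.2)

theorem rk_inf_pt {o t e : L} (he : P.Pt o t e) (Y : L) [Decidable (e ≤ Y ⊔ o)] :
    P.rk (e ⊓ Y) = P.rk (o ⊓ Y) + if e ≤ Y ⊔ o then 1 else 0 := by
  have h1 := P.rk_sup_inf o (e ⊓ Y)
  have h2 : o ⊔ e ⊓ Y = e ⊓ (Y ⊔ o) := by rw [inf_comm e, ← P.modular he.1, sup_comm, inf_comm]
  have h3 := (P.pt_iff.1 he).2.2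
  rw [h2, ← inf_assoc, inf_eq_left.2 he.1] at h1
  split_ifs with h
  · rw [inf_eq_left.2 h] at h1; omega
  · rw [he.inf_eq le_sup_right h] at h1; omega

/-- a generic point `e` of `[o, t]` has the smallest position -/
theorem pos_or_mu {o t e e' : L} (he : P.Pt o t e) (he' : P.Pt o t e') {y : L × L × L}
    (h1 : e ≤ y.1 ⊔ o → t ≤ y.1 ⊔ o) (h2 : e ≤ y.2.1 ⊔ o → t ≤ y.2.1 ⊔ o) (h3 : e ≤ y.2.2 ⊔ o → t ≤ y.2.2 ⊔ o) :
    pos P y e' = pos P y e ∨ mu P y e < mu P y e' := by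
  classical
  have k : ∀ Y, (e ≤ Y ⊔ o → t ≤ Y ⊔ o) → P.rk (e ⊓ Y) ≤ P.rk (e' ⊓ Y) := fun Y h => by
    rw [rk_inf_pt he, rk_inf_pt he']
    split_ifs with a b
    exacts [le_rfl, (b (he'.2.1.trans (h a))).elim, by omega, le_rfl]
  have := k _ h1
  have := k _ h2
  have := k _ h3
  simp only [pos, mu, Prod.mk.injEq]
  omega

/-- the same when `e` is not below `y.2.2 ⊔ o` -/
theorem pos_or_mu' {o t e e' : L} (he : P.Pt o t e) (he' : P.Pt o t e') {y : L × L × L} (h1 : y.1 ≤ y.2.1)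
    (h2 : y.2.1 ≤ y.2.2) (h : ¬ e ≤ y.2.2 ⊔ o) : pos P y e' = pos P y e ∨ mu P y e < mu P y e' :=
  pos_or_mu he he' (fun a => (h (a.trans (sup_le_sup_right (h1.trans h2) o))).elim)
    (fun a => (h (a.trans (sup_le_sup_right h2 o))).elim) fun a => (h a).elim

/-- `e` is not below `Y ⊔ o` when `e ⊓ Y ≤ o < e` -/
theorem not_le_sup {o t e Y : L} (he : P.Pt o t e) (h : e ⊓ Y ≤ o) : ¬ e ≤ Y ⊔ o := fun a => by
  classical
  have h1 := rk_inf_pt he Y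
  have h2 := P.rk_mono (le_inf h inf_le_right : e ⊓ Y ≤ o ⊓ Y)
  rw [if_pos a] at h1
  omega

end Geo

end CfsgLib.KL
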