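import Mathlib
import Cfsg.Agent.Lib.KL.Base

/-! KL: generic points of an interval. -/

set_option autoImplicit false

namespace CfsgLib.KL

open CfsgLib.CK

variable {G L : Type*} [Group G] [CompleteLattice L] [MulAction G L] {P : PG G L}

theorem pt_smul (g : G) {o t e : L} : P.Pt (g • o) (g • t) (g • e) ↔ P.Pt o t e :=
  ⟨fun h => by simpa using h.smul g⁻¹, fun h => h.smul g⟩

theorem pt_smul_bot (g : G) {t e : L} : P.Pt ⊥ (g • t) (g • e) ↔ P.Pt ⊥ t e := by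
  rw [← pt_smul (P := P) g (o := ⊥) (t := t) (e := e), P.smul_bot]

theorem pt_smul_top (g : G) {o e : L} : P.Pt (g • o) ⊤ (g • e) ↔ P.Pt o ⊤ e := by
  rw [← pt_smul (P := P) g (o := o) (t := ⊤) (e := e), P.smul_top]

/-- the members of a flag -/
def yy (y : L × L × L) : Fin 3 → L := ![y.1, y.2.1, y.2.2]

theorem yy_mono {y : L × L × L} (h1 : y.1 ≤ y.2.1) (h2 : y.2.1 ≤ y.2.2) {a b : Fin 3} (h : a ≤ b) :
    yy y a ≤ yy y b := by
  fin_cases a <;> fin_cases b <;> first | exact le_rfl | exact h1 | exact h2 | exact h1.trans h2 | simp at h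

theorem yy_le {y : L × L × L} (h1 : y.1 ≤ y.2.1) (h2 : y.2.1 ≤ y.2.2) (a : Fin 3) : yy y a ≤ y.2.2 :=
  yy_mono h1 h2 (Fin.le_last a)

theorem gen_or {o t e : L} (he : P.Pt o t e) (y : L × L × L) :
    (∀ e', P.Pt o t e' → pos P y e' = pos P y e ∨ mu P y e < mu P y e') ∨
      ∃ a, e ≤ yy y a ⊔ o ∧ ¬ t ≤ yy y a ⊔ o := by
  refine or_iff_not_imp_right.2 fun h e' he' => ?_
  push Not at h
  exact pos_or_mu he he' (h 0) (h 1) (h 2)

theorem pt_inf_bot {x z : L} (hx : P.rk x = 1) (hz : P.rk z = 1) (h : z ≠ x) : z ⊓ x = ⊥ :=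
  (P.pt_bot_top.2 hz).inf_eq bot_le (P.not_le_of_ne (by omega) h)

theorem exists_sub_rk [Finite L] {t : L} {k : ℕ} (h : k ≤ P.rk t) : ∃ z ≤ t, P.rk z = k :=
  let ⟨z, _, a, b⟩ := P.exists_rk (bot_le : ⊥ ≤ t) (k := k) (by rw [P.rk_bot]; omega) h; ⟨z, a, b⟩

theorem exists_sup_rk [Finite L] {o : L} {k : ℕ} (h : P.rk o ≤ k) (h' : k ≤ P.n) : ∃ z, o ≤ z ∧ P.rk z = k :=
  let ⟨z, a, _, b⟩ := P.exists_rk (le_top : o ≤ ⊤) (k := k) h h'; ⟨z, a, b⟩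

end CfsgLib.KL
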