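import Mathlib
import Cfsg.Agent.Lib.KL.Base

/-! KL, package MS: sets of type (0, a, q+1) (plans/KL.md). -/

set_option autoImplicit false
set_option linter.unusedSectionVars false

namespace CfsgLib.KL

open CfsgLib.CK

variable {G L : Type*} [Group G] [CompleteLattice L] [MulAction G L] [Finite L] {P : PG G L} {H : Subgroup G}

namespace MsP

variable {o t x s l e : L} {R : Set L} {a : ℕ}

theorem cnt_split (R : Set L) (h : x ≤ s) : cnt R s = cnt R x + {e | e ∈ R ∧ e ≤ s ∧ ¬ e ≤ x}.ncard := by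
  rw [cnt, cnt, ← Set.ncard_union_eq (Set.disjoint_left.2 fun e h1 h2 => h2.2.2 h1.2)]
  congr 1
  ext e
  simp only [Set.mem_setOf_eq, Set.mem_union]
  exact ⟨fun k => by tauto, fun k => k.elim (fun k => ⟨k.1, k.2.trans h⟩) fun k => ⟨k.1, k.2.1⟩⟩

theorem cnt_zero : cnt R l = 0 ↔ ∀ e ∈ R, ¬ e ≤ l := by
  rw [cnt, Set.ncard_eq_zero (Set.toFinite _), Set.eq_empty_iff_forall_notMem]
  simp

theorem cnt_ne (he : e ∈ R) (h : e ≤ l) : cnt R l ≠ 0 := fun k => cnt_zero.1 k e he h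

/-- the points off `x` are partitioned by the points of `[x, s]` -/
theorem fib (hR : ∀ e ∈ R, P.Pt o t e) (hx : o ≤ x) (hs : x ≤ s) {M : Set L} {k : ℕ}
    (hM : ∀ m ∈ M, P.Pt x s m ∧ cnt R m = cnt R x + k) (hc : ∀ m, P.Pt x s m → m ∉ M → cnt R m = cnt R x) :
    cnt R s = cnt R x + M.ncard * k := by
  rw [cnt_split R hs, ← dc_eq {e | e ∈ R ∧ e ≤ s ∧ ¬ e ≤ x} M (fun e m => e ≤ m) (m := 1) (fun e he => ?_)
    fun m hm => ?_, mul_one]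
  · have h1 := ((hR e he.1).mono he.2.1).sup_pt hx hs he.2.2
    rw [Set.ncard_eq_one]
    refine ⟨x ⊔ e, Set.eq_singleton_iff_unique_mem.2 ⟨⟨by_contra fun k => ?_, le_sup_right⟩, fun m hm =>
      (h1.eq_of_le (hM m hm.1).1 (sup_le (hM m hm.1).1.1 hm.2)).symm⟩⟩
    have h2 := cnt_split R h1.1
    have h3 := (Set.ncard_pos (Set.toFinite _)).2
      (⟨e, he.1, le_sup_right, he.2.2⟩ : {e' | e' ∈ R ∧ e' ≤ x ⊔ e ∧ ¬ e' ≤ x}.Nonempty)
    have h4 := hc _ h1 k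
    omega
  · have h2 := cnt_split R (hM m hm).1.1
    rw [(hM m hm).2, Nat.add_right_inj] at h2
    rw [h2]
    congr 1
    ext e
    exact ⟨fun k => ⟨k.1.1, k.2, k.1.2.2⟩, fun k => ⟨⟨k.1, k.2.1.trans (hM m hm).1.2.1, k.2.2⟩, k.2.1⟩⟩

theorem cnt_in (hR : ∀ e ∈ R, P.Pt o t e) (hx : x ∈ R) : cnt R x = 1 :=
  Set.ncard_eq_one.2 ⟨x, Set.eq_singleton_iff_unique_mem.2 ⟨⟨hx, le_rfl⟩, fun e he =>
    (hR e he.1).eq_of_le (hR x hx) he.2⟩⟩

theorem cnt_out (hR : ∀ e ∈ R, P.Pt o t e) (hx : P.Pt o t x) (hn : x ∉ R) : cnt R x = 0 :=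
  cnt_zero.2 fun e he k => hn ((hR e he).eq_of_le hx k ▸ he)

theorem ln_of (hx : P.Pt o t x) (hl : P.Pt x s l) : Ln P o s l :=
  ⟨hx.1.trans hl.1, hl.2.1, by rw [P.d_add hx.1 hl.1, hx.2.2, hl.2.2]⟩

theorem Ln.mono (h : Ln P o s l) (hs : s ≤ t) : Ln P o t l := ⟨h.1, h.2.1.trans hs, h.2.2⟩

/-- the count from a point of `R` -/
theorem from_in (hR : ∀ e ∈ R, P.Pt o t e) (hx : x ∈ R) (hs : x ≤ s)
    (ha : ∀ l, Ln P o s l → cnt R l = 0 ∨ cnt R l = a + 1) : cnt R s = 1 + P.θ (P.d x s) * a := by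
  rw [fib hR (hR x hx).1 hs (M := {m | P.Pt x s m}) (k := a) (fun m hm => ⟨hm, by
    rw [cnt_in hR hx, add_comm]
    exact (ha m (ln_of (hR x hx) hm)).resolve_left (cnt_ne hx hm.1)⟩) (fun m h1 h2 => (h2 h1).elim),
    cnt_in hR hx, P.ncard_pt hs]

/-- the count from a subspace disjoint from `R` -/
theorem from_out (hR : ∀ e ∈ R, P.Pt o t e) (hx : o ≤ x) (hs : x ≤ s) (h0 : cnt R x = 0)
    (ha : ∀ m, P.Pt x s m → cnt R m = 0 ∨ cnt R m = a) :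
    cnt R s = {m | P.Pt x s m ∧ cnt R m ≠ 0}.ncard * a := by
  rw [fib hR hx hs (M := {m | P.Pt x s m ∧ cnt R m ≠ 0}) (k := a) (fun m hm => ⟨hm.1, by
    rw [h0, zero_add]
    exact (ha m hm.1).resolve_left hm.2⟩) (fun m h1 h2 => by
      rw [h0]
      by_contra k
      exact h2 ⟨h1, k⟩), h0, zero_add]

theorem d_pt (hx : P.Pt o t x) (hs : x ≤ s) : P.d o s = P.d x s + 1 := by
  rw [P.d_add hx.1 hs, hx.2.2, add_comm]

theorem arc (hR : ∀ e ∈ R, P.Pt o t e) (h3 : P.d o s = 3) (hx : x ∈ R) (hs : x ≤ s) (he : P.Pt o t e) (hes : e ≤ s)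
    (hn : e ∉ R) (ha : ∀ l, Ln P o s l → cnt R l = 0 ∨ cnt R l = a) : a ∣ P.q := by
  have d1 := d_pt (hR x hx) hs
  obtain ⟨m, hm⟩ := P.exists_pt' (o := x) (t := s) (hs.lt_of_ne fun k => by
    rw [← k, P.d_self, (hR x hx).2.2] at d1
    rw [← k, (hR x hx).2.2] at h3
    omega)
  obtain ⟨c, rfl⟩ : ∃ c, a = c + 1 := Nat.exists_eq_succ_of_ne_zero fun k =>
    (ha m (ln_of (hR x hx) hm)).elim (cnt_ne hx hm.1) fun e => cnt_ne hx hm.1 (e.trans k)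
  have h1 := from_in hR hx hs ha
  have h2 := from_out hR he.1 hes (cnt_out hR he hn) fun m hm => ha m (ln_of he hm)
  rw [show P.d x s = 2 by omega, P.θ_two, h2] at h1
  refine (Nat.dvd_add_right (Dvd.intro_left _ rfl : c + 1 ∣ {m | P.Pt e s m ∧ cnt R m ≠ 0}.ncard * (c + 1))).1 ?_
  exact ⟨P.q + 1, by rw [h1]; ring⟩

/-- the complement -/
def co (P : PG G L) (o t : L) (R : Set L) : Set L := {e | P.Pt o t e ∧ e ∉ R}

theorem cnt_co (hR : ∀ e ∈ R, P.Pt o t e) (hl : Ln P o t l) : cnt (co P o t R) l + cnt R l = P.q + 1 := by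
  rw [← P.θ_two, ← hl.2.2, ← P.ncard_pt hl.1, cnt, cnt,
    ← Set.ncard_union_eq (Set.disjoint_left.2 fun e h1 h2 => h1.1.2 h2.1)]
  congr 1
  ext e
  simp only [Set.mem_setOf_eq, Set.mem_union, co]
  refine ⟨fun k => k.elim (fun k => k.1.1.mono k.2) fun k => (hR e k.1).mono k.2, fun k => ?_⟩
  by_cases h : e ∈ R
  · exact .inr ⟨h, k.2.1⟩
  · exact .inl ⟨⟨k.mono (k.2.1.trans hl.2.1), h⟩, k.2.1⟩

theorem ln_sup (hx : P.Pt o t x) (he : P.Pt o t e) (h : x ≠ e) : Ln P o t (x ⊔ e) :=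
  ln_of hx (he.sup_pt hx.1 hx.2.1 fun k => h (he.eq_of_le hx k).symm)

theorem no_full (h4 : 4 ≤ P.d o t) (hR : ∀ e ∈ R, P.Pt o t e) (hx : x ∈ R) (h2 : 2 ≤ a) (hq : a < P.q)
    (ha : ∀ l, Ln P o t l → cnt R l = 0 ∨ cnt R l = a) : False := by
  obtain ⟨c, rfl⟩ : ∃ c, a = c + 1 := ⟨a - 1, by omega⟩
  have px := hR x hx
  have d1 := d_pt px px.2.1
  obtain ⟨S, s1, s2, s3⟩ := P.exists_d px.2.1 (k := 3) (by omega)
  have w : ∀ π ≤ t, P.d o π = 3 → cnt R π = 0 ∨ cnt R π = 1 + (P.q + 1) * c := fun π h1 h2 => by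
    rw [or_iff_not_imp_left, cnt_zero]
    push Not
    rintro ⟨y, hy, k⟩
    have := d_pt (hR y hy) k
    rw [from_in hR hy k fun l hl => ha l (Ln.mono hl h1), show P.d y π = 2 by omega, P.θ_two]
  obtain ⟨π, p1, p2, p3⟩ := P.exists_d s1 (k := 2) (by omega)
  obtain ⟨m, m1, m2, m3⟩ := P.exists_d p1 (k := 1) (by omega)
  have lm := Ln.mono (ln_of px ⟨m1, m2, m3⟩) (p2.trans s2)
  obtain ⟨y, hy, ym⟩ : ∃ y ∈ co P o t R, y ≤ m := by
    by_contra! k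
    have := cnt_co hR lm
    have := cnt_zero.2 k
    have := ha m lm
    omega
  have dπ := d_pt px p1
  have dy := d_pt hy.1 (ym.trans m2)
  have wπ := (w π (p2.trans s2) (by omega)).resolve_left (cnt_ne hx p1)
  obtain ⟨l, l1, l2⟩ : ∃ l, P.Pt y π l ∧ cnt R l = 0 := by
    by_contra! k
    have := from_out hR hy.1.1 (ym.trans m2) (cnt_out hR hy.1 hy.2) fun l hl =>
      ha l (Ln.mono (ln_of hy.1 hl) (p2.trans s2))
    rw [show {m | P.Pt y π m ∧ cnt R m ≠ 0} = {m | P.Pt y π m} from Set.ext fun l => and_iff_left_of_imp (k l),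
      P.ncard_pt (ym.trans m2), show P.d y π = 2 by omega, P.θ_two, wπ] at this
    have := P.two_le_q
    nlinarith
  have ll := ln_of hy.1 l1
  have h1 := from_in hR hx s1 fun l hl => ha l (Ln.mono hl s2)
  rw [from_out hR ll.1 (ll.2.1.trans p2) l2 fun ρ hρ => w ρ (hρ.2.1.trans s2) (by
    rw [P.d_add ll.1 hρ.1, ll.2.2, hρ.2.2]), s3, P.θ_three] at h1
  have h3 : 1 + (P.q + 1) * c ∣ P.q ^ 2 * c :=
    (Nat.dvd_add_right dvd_rfl).1 ⟨_, by rw [mul_comm _ (Set.ncard _), h1]; ring⟩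
  have h5 : 1 + (P.q + 1) * c ∣ P.q ^ 2 :=
    Nat.Coprime.dvd_of_dvd_mul_right (by simp) h3
  obtain ⟨j, hj⟩ := P.exists_pow 2
  obtain ⟨i, hi⟩ := P.qp
  rw [hj, Nat.dvd_prime_pow P.pp] at h5
  obtain ⟨k, -, hk⟩ := h5
  have h6 : P.q ∣ 1 + (P.q + 1) * c := by
    rw [hk]
    nth_rw 1 [hi]
    refine pow_dvd_pow _ ((Nat.pow_le_pow_iff_right P.pp.one_lt).1 ?_)
    rw [← hk, ← hi]
    nlinarith
  rw [show 1 + (P.q + 1) * c = P.q * c + (c + 1) by ring, Nat.dvd_add_right (dvd_mul_right _ _)] at h6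
  have := Nat.le_of_dvd (by omega) h6
  omega

theorem half (hR : ∀ e ∈ R, P.Pt o t e) (hx : x ∈ R) (hl : Ln P o t l) (h0 : cnt R l = 0)
    (ha : ∀ l, Ln P o t l → cnt R l = 0 ∨ cnt R l = a ∨ cnt R l = P.q + 1) : a ∣ P.q := by
  have px := hR x hx
  have h1 := px.sup_pt hl.1 hl.2.1 (cnt_zero.1 h0 x hx)
  have h3 : P.d o (l ⊔ x) = 3 := by rw [P.d_add hl.1 h1.1, hl.2.2, h1.2.2]
  have key : ∀ m, Ln P o (l ⊔ x) m → ∃ e, P.Pt o t e ∧ e ≤ m ∧ e ≤ l := fun m hm => by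
    have r1 := P.rk_sup_inf m l
    have r2 := P.rk_mono (sup_le hm.2.1 h1.1)
    have r3 := (ln_iff.1 hm).2.2
    have r4 := (ln_iff.1 hl).2.2
    have r5 := P.rk_add_d (hl.1.trans h1.1)
    obtain ⟨e, he⟩ := P.exists_pt' (P.lt_of_rk_lt (le_inf hm.1 hl.1) (by omega))
    exact ⟨e, he.mono (he.2.1.trans (inf_le_right.trans hl.2.1)), he.2.1.trans inf_le_left, he.2.1.trans inf_le_right⟩
  obtain ⟨e, e1, -, e2⟩ := key l ⟨hl.1, h1.1, hl.2.2⟩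
  refine arc hR h3 hx le_sup_right e1 (e2.trans h1.1) (fun k => cnt_zero.1 h0 e k e2) fun m hm => ?_
  have hm' := Ln.mono hm h1.2.1
  refine (ha m hm').imp_right fun k => k.resolve_right fun k => ?_
  obtain ⟨y, y1, y2, y3⟩ := key m hm
  have := cnt_co hR hm'
  exact cnt_ne (R := co P o t R) ⟨y1, fun k => cnt_zero.1 h0 y k y3⟩ y2 (by omega)

theorem one (hot : o ≤ t) (hR : ∀ e ∈ R, P.Pt o t e) (hx : x ∈ R) (he : P.Pt o t e) (hn : e ∉ R)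
    (ha : ∀ l, Ln P o t l → cnt R l = 0 ∨ cnt R l = 1 ∨ cnt R l = P.q + 1) :
    ∃ W, o < W ∧ W < t ∧ ∀ e, P.Pt o t e → (e ∈ R ↔ e ≤ W) := by
  have k := P.closed_pt hot hR fun y hy z hz e he hle => by
    by_cases h : y = z
    · rw [← h, sup_idem] at hle
      exact he.eq_of_le (hR y hy) hle ▸ hy
    have hl := ln_sup (hR y hy) (hR z hz) h
    have h1 : 1 < cnt R (y ⊔ z) := (Set.one_lt_ncard (Set.toFinite _)).2
      ⟨y, ⟨hy, le_sup_left⟩, z, ⟨hz, le_sup_right⟩, h⟩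
    have h2 := cnt_co hR hl
    have h3 := ha _ hl
    by_contra k
    exact cnt_ne (R := co P o t R) ⟨he, k⟩ hle (by omega)
  refine ⟨o ⊔ sSup R, (hR x hx).lt.trans_le (le_sup_of_le_right (le_sSup hx)),
    (sup_le hot (sSup_le fun y hy => (hR y hy).2.1)).lt_of_ne fun h => hn (k e he (h ▸ he.2.1)),
    fun y hy => ⟨fun h => le_sup_of_le_right (le_sSup h), k y hy⟩⟩

end MsP

open MsP

theorem arc_dvd {o t : L} (hot : o ≤ t) (h3 : P.d o t = 3) {R : Set L} (hR : ∀ e ∈ R, P.Pt o t e) (hne : R.Nonempty)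
    (hpr : ∃ e, P.Pt o t e ∧ e ∉ R) {b : ℕ} (hb : ∀ l, Ln P o t l → cnt R l = 0 ∨ cnt R l = b) : b ∣ P.q := by
  obtain ⟨x, hx⟩ := hne
  obtain ⟨e, he, hn⟩ := hpr
  exact arc hR h3 hx (hR x hx).2.1 he he.2.1 hn hb

theorem ms {o t : L} (hot : o ≤ t) (h4 : 4 ≤ P.d o t) {R : Set L} (hR : ∀ e ∈ R, P.Pt o t e) (hne : R.Nonempty)
    (hpr : ∃ e, P.Pt o t e ∧ e ∉ R) {a : ℕ} (ha : ∀ l, Ln P o t l → cnt R l = 0 ∨ cnt R l = a ∨ cnt R l = P.q + 1) :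
    ∃ W, o < W ∧ W < t ∧ ((∀ e, P.Pt o t e → (e ∈ R ↔ e ≤ W)) ∨ ∀ e, P.Pt o t e → (e ∉ R ↔ e ≤ W)) := by
  obtain ⟨x, hx⟩ := hne
  obtain ⟨e, he, hn⟩ := hpr
  have hC : ∀ y ∈ co P o t R, P.Pt o t y := fun y hy => hy.1
  have eC : e ∈ co P o t R := ⟨he, hn⟩
  have hl := ln_sup (hR x hx) he fun k => hn (k ▸ hx)
  have a1 := cnt_ne hx (le_sup_left : x ≤ x ⊔ e)
  have a2 := cnt_ne eC (le_sup_right : e ≤ x ⊔ e)
  have a3 := cnt_co hR hl
  have a4 := ha _ hl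
  have hb : ∀ l, Ln P o t l → cnt (co P o t R) l = 0 ∨ cnt (co P o t R) l = P.q + 1 - a ∨
      cnt (co P o t R) l = P.q + 1 := fun l hl => by
    have := cnt_co hR hl
    have := ha l hl
    omega
  by_cases h1 : a = 1
  · obtain ⟨W, w1, w2, w3⟩ := one hot hR hx he hn (h1 ▸ ha)
    exact ⟨W, w1, w2, .inl w3⟩
  by_cases h2 : a = P.q
  · obtain ⟨W, w1, w2, w3⟩ := one hot hC eC (hR x hx) (fun k => k.2 hx) (by simpa [h2] using hb)
    exact ⟨W, w1, w2, .inr fun y hy => by simpa [co, hy] using w3 y hy⟩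
  exfalso
  by_cases f : ∃ l, Ln P o t l ∧ cnt R l = P.q + 1
  swap
  · push Not at f
    exact no_full h4 hR hx (by omega) (by omega) fun l hl => (ha l hl).imp_right fun k => k.resolve_right (f l hl)
  obtain ⟨l, l1, l2⟩ := f
  by_cases f : ∃ l, Ln P o t l ∧ cnt R l = 0
  swap
  · push Not at f
    refine no_full h4 hC eC (a := P.q + 1 - a) (by omega) (by omega) fun l hl => (hb l hl).imp_right fun k =>
      k.resolve_right fun k => f l hl ?_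
    have := cnt_co hR hl
    omega
  obtain ⟨m, m1, m2⟩ := f
  have d1 := half hR hx m1 m2 ha
  have d2 := half hC eC l1 (by have := cnt_co hR l1; omega) hb
  obtain ⟨i, hi⟩ := P.qp
  have k : ∀ c, 2 ≤ c → c ∣ P.q → P.p ∣ c := fun c h1 h2 => by
    rw [hi, Nat.dvd_prime_pow P.pp] at h2
    obtain ⟨j, -, rfl⟩ := h2
    exact dvd_pow_self _ (by rintro rfl; simp at h1)
  have d3 := dvd_add (k a (by omega) d1) (k _ (by omega) d2)
  rw [show a + (P.q + 1 - a) = P.q + 1 by omega, Nat.dvd_add_right P.p_dvd_q] at d3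
  exact P.pp.one_lt.ne' (Nat.dvd_one.1 d3)

end CfsgLib.KL
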