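import Mathlib
import Cfsg.Agent.Lib.KL.Base

/-! KL, package T: two intersection numbers; coverings (plans/KL.md). -/

set_option autoImplicit false
set_option linter.unusedSectionVars false

namespace CfsgLib.KL

open CfsgLib.CK

variable {G L : Type*} [Group G] [CompleteLattice L] [MulAction G L] [Finite L] {P : PG G L} {H : Subgroup G}

namespace TP

theorem dc_sum {α β : Type*} [Finite α] [Finite β] (A : Set α) (B : Set β) (r : α → β → Prop) {m : ℕ}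
    (hA : ∀ a ∈ A, {b | b ∈ B ∧ r a b}.ncard = m) :
    ∑ b ∈ B.toFinite.toFinset, {a | a ∈ A ∧ r a b}.ncard = A.ncard * m := by
  classical
  have h := Finset.sum_card_bipartiteAbove_eq_sum_card_bipartiteBelow (s := A.toFinite.toFinset)
    (t := B.toFinite.toFinset) r
  rw [Set.ncard_eq_toFinset_card A, ← smul_eq_mul, ← Finset.sum_const]
  refine Eq.trans ?_ (h.symm.trans ?_)
  · refine Finset.sum_congr rfl fun b _ => ?_
    rw [← Set.ncard_coe_finset]; congr 1; ext; simp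
  · refine Finset.sum_congr rfl fun a ha => ?_
    rw [← hA a (by simpa using ha), ← Set.ncard_coe_finset]; congr 1; ext; simp

theorem ncard_offDiag {α : Type*} [Finite α] (S : Set α) : S.offDiag.ncard + S.ncard = S.ncard * S.ncard := by
  classical
  have h : S.offDiag = (S.toFinite.toFinset.offDiag : Finset (α × α)) := by rw [Finset.coe_offDiag]; simp
  rw [h, Set.ncard_coe_finset, Finset.offDiag_card, Set.ncard_eq_toFinset_card S]
  exact Nat.sub_add_cancel (Nat.le_mul_self _)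

theorem ln_of_pt {o t e l : L} (he : P.Pt o t e) : Ln P o t l ∧ e ≤ l ↔ P.Pt e t l := by
  rw [ln_iff, P.pt_iff]
  rw [P.pt_iff] at he
  constructor
  · rintro ⟨⟨_, h2, h3⟩, h4⟩
    exact ⟨h4, h2, by omega⟩
  · rintro ⟨h1, h2, h3⟩
    exact ⟨⟨he.1.trans h1, h2, by omega⟩, h1⟩

theorem d_pt {o t e : L} (he : P.Pt o t e) : P.d e t + 1 = P.d o t := by
  rw [P.d_add he.1 he.2.1, he.2.2, add_comm]

theorem ncard_ln {o t e : L} (he : P.Pt o t e) : {l | l ∈ {l | Ln P o t l} ∧ e ≤ l}.ncard = P.θ (P.d o t - 1) := by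
  rw [← d_pt he, Nat.add_sub_cancel, ← P.ncard_pt he.2.1]
  congr 1
  ext l
  exact ln_of_pt he

theorem pt_ln {o t l : L} (hl : Ln P o t l) : {e | e ∈ {e | P.Pt o t e} ∧ e ≤ l} = {e | P.Pt o l e} := by
  ext e
  exact ⟨fun h => h.1.mono h.2, fun h => ⟨h.mono (h.2.1.trans hl.2.1), h.2.1⟩⟩

theorem ncard_pt_ln {o t l : L} (hl : Ln P o t l) : {e | P.Pt o l e}.ncard = P.q + 1 := by
  rw [P.ncard_pt hl.1, hl.2.2, P.θ_two]

theorem ncard_lines {o t : L} (hot : o ≤ t) :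
    P.θ (P.d o t) * P.θ (P.d o t - 1) = {l | Ln P o t l}.ncard * (P.q + 1) := by
  rw [← P.ncard_pt hot]
  exact dc_eq _ _ (fun e l => e ≤ l) (fun e he => ncard_ln he) fun l hl => by rw [pt_ln hl, ncard_pt_ln hl]

theorem ncard_two {o t x y : L} (hx : P.Pt o t x) (hy : P.Pt o t y) (hn : x ≠ y) :
    {l | l ∈ {l | Ln P o t l} ∧ (x ≤ l ∧ y ≤ l)}.ncard = 1 := by
  have h1 : P.Pt x t (x ⊔ y) := hy.sup_pt hx.1 hx.2.1 fun h => hn (hy.eq_of_le hx h).symm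
  rw [Set.ncard_eq_one]
  refine ⟨x ⊔ y, Set.eq_singleton_iff_unique_mem.2 ⟨⟨((ln_of_pt hx).2 h1).1, le_sup_left, le_sup_right⟩, ?_⟩⟩
  rintro l ⟨hl, h2, h3⟩
  exact (h1.eq_of_le ((ln_of_pt hx).1 ⟨hl, h2⟩) (sup_le h2 h3)).symm

end TP

open TP

theorem lemT {o t : L} (hot : o ≤ t) (h3 : 3 ≤ P.d o t) {R : Set L} (hR : ∀ e ∈ R, P.Pt o t e) {a b u : ℕ}
    (hab : ∀ l, Ln P o t l → cnt R l = a ∨ cnt R l = b) (hu : R.ncard * (P.q + 1) = u * P.θ (P.d o t))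
    (h0 : 0 < u) (h1 : u < P.q + 1) : False := by
  rcases h3.eq_or_lt with h3 | h4
  · rw [← h3, P.θ_three] at hu
    have h2 : P.q + 1 ∣ u * (P.q * (P.q + 1)) + u := ⟨R.ncard, by linarith⟩
    have h5 : P.q + 1 ∣ u := (Nat.dvd_add_right (Dvd.dvd.mul_left (Dvd.intro_left _ rfl) _)).1 h2
    exact absurd (Nat.le_of_dvd h0 h5) (by omega)
  have e1 := ncard_lines (P := P) hot
  have e2 := dc_sum R {l | Ln P o t l} (fun e l => e ≤ l) fun e he => ncard_ln (hR e he)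
  have e3 := dc_sum R.offDiag {l | Ln P o t l} (fun x l => x.1 ≤ l ∧ x.2 ≤ l)
    fun x hx => ncard_two (hR _ hx.1) (hR _ hx.2.1) hx.2.2
  have e4 := TP.ncard_offDiag R
  have e5 : ∀ l ∈ {l | Ln P o t l}.toFinite.toFinset,
      {x | x ∈ R.offDiag ∧ x.1 ≤ l ∧ x.2 ≤ l}.ncard + {e | e ∈ R ∧ e ≤ l}.ncard + a * b =
        (a + b) * {e | e ∈ R ∧ e ≤ l}.ncard := by
    intro l hl
    have h5 : {x | x ∈ R.offDiag ∧ x.1 ≤ l ∧ x.2 ≤ l} = {e | e ∈ R ∧ e ≤ l}.offDiag := by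
      ext x
      simp only [Set.mem_ofPred_eq, Set.mem_offDiag]
      tauto
    rw [h5, TP.ncard_offDiag]
    rcases hab l (by simpa using hl) with h | h <;> rw [show {e | e ∈ R ∧ e ≤ l}.ncard = _ from h] <;> ring
  have e6 := Finset.sum_congr rfl e5
  rw [Finset.sum_add_distrib, Finset.sum_add_distrib, ← Finset.mul_sum _ _ (a + b), e2, e3, Finset.sum_const, smul_eq_mul,
    ← Set.ncard_eq_toFinset_card] at e6
  obtain ⟨k, hk⟩ : ∃ k, P.d o t = k + 1 := ⟨P.d o t - 1, by omega⟩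
  rw [hk, Nat.add_sub_cancel] at e1 e6
  rw [hk] at hu
  have t1 := P.θ_succ' k
  have t2 : P.θ 3 ≤ P.θ k := P.θ_le_iff.2 (by omega)
  have t3 : 0 < P.θ (k + 1) := P.θ_pos (by omega)
  rw [P.θ_three] at t2
  clear e2 e3 e5 hab
  generalize P.θ (k + 1) = θ at *
  generalize P.θ k = θ' at *
  generalize R.ncard = r at *
  generalize R.offDiag.ncard = s at *
  generalize {l | Ln P o t l}.ncard = Λ at *
  generalize P.q = q at *
  obtain ⟨v, hv⟩ : ∃ v, q + 1 = u + v := ⟨q + 1 - u, by omega⟩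
  zify at *
  have k1 : (θ : ℤ) * (u * (r - 1) + θ' * ((1 - a - b) * u + a * b)) = 0 := by
    linear_combination (q + 1 : ℤ) * e6 - (q + 1 : ℤ) * e4 - ((r : ℤ) - 1 + (1 - a - b) * θ') * hu + (a * b : ℤ) * e1
  have k2 := (mul_eq_zero.1 k1).resolve_left t3.ne'
  have k3 : (θ' : ℤ) ∣ u * v := ⟨u * u * q + (q + 1) * ((1 - a - b) * u + a * b), by
    linear_combination (-(q + 1) : ℤ) * k2 + (u : ℤ) * hu - (u : ℤ) * hv + (u * u : ℤ) * t1⟩
  have k4 := Int.le_of_dvd (by nlinarith) k3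
  nlinarith

/-- a non-empty proper set of point-line flags of `[o, t]` with constant fibres -/
theorem lemTF {o t : L} (hot : o ≤ t) (h4 : 4 ≤ P.d o t) {O : Set (L × L)}
    (hO : ∀ x ∈ O, P.Pt o t x.1 ∧ P.Pt x.1 t x.2) (hne : O.Nonempty)
    (hpr : ∃ e l, P.Pt o t e ∧ P.Pt e t l ∧ (e, l) ∉ O)
    (hr : ∀ e e', P.Pt o t e → P.Pt o t e' → {l | (e, l) ∈ O}.ncard = {l | (e', l) ∈ O}.ncard)
    (hu : ∀ l l', Ln P o t l → Ln P o t l' → {e | (e, l) ∈ O}.ncard = {e | (e, l') ∈ O}.ncard) {a b : ℕ}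
    (hab : ∀ e π, P.Pt o t e → Ln P e t π → cnt {l | (e, l) ∈ O} π = a ∨ cnt {l | (e, l) ∈ O} π = b) : False := by
  obtain ⟨⟨e₀, l₀⟩, h0⟩ := hne
  obtain ⟨e₁, l₁, he₁, hl₁, h1⟩ := hpr
  obtain ⟨he₀, hl₀⟩ := hO _ h0
  have L₀ := ((ln_of_pt he₀).2 hl₀).1
  have L₁ := ((ln_of_pt he₁).2 hl₁).1
  have e1 := ncard_lines (P := P) hot
  have e2 := dc_eq {e | P.Pt o t e} {l | Ln P o t l} (fun e l => (e, l) ∈ O) (m := {l | (e₀, l) ∈ O}.ncard)
    (k := {e | (e, l₁) ∈ O}.ncard)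
    (fun e he => by
      rw [← hr e e₀ he he₀]; congr 1; ext l
      exact ⟨fun h => h.2, fun h => ⟨((ln_of_pt he).2 (hO _ h).2).1, h⟩⟩)
    (fun l hl => by
      rw [← hu l l₁ hl L₁]; congr 1; ext e
      exact ⟨fun h => h.2, fun h => ⟨(hO _ h).1, h⟩⟩)
  rw [P.ncard_pt hot] at e2
  have d0 := d_pt he₀
  dsimp only at d0 he₀ hl₀
  refine lemT he₀.2.1 (by omega) (R := {l | (e₀, l) ∈ O}) (fun l hl => (hO _ hl).2) (fun π hπ => hab e₀ π he₀ hπ)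
    (u := {e | (e, l₁) ∈ O}.ncard) ?_ ?_ ?_
  · refine Nat.eq_of_mul_eq_mul_left (P.θ_pos (k := P.d o t) (by omega)) ?_
    rw [← mul_assoc, e2, mul_right_comm, ← e1, show P.d e₀ t = P.d o t - 1 by omega]
    ring
  · rw [hu l₁ l₀ L₁ L₀]
    exact (Set.ncard_pos (Set.toFinite _)).2 ⟨e₀, h0⟩
  · rw [← ncard_pt_ln L₁]
    refine Set.ncard_lt_ncard ⟨fun e he => (hO _ he).1.mono (hO _ he).2.1, fun h => h1 ?_⟩ (Set.toFinite _)
    exact h (he₁.mono hl₁.1)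

theorem cov {o t : L} (hot : o < t) {S : Set L} (hS : S.ncard ≤ P.q + 1)
    (h : ∀ U ∈ S, o ≤ U ∧ U ≤ t ∧ 2 ≤ P.d U t) (hc : ∀ e, P.Pt o t e → ∃ U ∈ S, e ≤ U) : False := by
  obtain ⟨e₀, he₀⟩ := P.exists_pt' hot
  obtain ⟨U₀, hU₀, -⟩ := hc e₀ he₀
  have d0 := P.d_add (h U₀ hU₀).1 (h U₀ hU₀).2.1
  have d1 := (h U₀ hU₀).2.2
  obtain ⟨k, hk⟩ : ∃ k, P.d o t = 2 + k := ⟨P.d o t - 2, by omega⟩
  have e1 := dc_le {e | P.Pt o t e} S (fun e U => e ≤ U) (m := 1) (k := P.θ k)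
    (fun e he => by
      obtain ⟨U, hU, hle⟩ := hc e he
      exact (Set.ncard_pos (Set.toFinite _)).2 ⟨U, hU, hle⟩)
    (fun U hU => by
      obtain ⟨h1, h2, h3⟩ := h U hU
      have d2 := P.d_add h1 h2
      refine le_trans (Set.ncard_le_ncard (t := {e | P.Pt o U e}) (fun e he => he.1.mono he.2) (Set.toFinite _)) ?_
      rw [P.ncard_pt h1, P.θ_le_iff]
      omega)
  rw [P.ncard_pt hot.le, hk, P.θ_add, P.θ_two, mul_one] at e1
  have e2 := Nat.mul_le_mul_right (P.θ k) hS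
  have e3 : (P.q + 1) * P.θ k ≤ P.q ^ 2 * P.θ k := Nat.mul_le_mul_right _ (by nlinarith [P.two_le_q])
  omega

end CfsgLib.KL
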