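import Mathlib
import Cfsg.Agent.Lib.KL.Ms
import Cfsg.Agent.Lib.KL.T
import Cfsg.Agent.Lib.KL.Gen

/-! KL, package AC: cases A and C, and the last step (plans/KL.md). -/

set_option autoImplicit false
set_option linter.unusedSectionVars false

namespace CfsgLib.KL

open CfsgLib.CK

variable {G L : Type*} [Group G] [CompleteLattice L] [MulAction G L] [Finite L] {P : PG G L} {H : Subgroup G}

namespace AcP

theorem injA {O : Set L} {u : L → ℂ} {y : L × L × L} (hy : y ∈ F3 P 1 2 2) (hu : Adm G (F1 P 1) O (same1 P y) u)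
    (s1 : u y.1 = 0) (s2 : sm {z | P.Pt ⊥ y.2.1 z} u = 0) : ∀ z ∈ F1 P 1, u z = 0 := by
  obtain ⟨h1, h2, hx, hl, hl'⟩ := hy
  have e0 : y.2.1 = y.2.2 := P.eq_of_rk_le h2 (by omega)
  refine inj_of_panels (mu P y) fun z hz => ?_
  by_cases h : z ≤ y.2.1
  · left
    by_cases e : z = y.1
    · rwa [e]
    refine sm_zero s2 (P.pt_bot.2 ⟨h, hz⟩) fun z' hz' => ?_
    by_cases e' : z' = y.1
    · exact .inl (e' ▸ s1)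
    obtain ⟨a1, a2⟩ := P.pt_bot.1 hz'
    refine .inr (hu.pos _ a2 _ hz ?_)
    rw [same1, pos, pos, pt_inf_bot hx hz e, pt_inf_bot hx a2 e', ← e0, inf_eq_left.2 h, inf_eq_left.2 a1, a2, hz]
  · exact .inr ⟨_, subset_rfl, hz, hu.bal _ subset_rfl (bal_self smul_F1 O), fun z' hz' =>
      (pos_or_mu' (P.pt_bot_top.2 hz) (P.pt_bot_top.2 hz') h1 h2 (by rwa [sup_bot_eq, ← e0])).imp_left
        (hu.pos _ hz' _ hz)⟩

theorem fx_of {R : Set L} (hR : Inv H R) {W : L} (h : ∀ e, P.rk e = 1 → (e ∈ R ↔ e ≤ W)) : Fx H W := fun g hg =>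
  P.eq_of_rk_le (P.le_of_rk1 fun e he hle => (h e he).1 ((inv_iff hR (inv_mem hg)).1
    ((h _ ((P.rk_smul _ _).trans he)).2 ((P.le_smul_iff' g).1 hle)))) (P.rk_smul g W).ge

theorem eqv1 : Eqv G fun m : L => {x : L × L | x.2 = m ∧ P.Pt ⊥ m x.1} := fun g m x => by
  simp only [Set.mem_setOf_eq, Prod.smul_snd, Prod.smul_fst, smul_left_cancel_iff, pt_smul_bot]

theorem eqv2 : Eqv G fun z : L => {x : L × L | x.1 = z ∧ P.Pt z ⊤ x.2} := fun g m x => by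
  simp only [Set.mem_setOf_eq, Prod.smul_snd, Prod.smul_fst, smul_left_cancel_iff, pt_smul_top]

theorem injC (t1 : Tr H (F1 P 1)) (t2 : Tr H (F1 P 2)) {O : Set (L × L)} (hO : Inv H O) {u : L × L → ℂ}
    {y : L × L × L} (hy : y ∈ F3 P 1 1 3) (hu : Adm G (F2 P 1 2) O (same2 P y) u)
    (s : sm {x : L × L | x.1 = y.1 ∧ P.Pt y.1 y.2.2 x.2} u = 0) : ∀ x ∈ F2 P 1 2, u x = 0 := by
  obtain ⟨h1, h2, hx, hx', hπ⟩ := hy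
  have e0 : y.1 = y.2.1 := P.eq_of_rk_le h1 (by omega)
  refine inj_of_panels (fun x => mu P y x.1 + mu P y x.2) ?_
  rintro ⟨z, m⟩ hzm
  obtain ⟨a1, a2, a3⟩ := id hzm
  have p1 : P.Pt ⊥ m z := P.pt_bot.2 ⟨a1, a2⟩
  have p2 : P.Pt z ⊤ m := (P.pt_line a2).2 ⟨a1, le_top, a3⟩
  obtain g1 | ⟨a, b1, b2⟩ := gen_or p1 y
  · have ss : {x : L × L | x.2 = m ∧ P.Pt ⊥ m x.1} ⊆ F2 P 1 2 := by
      rintro ⟨z', _⟩ ⟨rfl, h⟩
      exact ⟨h.2.1, h.2.2, a3⟩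
    refine .inr ⟨_, ss, ⟨rfl, p1⟩, hu.bal _ ss (eqv1.bal hO t2 smul_F1 a3), ?_⟩
    rintro ⟨z', _⟩ ⟨rfl, h⟩
    exact (g1 z' h).imp (fun e => hu.pos _ (ss ⟨rfl, h⟩) _ hzm ⟨e, rfl⟩) fun e => Nat.add_lt_add_right e _
  obtain g2 | ⟨b, b3, b4⟩ := gen_or p2 y
  · have ss : {x : L × L | x.1 = z ∧ P.Pt z ⊤ x.2} ⊆ F2 P 1 2 := by
      rintro ⟨_, m'⟩ ⟨rfl, h⟩
      exact ⟨h.1, a2, ((P.pt_line a2).1 h).2.2⟩
    refine .inr ⟨_, ss, ⟨rfl, p2⟩, hu.bal _ ss (eqv2.bal hO t1 smul_F1 a2), ?_⟩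
    rintro ⟨_, m'⟩ ⟨rfl, h⟩
    exact (g2 m' h).imp (fun e => hu.pos _ (ss ⟨rfl, h⟩) _ hzm ⟨rfl, e⟩) fun e => Nat.add_lt_add_left e _
  rw [sup_bot_eq] at b1 b2
  have hab : a < b := lt_of_not_ge fun h => b2 (b3.trans (sup_le (yy_mono h1 h2 h) b1))
  have hz : z = y.1 := P.eq_of_rk_le (b1.trans ((yy_mono h1 h2 (a := a) (b := 1) (by omega)).trans e0.ge))
    (hx.trans (show P.rk z = 1 from a2).symm).le
  have hm : m ≤ y.2.2 := b3.trans (sup_le (yy_le h1 h2 b) (b1.trans (yy_le h1 h2 a)))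
  subst hz
  refine .inl (sm_zero s ⟨rfl, p2.mono hm⟩ ?_)
  rintro ⟨_, m'⟩ ⟨rfl, h⟩
  have a4 := ((P.pt_line hx).1 h).2.2
  refine .inr (hu.pos _ ⟨h.1, hx, a4⟩ _ hzm ⟨rfl, ?_⟩)
  simp only [pos, ← e0, inf_eq_right.2 h.1, inf_eq_right.2 a1, inf_eq_left.2 h.2.1, inf_eq_left.2 hm, a3, a4]

end AcP

open AcP

theorem caseA (h : GSP P H) (h5 : 5 ≤ P.n) (irr : ∀ U : L, Fx H U → U = ⊥ ∨ U = ⊤) : Tr H (F1 P 1) := by
  by_contra t1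
  have iA : Inv H (F1 P 1) := fun g _ => smul_F1 g
  obtain ⟨O, hO⟩ := exists_part iA t1
  have k : ∀ l, (O ∩ {z | P.Pt ⊥ l z}).ncard = cnt O l := fun l =>
    congrArg Set.ncard (Set.ext fun _ => ⟨fun h => ⟨h.1, h.2.2.1⟩, fun h => ⟨h.1, P.pt_bot.2 ⟨h.2, hO.sub h.1⟩⟩⟩)
  obtain ⟨a, ha⟩ : ∃ a, ∀ l, Ln P ⊥ ⊤ l → cnt O l = 0 ∨ cnt O l = a ∨ cnt O l = P.q + 1 := by
    obtain ⟨a, ha⟩ | ⟨a, ha⟩ := (h.one 1 1 2 2).dich hO (pt := fun y => y.1) (Q := fun y => {z | P.Pt ⊥ y.2.1 z})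
      (fun y hy => hy.2.2.1) (fun y _ z hz => hz.2.2) (fun _ _ => rfl) (fun g _ _ => pt_smul_bot g)
      fun y hy u hu => injA hy hu
    · refine ⟨a, fun l hl => ?_⟩
      by_cases h1 : ∃ x ∈ O, x ≤ l
      · obtain ⟨x, a1, a2⟩ := h1
        exact .inr (.inl ((k l).symm.trans (ha (x, l, l) ⟨a2, le_rfl, hO.sub a1, hl.2.2, hl.2.2⟩ a1)))
      · exact .inl ((Set.ncard_eq_zero (Set.toFinite _)).2 (Set.eq_empty_of_forall_notMem fun x hx => h1 ⟨x, hx⟩))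
    · refine ⟨a, fun l hl => .inr ?_⟩
      by_cases h1 : ∃ x, P.Pt ⊥ l x ∧ x ∉ O
      · obtain ⟨x, a1, a2⟩ := h1
        exact .inl ((k l).symm.trans (ha (x, l, l) ⟨a1.2.1, le_rfl, a1.2.2, hl.2.2, hl.2.2⟩ a2))
      · push Not at h1
        rw [← k, Set.inter_eq_right.2 (show {z | P.Pt ⊥ l z} ⊆ O from h1), P.ncard_pt bot_le, hl.2.2, P.θ_two]
        exact .inr rfl
  obtain ⟨W, h1, h2, hW⟩ := ms (P := P) (o := ⊥) le_top (show 4 ≤ P.n by omega)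
    (fun e he => P.pt_bot_top.2 (hO.sub he)) hO.ne (let ⟨x, a, b⟩ := hO.ne'; ⟨x, P.pt_bot_top.2 a, b⟩) ha
  refine (irr W ?_).elim h1.ne' h2.ne
  rcases hW with hW | hW
  · exact fx_of hO.inv fun e he => hW e (P.pt_bot_top.2 he)
  · exact fx_of (hO.compl iA).inv fun e he => (and_iff_right he).trans (hW e (P.pt_bot_top.2 he))

theorem caseC (h : GSP P H) (h5 : 5 ≤ P.n) (t1 : Tr H (F1 P 1)) (t2 : Tr H (F1 P 2)) : Tr H (F2 P 1 2) := by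
  by_contra t12
  obtain ⟨O, hO⟩ := exists_part (fun g _ => smul_F2 g) t12
  obtain ⟨a, b, hab⟩ := (h.two 1 2 1 1 3).two hO (Q := fun y => {x : L × L | x.1 = y.1 ∧ P.Pt y.1 y.2.2 x.2})
    (fun y hy x hx => ⟨hx.1 ▸ hx.2.1, hx.1 ▸ hy.2.2.1, ((P.pt_line hy.2.2.1).1 hx.2).2.2⟩)
    (fun g y x => by simp only [Set.mem_setOf_eq, Prod.smul_snd, Prod.smul_fst, smul_left_cancel_iff, pt_smul])
    fun y hy u hu => injC t1 t2 hO.inv hy hu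
  have k : ∀ x ∈ O, P.Pt ⊥ ⊤ x.1 ∧ P.Pt x.1 ⊤ x.2 := fun x hx =>
    let ⟨a1, a2, a3⟩ := hO.sub hx; ⟨P.pt_bot_top.2 a2, (P.pt_line a2).2 ⟨a1, le_top, a3⟩⟩
  have k1 : ∀ e, {l | (e, l) ∈ O}.ncard = (O ∩ {x : L × L | x.1 = e ∧ P.Pt e ⊤ x.2}).ncard := fun e =>
    Set.ncard_congr (fun l _ => (e, l)) (fun l hl => ⟨hl, rfl, (k _ hl).2⟩) (fun _ _ _ _ h => congrArg Prod.snd h)
      (by rintro ⟨_, l⟩ ⟨h, rfl, -⟩; exact ⟨l, h, rfl⟩)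
  have k2 : ∀ l, {e | (e, l) ∈ O}.ncard = (O ∩ {x : L × L | x.2 = l ∧ P.Pt ⊥ l x.1}).ncard := fun l =>
    Set.ncard_congr (fun e _ => (e, l)) (fun e he => ⟨he, rfl, (k _ he).1.mono (k _ he).2.1⟩)
      (fun _ _ _ _ h => congrArg Prod.fst h) (by rintro ⟨e, _⟩ ⟨h, rfl, -⟩; exact ⟨e, h, rfl⟩)
  refine lemTF (P := P) (o := ⊥) le_top (show 4 ≤ P.n by omega) k hO.ne ?_ (fun e e' he he' => ?_)
    (fun l l' hl hl' => ?_) (a := a) (b := b) fun e π he hπ => ?_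
  · obtain ⟨x, ⟨a1, a2, a3⟩, a4⟩ := hO.ne'
    exact ⟨x.1, x.2, P.pt_bot_top.2 a2, (P.pt_line a2).2 ⟨a1, le_top, a3⟩, a4⟩
  · rw [k1, k1]
    exact eqv2.cnt_tr hO.inv t1 he.2.2 he'.2.2
  · rw [k2, k2]
    exact eqv1.cnt_tr hO.inv t2 hl.2.2 hl'.2.2
  · have he' : P.rk e = 1 := he.2.2
    rw [show cnt {l | (e, l) ∈ O} π = (O ∩ {x : L × L | x.1 = e ∧ P.Pt e π x.2}).ncard from
      Set.ncard_congr (fun l _ => (e, l)) (fun l hl => ⟨hl.1, rfl, (k _ hl.1).2.mono hl.2⟩)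
        (fun _ _ _ _ h => congrArg Prod.snd h) (by rintro ⟨_, l⟩ ⟨h, rfl, h'⟩; exact ⟨l, ⟨h, h'.2.1⟩, rfl⟩)]
    exact hab (e, e, π) ⟨le_rfl, hπ.1, he', he', by have := (ln_iff.1 hπ).2.2; simp only; omega⟩

theorem two_of_loc (t12 : Tr H (F2 P 1 2)) (h : Loc P H) : P.Two H ⊥ ⊤ := by
  obtain ⟨x, l, hx, hl, hxl, ht⟩ := h
  have k : ∀ a b, P.Pt ⊥ ⊤ a → P.Pt ⊥ ⊤ b → a ≠ b → ∃ g ∈ H, g • a = x ∧ P.Pt ⊥ l (g • b) ∧ g • b ≠ x :=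
    fun a b ha hb hab => by
      obtain ⟨g, hg, e⟩ := t12 (a, a ⊔ b) ⟨le_sup_left, ha.2.2, P.rk_sup_pts ha.2.2 hb.2.2 hab⟩ (x, l) ⟨hxl, hx, hl⟩
      have e1 : g • a = x := congrArg Prod.fst e
      have e2 : g • (a ⊔ b) = l := congrArg Prod.snd e
      exact ⟨g, hg, e1, P.pt_bot.2 ⟨e2 ▸ P.smul_mono g le_sup_right, (P.rk_smul g b).trans hb.2.2⟩,
        fun e3 => hab (smul_left_cancel g (e1.trans e3.symm))⟩
  refine ⟨bot_le, P.fx_bot H, P.fx_top H, fun a b a' b' ha hb hab ha' hb' hab' => ?_⟩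
  obtain ⟨g, hg, e1, e2⟩ := k a b ha hb hab
  obtain ⟨g', hg', e1', e2'⟩ := k a' b' ha' hb' hab'
  obtain ⟨s, ⟨⟨hs, -⟩, e3⟩, e4⟩ := ht _ e2 _ e2'
  refine ⟨g'⁻¹ * s * g, mul_mem (mul_mem (inv_mem hg') hs) hg, ?_, ?_⟩
  · rw [mul_smul, mul_smul, e1, show s • x = x from e3, ← e1', inv_smul_smul]
  · rw [mul_smul, mul_smul, e4, inv_smul_smul]

end CfsgLib.KL
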