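import Mathlib
import Cfsg.Agent.Lib.KL.Base

/-! KL, case B: common counting tools (plans/KL.md). -/

set_option autoImplicit false
set_option linter.unusedSectionVars false

namespace CfsgLib.KL

open CfsgLib.CK

namespace Bc

section DC

variable {α β : Type*} [Finite α] [Finite β]

theorem sum2 {A A' : Set α} (hA' : A' ⊆ A) (f : α → ℕ) {m m' : ℕ} (h1 : ∀ a ∈ A, a ∉ A' → f a = m)
    (h2 : ∀ a ∈ A', f a = m + m') : ∑ a ∈ A.toFinite.toFinset, f a = A.ncard * m + A'.ncard * m' := by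
  classical
  rw [Finset.sum_congr rfl (g := fun a => m + if a ∈ A' then m' else 0) fun a ha => by
    rw [Set.Finite.mem_toFinset] at ha
    split_ifs with h
    exacts [h2 a h, h1 a ha h], Finset.sum_add_distrib, Finset.sum_const, ← Finset.sum_filter, Finset.sum_const,
    smul_eq_mul, smul_eq_mul, ← Set.ncard_eq_toFinset_card A]
  congr 2
  rw [← Set.ncard_coe_finset]
  congr 1
  ext a
  simpa using fun h => hA' h

/-- double counting with two values on each side -/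
theorem dc2 {A A' : Set α} {B B' : Set β} (hA' : A' ⊆ A) (hB' : B' ⊆ B) (r : α → β → Prop) {m m' k k' : ℕ}
    (a1 : ∀ a ∈ A, a ∉ A' → {b | b ∈ B ∧ r a b}.ncard = m) (a2 : ∀ a ∈ A', {b | b ∈ B ∧ r a b}.ncard = m + m')
    (b1 : ∀ b ∈ B, b ∉ B' → {a | a ∈ A ∧ r a b}.ncard = k) (b2 : ∀ b ∈ B', {a | a ∈ A ∧ r a b}.ncard = k + k') :
    A.ncard * m + A'.ncard * m' = B.ncard * k + B'.ncard * k' := by
  classical
  rw [← sum2 hA' _ a1 a2, ← sum2 hB' _ b1 b2]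
  convert Finset.sum_card_bipartiteAbove_eq_sum_card_bipartiteBelow (s := A.toFinite.toFinset)
    (t := B.toFinite.toFinset) r using 2
  · rw [← Set.ncard_coe_finset]; congr 1; ext; simp
  · rw [← Set.ncard_coe_finset]; congr 1; ext; simp

end DC

variable {G L : Type*} [Group G] [CompleteLattice L] [MulAction G L] [Finite L] {P : PG G L}

/-- the members of `C` in `S` through `z` -/
def T (C : Set L) (S z : L) : Set L := {m | (m ∈ C ∧ m ≤ S) ∧ z ≤ m}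

theorem ncard_pts (P : PG G L) (S : L) : {z | P.Pt ⊥ S z}.ncard = P.θ (P.rk S) := P.ncard_pt bot_le

theorem ncard_line {l : L} (hl : P.rk l = 2) : {z | P.Pt ⊥ l z}.ncard = P.q + 1 := by
  rw [ncard_pts, hl, P.θ_two]

theorem ncard_thru {z S : L} (hz : P.rk z = 1) (h : z ≤ S) : {m | P.Pt z S m}.ncard = P.θ (P.rk S - 1) := by
  rw [P.ncard_pt h]
  have := P.rk_add_d h
  congr 1
  omega

theorem ne_bot {z : L} (hz : P.rk z = 1) : z ≠ ⊥ := fun h => by rw [h, P.rk_bot] at hz; omega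

theorem pt_eq {z z' : L} (hz : P.rk z = 1) (hz' : P.rk z' = 1) (h : z ≤ z') : z = z' := P.eq_of_rk_le h (by omega)

/-- two different lines through a point meet in it -/
theorem inf_lines {z l m : L} (hz : P.rk z = 1) (hl : P.rk l = 2) (hm : P.rk m = 2) (hne : m ≠ l) (h1 : z ≤ m)
    (h2 : z ≤ l) : m ⊓ l = z :=
  P.inf_eq_of_rk h1 h2 (P.not_le_of_ne (by omega) hne) (by omega)

theorem rk_inf_lines {l m : L} (hl : P.rk l = 2) (hm : P.rk m = 2) (hne : m ≠ l) (h : m ⊓ l ≠ ⊥) :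
    P.rk (m ⊓ l) = 1 := by
  have h1 : P.rk (m ⊓ l) ≠ 0 := fun h0 => h (P.eq_bot_of_rk h0)
  have h2 := P.rk_lt (lt_of_le_of_ne (inf_le_left : m ⊓ l ≤ m) fun e =>
    P.not_le_of_ne (by omega) hne (inf_eq_left.1 e))
  omega

/-- two different lines of a plane -/
theorem lines_plane {l m π : L} (hl : P.rk l = 2) (hm : P.rk m = 2) (hπ : P.rk π = 3) (hne : m ≠ l) (h1 : m ≤ π)
    (h2 : l ≤ π) : P.rk (m ⊓ l) = 1 ∧ m ⊔ l = π := by
  have h3 : m ⊔ l = π := P.sup_eq_of_rk h1 h2 (P.not_le_of_ne (by omega) hne.symm) (by omega)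
  have := P.rk_sup_inf m l
  rw [h3] at this
  exact ⟨by omega, h3⟩

/-- a line is the join of two of its points -/
theorem line_eq {x y l : L} (hx : P.rk x = 1) (hy : P.rk y = 1) (hl : P.rk l = 2) (hne : x ≠ y) (h1 : x ≤ l)
    (h2 : y ≤ l) : x ⊔ y = l :=
  P.eq_of_rk_le (sup_le h1 h2) (by rw [P.rk_sup_pts hx hy hne, hl])

theorem kap_eq {C : Set L} (hC : ∀ l ∈ C, P.rk l = 2) {l S : L} (hl : P.rk l = 2) {R : Set L}
    (hR : R ⊆ {z | P.Pt ⊥ l z}) {a a' : ℕ} (h1 : ∀ z, P.Pt ⊥ l z → z ∉ R → (T C S z \ {l}).ncard = a)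
    (h2 : ∀ z ∈ R, (T C S z \ {l}).ncard = a + a') : (P.q + 1) * a + R.ncard * a' = kap C l S := by
  have k : ∀ z, P.Pt ⊥ l z →
      {m | m ∈ {m | m ∈ C ∧ m ≤ S ∧ m ≠ l ∧ m ⊓ l ≠ ⊥} ∧ z ≤ m} = T C S z \ {l} := fun z hz => by
    ext m
    refine ⟨fun h => ⟨⟨⟨h.1.1, h.1.2.1⟩, h.2⟩, h.1.2.2.1⟩, fun h => ⟨⟨h.1.1.1, h.1.1.2, h.2, fun e => ?_⟩, h.1.2⟩⟩
    exact ne_bot (P.pt_bot.1 hz).2 (le_bot_iff.1 (e ▸ le_inf h.1.2 hz.2.1))
  have := dc2 hR (Set.empty_subset {m | m ∈ C ∧ m ≤ S ∧ m ≠ l ∧ m ⊓ l ≠ ⊥}) (fun z m => z ≤ m) (k := 1) (k' := 0)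
    (fun z hz hz' => by rw [k z hz]; exact h1 z hz hz') (fun z hz => by rw [k z (hR hz)]; exact h2 z hz)
    (fun m hm _ => ?_) (fun _ h => h.elim)
  · rwa [ncard_line hl, mul_one, mul_zero, add_zero] at this
  · have h3 := rk_inf_lines hl (hC m hm.1) hm.2.2.1 hm.2.2.2
    refine Set.ncard_eq_one.2 ⟨m ⊓ l, Set.eq_singleton_iff_unique_mem.2
      ⟨⟨P.pt_bot.2 ⟨inf_le_right, h3⟩, inf_le_left⟩, fun z hz => ?_⟩⟩
    exact pt_eq (P.pt_bot.1 hz.1).2 h3 (le_inf hz.2 hz.1.2.1)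

theorem cnt_eq {C : Set L} (hC : ∀ l ∈ C, P.rk l = 2) {S : L} {R : Set L}
    (hR : R ⊆ {z | P.Pt ⊥ S z}) {a a' : ℕ} (h1 : ∀ z, P.Pt ⊥ S z → z ∉ R → (T C S z).ncard = a)
    (h2 : ∀ z ∈ R, (T C S z).ncard = a + a') : P.θ (P.rk S) * a + R.ncard * a' = cnt C S * (P.q + 1) := by
  have := dc2 hR (Set.empty_subset {m | m ∈ C ∧ m ≤ S}) (fun z m => z ≤ m) (k := P.q + 1) (k' := 0)
    h1 h2 (fun m hm _ => ?_) (fun _ h => h.elim)
  · rwa [ncard_pts, mul_zero, add_zero] at this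
  · rw [← ncard_line (hC m hm.1)]
    congr 1
    ext z
    exact ⟨fun h => h.1.mono h.2, fun h => ⟨PG.Pt.mono h (h.2.1.trans hm.2), h.2.1⟩⟩

end Bc

open Bc

variable {G L : Type*} [Group G] [CompleteLattice L] [MulAction G L] [Finite L] {P : PG G L}
  {C : Set L} {W : L → L} {w : ℕ}

theorem BS.join (h : BS P C W w) {x y : L} (hx : P.rk x = 1) (hy : P.rk y = 1) (hne : x ≠ y) :
    x ⊔ y ∈ C ↔ y ≤ W x := by
  rw [h.mem x _ hx (P.rk_sup_pts hx hy hne) le_sup_left, sup_le_iff, and_iff_right (h.le x hx)]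

theorem BS.symm (h : BS P C W w) {x y : L} (hx : P.rk x = 1) (hy : P.rk y = 1) (hxy : y ≤ W x) : x ≤ W y := by
  obtain rfl | hne := eq_or_ne x y
  · exact hxy
  · rwa [← h.join hy hx hne.symm, sup_comm, h.join hx hy hne]

theorem BS.le_W (h : BS P C W w) {x l : L} (hx : P.rk x = 1) (hl : l ∈ C) (hxl : x ≤ l) : l ≤ W x :=
  (h.mem x l hx (h.sub l hl) hxl).1 hl

theorem BS.thru (h : BS P C W w) {z S : L} (hz : P.rk z = 1) (hzS : z ≤ S) :
    (T C S z).ncard = P.θ (P.rk (S ⊓ W z) - 1) := by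
  rw [← ncard_thru hz (le_inf hzS (h.le z hz))]
  congr 1
  ext m
  rw [Set.mem_setOf_eq, P.pt_line hz, le_inf_iff]
  exact ⟨fun a => ⟨a.2, ⟨a.1.2, h.le_W hz a.1.1 a.2⟩, h.sub m a.1.1⟩,
    fun a => ⟨⟨(h.mem z m hz a.2.2 a.1).2 a.2.1.2, a.2.1.1⟩, a.1⟩⟩

theorem BS.exists_pt (h : BS P C W w) : ∃ x, P.rk x = 1 := by
  obtain ⟨x, -, -, hx⟩ := P.exists_rk (bot_le : (⊥ : L) ≤ ⊤) (k := 1) (by rw [P.rk_bot]; omega)
    (by have := h.five; rw [P.rk_top]; omega)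
  exact ⟨x, hx⟩

theorem BS.exists_off (h : BS P C W w) {x : L} (hx : P.rk x = 1) : ∃ y, P.rk y = 1 ∧ ¬ y ≤ W x := by
  obtain ⟨y, hy, -, h2⟩ := P.exists_rk1 (a := ⊤) (b := W x) fun e => by
    have := P.rk_mono e
    rw [P.rk_top, h.rk x hx] at this
    have := h.lt
    omega
  exact ⟨y, hy, h2⟩

end CfsgLib.KL
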