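import Mathlib
import Cfsg.Agent.Lib.KL.Bc

/-! KL, package BH: case B, null polarities (plans/KL.md). -/

set_option autoImplicit false

namespace CfsgLib.KL

open CfsgLib.CK Bc

variable {G L : Type*} [Group G] [CompleteLattice L] [MulAction G L] [Finite L] {P : PG G L} {H : Subgroup G}

namespace BhP

variable {C : Set L} {W : L → L} {w : ℕ}

theorem ck_W (h : BS P C W w) (h1 : w + 1 = P.n) {x : L} (hx : P.rk x = 1) : P.ck (W x) = 1 := by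
  have := P.rk_add_ck (W x)
  rw [h.rk x hx] at this
  omega

theorem rk_inf (h : BS P C W w) (h1 : w + 1 = P.n) {x S : L} (hx : P.rk x = 1) (hn : ¬ S ≤ W x) :
    P.rk (S ⊓ W x) + 1 = P.rk S := by
  have a1 := P.ck_inf_hy (ck_W h h1 hx) hn
  have a2 := P.rk_add_ck S
  have a3 := P.rk_add_ck (S ⊓ W x)
  omega

theorem T_rad (h : BS P C W w) {z S : L} (hS : P.rk S = 4) (hz : P.rk z = 1) (hzS : z ≤ S) (hr : S ≤ W z) :
    (T C S z).ncard = P.q + 1 + P.q ^ 2 := by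
  rw [h.thru hz hzS, inf_eq_left.2 hr, hS, show 4 - 1 = 3 from rfl, P.θ_three]
  omega

theorem T_non (h : BS P C W w) (h1 : w + 1 = P.n) {z S : L} (hS : P.rk S = 4) (hz : P.rk z = 1) (hzS : z ≤ S)
    (hr : ¬ S ≤ W z) : (T C S z).ncard = P.q + 1 := by
  have := rk_inf h h1 hz hr
  rw [h.thru hz hzS, show P.rk (S ⊓ W z) - 1 = 2 by omega, P.θ_two]

theorem cnt_rad (h : BS P C W w) (h1 : w + 1 = P.n) {S : L} (hS : P.rk S = 4) :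
    P.θ 4 * (P.q + 1) + {z | P.Pt ⊥ S z ∧ S ≤ W z}.ncard * P.q ^ 2 = cnt C S * (P.q + 1) := by
  rw [← hS]
  exact cnt_eq h.sub (fun z hz => hz.1) (fun z hz hz' => T_non h h1 hS (P.pt_bot.1 hz).2 hz.2.1 fun a => hz' ⟨hz, a⟩)
    fun z hz => T_rad h hS (P.pt_bot.1 hz.1).2 hz.1.2.1 hz.2

theorem kap_D (h : BS P C W w) (h1 : w + 1 = P.n) {l S : L} (hS : P.rk S = 4) (hl : P.rk l = 2) (hD : l ∉ C)
    (hlS : l ≤ S) : kap C l S = (P.q + 1) * (P.q + 1) := by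
  have := kap_eq h.sub (S := S) hl (Set.empty_subset _) (a := P.q + 1) (a' := 0) (fun z hz _ => ?_) fun _ a => a.elim
  · rw [← this, mul_zero, add_zero]
  · obtain ⟨a1, a2⟩ := P.pt_bot.1 hz
    rw [Set.diff_singleton_eq_self fun a => hD a.1.1]
    exact T_non h h1 hS a2 (a1.trans hlS) fun a => hD ((h.mem z l a2 hl a1).2 (hlS.trans a))

theorem kap_C (h : BS P C W w) (h1 : w + 1 = P.n) {l S : L} (hS : P.rk S = 4) (hl : l ∈ C) (hlS : l ≤ S) :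
    (P.q + 1) * P.q + {z | P.Pt ⊥ l z ∧ S ≤ W z}.ncard * P.q ^ 2 = kap C l S := by
  refine kap_eq h.sub (h.sub l hl) (fun z hz => hz.1) (fun z hz hz' => ?_) fun z hz => ?_
  · obtain ⟨a1, a2⟩ := P.pt_bot.1 hz
    rw [Set.ncard_diff_singleton_of_mem (show l ∈ T C S z from ⟨⟨hl, hlS⟩, a1⟩),
      T_non h h1 hS a2 (a1.trans hlS) fun a => hz' ⟨hz, a⟩]
    omega
  · obtain ⟨a1, a2⟩ := P.pt_bot.1 hz.1
    rw [Set.ncard_diff_singleton_of_mem (show l ∈ T C S z from ⟨⟨hl, hlS⟩, a1⟩),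
      T_rad h hS a2 (a1.trans hlS) hz.2]
    omega

/-- the solid spanned by `x ⊔ y` and a line of `W x ⊓ W y` -/
theorem solid (h : BS P C W w) {x y m : L} (hx : P.rk x = 1) (hy : P.rk y = 1) (hyx : ¬ y ≤ W x)
    (hb : (x ⊔ y) ⊓ (W x ⊓ W y) = ⊥) (hm : P.rk m = 2) (hmE : m ≤ W x ⊓ W y) :
    P.rk (m ⊔ (x ⊔ y)) = 4 ∧ ∀ z, P.rk z = 1 → z ≤ m ⊔ (x ⊔ y) → (m ⊔ (x ⊔ y) ≤ W z ↔ z ≤ m ∧ m ≤ W z) := by
  have hne : x ≠ y := fun e => hyx (e ▸ h.le x hx)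
  have a1 := P.rk_sup_inf m (x ⊔ y)
  have a2 : m ⊓ (x ⊔ y) = ⊥ := le_bot_iff.1 (hb ▸ le_inf inf_le_right (inf_le_left.trans hmE))
  rw [a2, P.rk_bot, P.rk_sup_pts hx hy hne] at a1
  refine ⟨by omega, fun z hz hzS => ⟨fun a => ⟨?_, le_sup_left.trans a⟩, fun a => sup_le a.2 (sup_le ?_ ?_)⟩⟩
  · have a3 := P.modular (b := x ⊔ y) hmE
    rw [hb, sup_bot_eq] at a3
    exact a3 ▸ le_inf hzS (le_inf (h.symm hz hx (le_sup_left.trans (le_sup_right.trans a)))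
      (h.symm hz hy (le_sup_right.trans (le_sup_right.trans a))))
  · exact h.symm hx hz (a.1.trans (hmE.trans inf_le_left))
  · exact h.symm hy hz (a.1.trans (hmE.trans inf_le_right))

end BhP

open BhP in
theorem BS.null {C : Set L} {W : L → L} {w : ℕ} (h : BS P C W w) (h1 : w + 1 = P.n) : False := by
  have h5 := h.five
  have hq := P.two_le_q
  obtain ⟨x, hx⟩ := h.exists_pt
  obtain ⟨y, hy, hyx⟩ := h.exists_off hx
  have hxy : ¬ x ≤ W y := fun a => hyx (h.symm hy hx a)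
  have hne : x ≠ y := fun e => hyx (e ▸ h.le x hx)
  have hl := P.rk_sup_pts hx hy hne
  have hD : x ⊔ y ∉ C := fun a => hyx ((h.join hx hy hne).1 a)
  have hE : P.rk (W x ⊓ W y) + 2 = P.n := by
    have := rk_inf h h1 hy (S := W x) fun a => hxy ((h.le x hx).trans a)
    rw [h.rk x hx] at this
    omega
  have hb : (x ⊔ y) ⊓ (W x ⊓ W y) = ⊥ := by
    rw [← inf_assoc, P.inf_eq_of_rk le_sup_left (h.le x hx) (fun a => hyx (le_sup_right.trans a)) (by omega)]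
    exact P.inf_eq_of_rk bot_le bot_le hxy (by rw [P.rk_bot]; omega)
  obtain ⟨z, -, hzE, hz⟩ := P.exists_rk (bot_le : ⊥ ≤ W x ⊓ W y) (k := 1) (by rw [P.rk_bot]; omega) (by omega)
  have hzx : x ≤ W z := h.symm hx hz (hzE.trans inf_le_left)
  have hzy : y ≤ W z := h.symm hy hz (hzE.trans inf_le_right)
  have hEz : ¬ W x ⊓ W y ≤ W z := fun a => by
    have a1 := P.rk_sup_inf (x ⊔ y) (W x ⊓ W y)
    have a2 := P.rk_mono (sup_le (sup_le hzx hzy) a)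
    rw [hb, P.rk_bot] at a1
    rw [h.rk z hz] at a2
    omega
  obtain ⟨m₁, b1, b2, hm₁⟩ := P.exists_rk (le_inf hzE (h.le z hz)) (k := 2) (by omega)
    (by have := rk_inf h h1 hz hEz; omega)
  have c₁ : m₁ ∈ C := (h.mem z m₁ hz hm₁ b1).2 (b2.trans inf_le_right)
  obtain ⟨v, hv, hvE, hvz⟩ := P.exists_rk1 hEz
  have hzv : z ≠ v := fun e => hvz (e ▸ h.le z hz)
  have hm₀ := P.rk_sup_pts hz hv hzv
  have c₀ : z ⊔ v ∉ C := fun a => hvz ((h.join hz hv hzv).1 a)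
  obtain ⟨r₀, s₀⟩ := solid h hx hy hyx hb hm₀ (sup_le hzE hvE)
  obtain ⟨r₁, s₁⟩ := solid h hx hy hyx hb hm₁ (b2.trans inf_le_left)
  have n₀ := cnt_rad h h1 r₀
  have n₁ := cnt_rad h h1 r₁
  rw [Set.eq_empty_of_forall_notMem (s := {u | P.Pt ⊥ ((z ⊔ v) ⊔ (x ⊔ y)) u ∧ (z ⊔ v) ⊔ (x ⊔ y) ≤ W u}) fun u hu => by
    obtain ⟨a1, a2⟩ := P.pt_bot.1 hu.1
    obtain ⟨a3, a4⟩ := (s₀ u a2 a1).1 hu.2
    exact c₀ ((h.mem u _ a2 hm₀ a3).2 a4), Set.ncard_empty] at n₀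
  have p₁ : 0 < {u | P.Pt ⊥ (m₁ ⊔ (x ⊔ y)) u ∧ m₁ ⊔ (x ⊔ y) ≤ W u}.ncard :=
    (Set.ncard_pos (Set.toFinite _)).2 ⟨z, P.pt_bot.2 ⟨b1.trans le_sup_left, hz⟩,
      (s₁ z hz (b1.trans le_sup_left)).2 ⟨b1, b2.trans inf_le_right⟩⟩
  have ne1 : (cnt C ((z ⊔ v) ⊔ (x ⊔ y)) : ℂ) ≠ cnt C (m₁ ⊔ (x ⊔ y)) := fun a => by
    rw [Nat.cast_injective a, ← n₁] at n₀
    have := Nat.mul_pos p₁ (pow_pos P.q_pos 2)
    omega
  have hxz : x ≠ z := fun e => hxy (e ▸ hzE.trans inf_le_right)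
  have cx : x ⊔ z ∈ C := (h.join hx hz hxz).2 (hzE.trans inf_le_left)
  have k₁ := kap_C h h1 r₁ c₁ le_sup_left
  have l₁ : x ⊔ z ≤ m₁ ⊔ (x ⊔ y) := sup_le (le_sup_left.trans le_sup_right) (b1.trans le_sup_left)
  have k₂ := kap_C h h1 r₁ cx l₁
  rw [show {u | P.Pt ⊥ m₁ u ∧ m₁ ⊔ (x ⊔ y) ≤ W u} = {u | P.Pt ⊥ m₁ u} from Set.ext fun u => ⟨fun a => a.1, fun a =>
    ⟨a, (s₁ u (P.pt_bot.1 a).2 (a.2.1.trans le_sup_left)).2 ⟨a.2.1, h.le_W (P.pt_bot.1 a).2 c₁ a.2.1⟩⟩⟩,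
    ncard_line hm₁] at k₁
  have p₂ : {u | P.Pt ⊥ (x ⊔ z) u ∧ m₁ ⊔ (x ⊔ y) ≤ W u}.ncard ≤ 1 := by
    rw [← Set.ncard_singleton z]
    refine Set.ncard_le_ncard (fun u hu => ?_) (Set.toFinite _)
    obtain ⟨a1, a2⟩ := P.pt_bot.1 hu.1
    have a3 := ((s₁ u a2 (a1.trans l₁)).1 hu.2).1
    refine pt_eq a2 hz (inf_lines hz hm₁ (h.sub _ cx) (fun e => hxy ?_) le_sup_right b1 ▸ le_inf a1 a3)
    exact le_sup_left.trans (e.le.trans (b2.trans (inf_le_left.trans inf_le_right)))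
  have ne2 : (kap C m₁ (m₁ ⊔ (x ⊔ y)) : ℂ) ≠ kap C (x ⊔ z) (m₁ ⊔ (x ⊔ y)) := fun a => by
    rw [Nat.cast_injective a, ← k₂] at k₁
    have := Nat.eq_of_mul_eq_mul_right (pow_pos P.q_pos 2) (Nat.add_left_cancel k₁)
    omega
  obtain ⟨d₀, d₁, d₂, d₃, e1, e2⟩ := h.i3
  have f0 := e2 _ _ hl hD le_sup_right r₀
  have f1 := e2 _ _ hl hD le_sup_right r₁
  rw [kap_D h h1 r₀ hl hD le_sup_right] at f0
  rw [kap_D h h1 r₁ hl hD le_sup_right] at f1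
  have g3 : d₃ = 0 := (mul_eq_zero.1 (by linear_combination f1 - f0)).resolve_right (sub_ne_zero.2 ne1)
  have f2 := e1 _ _ c₁ le_sup_left r₁
  have f3 := e1 _ _ cx l₁ r₁
  have g2 : d₂ = 0 := (mul_eq_zero.1 (by linear_combination f3 - f2)).resolve_right (sub_ne_zero.2 ne2)
  have f4 := e1 _ _ cx (sup_le (le_sup_left.trans le_sup_right) (le_sup_left.trans le_sup_left)) r₀
  rw [g2, g3] at f2 f4
  exact ne1 (by linear_combination f4 - f2)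

end CfsgLib.KL
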