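import Mathlib
import Cfsg.Agent.Lib.KL.Ms

/-! KL, package BI: case B, the structure (plans/KL.md). -/

set_option autoImplicit false
set_option linter.unusedSectionVars false

namespace CfsgLib.KL

open CfsgLib.CK

variable {G L : Type*} [Group G] [CompleteLattice L] [MulAction G L] [Finite L] {P : PG G L} {H : Subgroup G}

namespace BiP

theorem pt_smul (g : G) {o t e : L} : P.Pt (g • o) (g • t) (g • e) ↔ P.Pt o t e :=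
  ⟨fun h => by simpa using h.smul g⁻¹, fun h => h.smul g⟩

theorem eqv_thr : Eqv G fun z : L => {m | P.Pt z ⊤ m} := fun g z m => by
  simp only [Set.mem_setOf_eq]
  rw [← pt_smul (P := P) g (o := z), P.smul_top]

theorem eqv_l : Eqv G fun y : L × L × L => {y.2.1} := eqv_single fun _ _ => rfl

theorem eqv_eta : Eqv G fun y : L × L × L => {m | P.Pt y.1 y.2.2 m} := fun g _ _ => pt_smul g

theorem eqv_gam : Eqv G fun y : L × L × L => {m | P.rk m = 2 ∧ m ≤ y.2.2} := fun g y m => by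
  simp only [Set.mem_setOf_eq, Prod.smul_snd, P.rk_smul, P.smul_le_iff]

theorem eqv_kap : Eqv G fun y : L × L × L => {m | P.rk m = 2 ∧ m ≤ y.2.2 ∧ m ≠ y.2.1 ∧ m ⊓ y.2.1 ≠ ⊥} := fun g y m => by
  simp only [Set.mem_setOf_eq, Prod.smul_snd, Prod.smul_fst, P.rk_smul, P.smul_le_iff, ne_eq, smul_left_cancel_iff,
    ← P.smul_inf]
  rw [← smul_left_cancel_iff g (x := m ⊓ y.2.1), P.smul_bot]

variable {O : Set L} {u : L → ℂ} {y : L × L × L}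

theorem line_inj (t1 : Tr H (F1 P 1)) (hO : Inv H O) (h1 : y.1 ≤ y.2.1) (h2 : y.2.1 ≤ y.2.2)
    (hu : Adm G (F1 P 2) O (same1 P y) u) (h0 : ∀ m ∈ F1 P 2, m ≤ y.2.2 → u m = 0) : ∀ m ∈ F1 P 2, u m = 0 := by
  refine inj_of_panels (mu P y) fun m hm => ?_
  by_cases h : m ≤ y.2.2
  · exact .inl (h0 m hm h)
  have hm' : P.rk m = 2 := hm
  have := P.rk_lt (inf_lt_left.2 h)
  obtain ⟨z, a1, a2, a3⟩ := P.exists_rk (inf_le_left : m ⊓ y.2.2 ≤ m) (k := 1) (by omega) (by omega)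
  have s : {m | P.Pt z ⊤ m} ⊆ F1 P 2 := fun m' hm' => ((P.pt_line a3).1 hm').2.2
  have hz : P.Pt z ⊤ m := (P.pt_line a3).2 ⟨a2, le_top, hm⟩
  exact .inr ⟨_, s, hz, hu.bal _ s (eqv_thr.bal hO t1 smul_F1 a3), fun m' hm' =>
    (pos_or_mu' hz hm' h1 h2 (not_le_sup hz a1)).imp_left (hu.pos _ (s hm') _ hm)⟩

theorem rk_le_one {l m : L} (hl : P.rk l = 2) (hm : P.rk m = 2) (h : m ≠ l) : P.rk (m ⊓ l) ≤ 1 := by
  have := P.rk_lt (inf_lt_left.2 (P.not_le_of_ne (by omega) h))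
  omega

theorem rk_one {l m π : L} (hl : P.rk l = 2) (hm : P.rk m = 2) (h : m ≠ l) (h1 : l ≤ π) (h2 : m ≤ π)
    (hπ : P.rk π = 3) : P.rk (m ⊓ l) = 1 := by
  have := rk_le_one hl hm h
  have := P.rk_sup_inf m l
  have := P.rk_mono (sup_le h2 h1)
  omega

theorem rk_one' {l m : L} (hl : P.rk l = 2) (hm : P.rk m = 2) (h : m ≠ l) (h1 : m ⊓ l ≠ ⊥) : P.rk (m ⊓ l) = 1 := by
  have := rk_le_one hl hm h
  have : P.rk (m ⊓ l) ≠ 0 := fun e => h1 (P.eq_bot_of_rk e)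
  omega

theorem same_of {m m' : L} (hm : P.rk m = 2) (hm' : P.rk m' = 2) (h : m ≤ y.2.2) (h' : m' ≤ y.2.2)
    (h1 : P.rk (m ⊓ y.1) = P.rk (m' ⊓ y.1)) (h2 : P.rk (m ⊓ y.2.1) = P.rk (m' ⊓ y.2.1)) : same1 P y m m' := by
  rw [same1, pos, pos, h1, h2, inf_eq_left.2 h, inf_eq_left.2 h', hm, hm']

theorem inj2 (hy : y ∈ F3 P 1 2 3) (hu : Adm G (F1 P 2) O (same1 P y) u) (s1 : sm {y.2.1} u = 0)
    (s2 : sm {m | P.Pt y.1 y.2.2 m} u = 0) (s3 : sm {m | P.rk m = 2 ∧ m ≤ y.2.2} u = 0) :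
    ∀ m ∈ F1 P 2, m ≤ y.2.2 → u m = 0 := by
  obtain ⟨h1, h2, hx, hl, hπ⟩ := hy
  rw [sm_single] at s1
  have k : ∀ m, P.Pt y.1 y.2.2 m → u m = 0 := fun m hm => by
    by_cases e : m = y.2.1
    · rwa [e]
    have b := ((P.pt_line hx).1 hm).2.2
    refine sm_zero s2 hm fun m' hm' => ?_
    by_cases e' : m' = y.2.1
    · exact .inl (e' ▸ s1)
    have b' := ((P.pt_line hx).1 hm').2.2
    exact .inr (hu.pos _ b' _ b (same_of b' b hm'.2.1 hm.2.1 (by rw [inf_eq_right.2 hm.1, inf_eq_right.2 hm'.1])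
      (by rw [rk_one hl b e h2 hm.2.1 hπ, rk_one hl b' e' h2 hm'.2.1 hπ])))
  intro m hm hle
  by_cases e : y.1 ≤ m
  · exact k m ((P.pt_line hx).2 ⟨e, hle, hm⟩)
  refine sm_zero s3 ⟨hm, hle⟩ fun m' hm' => ?_
  by_cases e' : y.1 ≤ m'
  · exact .inl (k m' ((P.pt_line hx).2 ⟨e', hm'.2, hm'.1⟩))
  have z : ∀ m, ¬ y.1 ≤ m → m ⊓ y.1 = ⊥ := fun m h => by
    rw [inf_comm]
    exact (P.pt_bot_top.2 hx).inf_eq bot_le h
  exact .inr (hu.pos _ hm'.1 _ hm (same_of hm'.1 hm hm'.2 hle (by rw [z m e, z m' e'])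
    (by rw [rk_one hl hm (fun a => e (a ▸ h1)) h2 hle hπ, rk_one hl hm'.1 (fun a => e' (a ▸ h1)) h2 hm'.2 hπ])))

theorem eta (h : GSP P H) (t1 : Tr H (F1 P 1)) (hO : Part H (F1 P 2) O) : ∃ a, ∀ x π, P.rk x = 1 → Ln P x ⊤ π →
    (O ∩ {m | P.Pt x π m}).ncard = 0 ∨ (O ∩ {m | P.Pt x π m}).ncard = a ∨ (O ∩ {m | P.Pt x π m}).ncard = P.q + 1 := by
  classical
  obtain ⟨c₀, c₁, c₂, c₃, hc⟩ := (h.one 2 1 2 3).q3 hO (Q₁ := fun y => {y.2.1})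
    (Q₂ := fun y => {m | P.Pt y.1 y.2.2 m}) (Q₃ := fun y => {m | P.rk m = 2 ∧ m ≤ y.2.2})
    (fun y hy => Set.singleton_subset_iff.2 hy.2.2.2.1)
    (fun y hy m hm => ((P.pt_line hy.2.2.1).1 hm).2.2) (fun y hy m hm => hm.1) eqv_l eqv_eta eqv_gam
    (fun y hy u hu s1 s2 s3 => line_inj t1 hO.inv hy.1 hy.2.1 hu (inj2 hy hu s1 s2 s3))
    (fun y => ((O ∩ {y.2.1}).ncard : ℂ) * (O ∩ {m | P.Pt y.1 y.2.2 m}).ncard) fun g hg y => by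
      rw [eqv_l.cnt_inv hO.inv hg, eqv_eta.cnt_inv hO.inv hg]
  · obtain ⟨a, ha⟩ : ∃ a : ℕ, ∀ k : ℕ, (k : ℂ) = c₁ → k = a := by
      by_cases h : ∃ a : ℕ, (a : ℂ) = c₁
      · obtain ⟨a, rfl⟩ := h
        exact ⟨a, fun k hk => by exact_mod_cast hk⟩
      · exact ⟨0, fun k hk => (h ⟨k, hk⟩).elim⟩
    refine ⟨a, fun x π hx hπ => ?_⟩
    have h3 := (ln_iff.1 hπ).2.2
    by_cases h1 : ∃ l ∈ O, P.Pt x π l
    swap
    · exact .inl ((Set.ncard_eq_zero (Set.toFinite _)).2 (Set.eq_empty_of_forall_notMem fun l hl => h1 ⟨l, hl⟩))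
    by_cases h2 : ∃ l, P.Pt x π l ∧ l ∉ O
    swap
    · push Not at h2
      exact .inr (.inr (by rw [Set.inter_eq_right.2 (show {m | P.Pt x π m} ⊆ O from h2), P.ncard_pt hπ.1, hπ.2.2, P.θ_two]))
    obtain ⟨l, a1, a2⟩ := h1
    obtain ⟨l', a3, a4⟩ := h2
    have b1 := hc (x, l, π) ⟨a2.1, a2.2.1, hx, ((P.pt_line hx).1 a2).2.2, by simp only; omega⟩
    have b2 := hc (x, l', π) ⟨a3.1, a3.2.1, hx, ((P.pt_line hx).1 a3).2.2, by simp only; omega⟩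
    simp only [ncard_inter_single, a1, a4, if_true, if_false, Nat.cast_one, Nat.cast_zero] at b1 b2
    exact .inr (.inl (ha _ (by linear_combination b1 - b2)))

theorem cnt_gam (hO : Part H (F1 P 2) O) (t : L) : (O ∩ {m | P.rk m = 2 ∧ m ≤ t}).ncard = cnt O t :=
  congrArg Set.ncard (Set.ext fun _ => ⟨fun h => ⟨h.1, h.2.2⟩, fun h => ⟨h.1, hO.sub h.1, h.2⟩⟩)

theorem i1 (h : GSP P H) (t1 : Tr H (F1 P 1)) (hO : Part H (F1 P 2) O) :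
    (∃ k, ∀ l π, l ∈ O → l ≤ π → P.rk π = 3 → cnt O π = k) ∨
      ∃ k, ∀ l π, P.rk l = 2 → l ∉ O → l ≤ π → P.rk π = 3 → cnt O π = k := by
  refine ((h.one 2 2 2 3).dich hO (pt := fun y => y.2.1) (fun y hy => hy.2.2.2.1) (fun y hy m hm => hm.1)
    (fun _ _ => rfl) eqv_gam fun y hy u hu s1 s2 => line_inj t1 hO.inv hy.1 hy.2.1 hu ?_).imp
    (fun ⟨k, hk⟩ => ⟨k, fun l π a1 a2 a3 => (cnt_gam hO π).symm.trans
      (hk (l, l, π) ⟨le_rfl, a2, hO.sub a1, hO.sub a1, a3⟩ a1)⟩)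
    fun ⟨k, hk⟩ => ⟨k, fun l π a0 a1 a2 a3 => (cnt_gam hO π).symm.trans (hk (l, l, π) ⟨le_rfl, a2, a0, a0, a3⟩ a1)⟩
  obtain ⟨h1, h2, hx, hl, hπ⟩ := hy
  have e0 : y.1 = y.2.1 := P.eq_of_rk_le h1 (by omega)
  intro m hm hle
  by_cases e : m = y.2.1
  · rwa [e]
  refine sm_zero s2 ⟨hm, hle⟩ fun m' hm' => ?_
  by_cases e' : m' = y.2.1
  · exact .inl (e' ▸ s1)
  have : P.rk (m' ⊓ y.2.1) = P.rk (m ⊓ y.2.1) := by rw [rk_one hl hm e h2 hle hπ, rk_one hl hm'.1 e' h2 hm'.2 hπ]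
  exact .inr (hu.pos _ hm'.1 _ hm (same_of hm'.1 hm hm'.2 hle (e0 ▸ this) this))

theorem inj3 (hy : y ∈ F3 P 2 2 4) (hu : Adm G (F1 P 2) O (same1 P y) u) (s1 : sm {y.2.1} u = 0)
    (s2 : sm {m | P.rk m = 2 ∧ m ≤ y.2.2 ∧ m ≠ y.2.1 ∧ m ⊓ y.2.1 ≠ ⊥} u = 0)
    (s3 : sm {m | P.rk m = 2 ∧ m ≤ y.2.2} u = 0) : ∀ m ∈ F1 P 2, m ≤ y.2.2 → u m = 0 := by
  obtain ⟨h1, h2, hx, hl, hπ⟩ := hy
  have e0 : y.1 = y.2.1 := P.eq_of_rk_le h1 (by omega)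
  rw [sm_single] at s1
  have k : ∀ m, P.rk m = 2 → m ≤ y.2.2 → m ⊓ y.2.1 ≠ ⊥ → u m = 0 := fun m hm hle hn => by
    by_cases e : m = y.2.1
    · rwa [e]
    refine sm_zero s2 ⟨hm, hle, e, hn⟩ fun m' hm' => ?_
    have : P.rk (m' ⊓ y.2.1) = P.rk (m ⊓ y.2.1) := by rw [rk_one' hl hm e hn, rk_one' hl hm'.1 hm'.2.2.1 hm'.2.2.2]
    exact .inr (hu.pos _ hm'.1 _ hm (same_of hm'.1 hm hm'.2.1 hle (e0 ▸ this) this))
  intro m hm hle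
  by_cases e : m ⊓ y.2.1 = ⊥
  swap
  · exact k m hm hle e
  refine sm_zero s3 ⟨hm, hle⟩ fun m' hm' => ?_
  by_cases e' : m' ⊓ y.2.1 = ⊥
  swap
  · exact .inl (k m' hm'.1 hm'.2 e')
  have : P.rk (m' ⊓ y.2.1) = P.rk (m ⊓ y.2.1) := by rw [e, e']
  exact .inr (hu.pos _ hm'.1 _ hm (same_of hm'.1 hm hm'.2 hle (e0 ▸ this) this))

theorem i3 (h : GSP P H) (t1 : Tr H (F1 P 1)) (hO : Part H (F1 P 2) O) : ∃ c₀ c₁ c₂ c₃ : ℂ,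
    (∀ l S, l ∈ O → l ≤ S → P.rk S = 4 → (cnt O S : ℂ) = c₀ + c₁ + c₂ * kap O l S + c₃ * cnt O S) ∧
    ∀ l S, P.rk l = 2 → l ∉ O → l ≤ S → P.rk S = 4 → 0 = c₀ + c₂ * kap O l S + c₃ * cnt O S := by
  classical
  obtain ⟨c₀, c₁, c₂, c₃, hc⟩ := (h.one 2 2 2 4).q3 hO (Q₁ := fun y => {y.2.1})
    (Q₂ := fun y => {m | P.rk m = 2 ∧ m ≤ y.2.2 ∧ m ≠ y.2.1 ∧ m ⊓ y.2.1 ≠ ⊥})
    (Q₃ := fun y => {m | P.rk m = 2 ∧ m ≤ y.2.2}) (fun y hy => Set.singleton_subset_iff.2 hy.2.2.2.1)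
    (fun y hy m hm => hm.1) (fun y hy m hm => hm.1) eqv_l eqv_kap eqv_gam
    (fun y hy u hu s1 s2 s3 => line_inj t1 hO.inv hy.1 hy.2.1 hu (inj3 hy hu s1 s2 s3))
    (fun y => ((O ∩ {y.2.1}).ncard : ℂ) * (O ∩ {m | P.rk m = 2 ∧ m ≤ y.2.2}).ncard) fun g hg y => by
      rw [eqv_l.cnt_inv hO.inv hg, eqv_gam.cnt_inv hO.inv hg]
  · have k : ∀ l S, (O ∩ {m | P.rk m = 2 ∧ m ≤ S ∧ m ≠ l ∧ m ⊓ l ≠ ⊥}).ncard = kap O l S := fun l S =>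
      congrArg Set.ncard (Set.ext fun _ => ⟨fun h => ⟨h.1, h.2.2⟩, fun h => ⟨h.1, hO.sub h.1, h.2⟩⟩)
    simp only [cnt_gam hO, k, ncard_inter_single] at hc
    refine ⟨c₀, c₁, c₂, c₃, fun l S a1 a2 a3 => ?_, fun l S a0 a1 a2 a3 => ?_⟩
    · simpa [a1] using hc (l, l, S) ⟨le_rfl, a2, hO.sub a1, hO.sub a1, a3⟩
    · simpa [a1] using hc (l, l, S) ⟨le_rfl, a2, a0, a0, a3⟩

theorem thr (t1 : Tr H (F1 P 1)) (hO : Part H (F1 P 2) O) {x : L} (hx : P.rk x = 1) : ∃ l ∈ O, P.Pt x ⊤ l := by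
  obtain ⟨l, hl⟩ := hO.ne
  have h2 : P.rk l = 2 := hO.sub hl
  obtain ⟨z, -, a2, a3⟩ := P.exists_rk (bot_le : ⊥ ≤ l) (k := 1) (by rw [P.rk_bot]; omega) (by omega)
  obtain ⟨g, hg, rfl⟩ := t1 z a3 x hx
  exact ⟨g • l, hO.inv g hg l hl, (P.pt_line hx).2 ⟨P.smul_mono g a2, le_top, (P.rk_smul g l).trans h2⟩⟩

theorem bs_of (h : GSP P H) (h5 : 5 ≤ P.n) (t1 : Tr H (F1 P 1)) (hO : Part H (F1 P 2) O) {x W : L} (hx : P.rk x = 1)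
    (h1 : x < W) (h2 : W < ⊤) (hW : ∀ l, P.Pt x ⊤ l → (l ∈ O ↔ l ≤ W)) : ∃ C W w, BS P C W w := by
  choose! g hg e using t1 x hx
  have := P.rk_lt h1
  have := P.rk_lt h2
  refine ⟨O, fun z => g z • W, P.rk W, h5, hO.sub, fun z hz => ?_, fun z _ => P.rk_smul _ _, fun z l hz hl hle => ?_,
    by omega, this, i1 h t1 hO, i3 h t1 hO⟩
  · exact (e z hz).ge.trans (P.smul_mono _ h1.le)
  · rw [P.le_smul_iff', ← inv_iff hO.inv (inv_mem (hg z hz))]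
    refine hW _ ((P.pt_line hx).2 ⟨?_, le_top, (P.rk_smul _ _).trans hl⟩)
    rw [P.le_smul_iff', inv_inv, e z hz]
    exact hle

end BiP

open BiP in
theorem exists_bs (h : GSP P H) (h5 : 5 ≤ P.n) (t1 : Tr H (F1 P 1)) (t2 : ¬ Tr H (F1 P 2)) :
    ∃ C W w, BS P C W w := by
  have iA : Inv H (F1 P 2) := fun g _ => smul_F1 g
  obtain ⟨O, hO⟩ := exists_part iA t2
  obtain ⟨a, ha⟩ := eta h t1 hO
  obtain ⟨x, -, -, hx⟩ := P.exists_rk (bot_le : (⊥ : L) ≤ ⊤) (k := 1) (by rw [P.rk_bot]; omega)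
    (by rw [P.rk_top]; omega)
  have h4 := P.rk_add_ck x
  obtain ⟨l, a1, a2⟩ := thr t1 hO hx
  obtain ⟨l', a3, a4⟩ := thr t1 (hO.compl iA) hx
  obtain ⟨W, h1, h2, hW | hW⟩ := ms (P := P) (o := x) le_top (by rw [P.d_top]; omega) (R := {l | l ∈ O ∧ P.Pt x ⊤ l})
    (fun _ h => h.2) ⟨l, a1, a2⟩ ⟨l', a4, fun h => a3.2 h.1⟩ (a := a) fun π hπ => by
      rw [show cnt {l | l ∈ O ∧ P.Pt x ⊤ l} π = (O ∩ {m | P.Pt x π m}).ncard from congrArg Set.ncard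
        (Set.ext fun _ => ⟨fun h => ⟨h.1.1, h.1.2.mono h.2⟩, fun h => ⟨⟨h.1, h.2.mono le_top⟩, h.2.2.1⟩⟩)]
      exact ha x π hx hπ
  · exact bs_of h h5 t1 hO hx h1 h2 fun l hl => by simpa [hl] using hW l hl
  · exact bs_of h h5 t1 (hO.compl iA) hx h1 h2 fun l hl => by
      simpa [hl, show l ∈ F1 P 2 from ((P.pt_line hx).1 hl).2.2] using hW l hl

end CfsgLib.KL
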