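import Mathlib
import Cfsg.Agent.Lib.KL.T
import Cfsg.Agent.Lib.KL.Bc

/-! KL, package BM: case B, 3 ≤ w ≤ n - 2 (plans/KL.md). -/

set_option autoImplicit false

namespace CfsgLib.KL

open CfsgLib.CK Bc

variable {G L : Type*} [Group G] [CompleteLattice L] [MulAction G L] [Finite L] {P : PG G L} {H : Subgroup G}

namespace BmP

variable {C : Set L} {W : L → L} {w : ℕ}

/-- a plane with two lines of `C` has a centre -/
theorem centre (h : BS P C W w) {π : L} (hπ : P.rk π = 3) (h2 : 2 ≤ cnt C π) :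
    ∃ z, P.rk z = 1 ∧ z ≤ π ∧ π ≤ W z := by
  obtain ⟨m, hm, l, hl, hne⟩ := (Set.one_lt_ncard (Set.toFinite _)).1 h2
  obtain ⟨h3, h4⟩ := lines_plane (h.sub l hl.1) (h.sub m hm.1) hπ hne hm.2 hl.2
  exact ⟨m ⊓ l, h3, inf_le_left.trans hm.2,
    h4 ▸ sup_le (h.le_W h3 hm.1 inf_le_left) (h.le_W h3 hl.1 inf_le_right)⟩

theorem two_le (h : BS P C W w) {π z : L} (hπ : P.rk π = 3) (hz : P.rk z = 1) (h1 : z ≤ π) (h2 : π ≤ W z) :
    2 ≤ cnt C π := by
  have h3 := h.thru hz h1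
  rw [inf_eq_left.2 h2, hπ, show 3 - 1 = 2 from rfl, P.θ_two] at h3
  have h4 : (T C π z).ncard ≤ cnt C π := Set.ncard_le_ncard (fun m hm => hm.1) (Set.toFinite _)
  have := P.two_le_q
  omega

theorem plane {l e : L} (hl : P.rk l = 2) (he : P.rk e = 1) (hn : ¬ e ≤ l) : P.rk (l ⊔ e) = 3 := by
  rw [P.rk_sup_pt he hn, hl]

theorem covT (h : BS P C W w) {l : L} (hl : P.rk l = 2) (f : L → L)
    (hf : ∀ z, P.rk z = 1 → z ≤ l → P.rk (f z) + 2 ≤ P.n)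
    (hc : ∀ e, P.rk e = 1 → ∃ z, P.rk z = 1 ∧ z ≤ l ∧ e ≤ f z) : False := by
  refine cov (P := P) (o := ⊥) (t := ⊤) (S := f '' {z | P.Pt ⊥ l z}) ?_ ?_ ?_ fun e he => ?_
  · refine P.lt_of_rk_lt bot_le ?_
    have := h.five
    rw [P.rk_bot, P.rk_top]
    omega
  · exact (Set.ncard_image_le (Set.toFinite _)).trans (ncard_line hl).le
  · rintro _ ⟨z, hz, rfl⟩
    have h1 := hf z (P.pt_bot.1 hz).2 hz.2.1
    have h2 := P.rk_add_ck (f z)
    exact ⟨bot_le, le_top, by rw [P.d_top]; omega⟩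
  · obtain ⟨z, h1, h2, h3⟩ := hc e (P.pt_bot_top.1 he)
    exact ⟨_, ⟨z, P.pt_bot.2 ⟨h2, h1⟩, rfl⟩, h3⟩

theorem case1 (h : BS P C W w) (h3 : 3 ≤ w) (h2 : w + 2 ≤ P.n) {k : ℕ}
    (hk : ∀ l π, l ∈ C → l ≤ π → P.rk π = 3 → cnt C π = k) : False := by
  obtain ⟨x, hx⟩ := h.exists_pt
  obtain ⟨π, a1, a2, hπ⟩ := P.exists_rk (h.le x hx) (k := 3) (by omega) (by rw [h.rk x hx]; exact h3)
  obtain ⟨l, b1, b2, hl⟩ := P.exists_rk a1 (k := 2) (by omega) (by omega)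
  have hC : l ∈ C := (h.mem x l hx hl b1).2 (b2.trans a2)
  have k2 : 2 ≤ k := hk l π hC b2 hπ ▸ two_le h hπ hx a1 a2
  refine covT h hl W (fun z hz _ => by rw [h.rk z hz]; exact h2) fun e he => ?_
  by_cases hel : e ≤ l
  · exact ⟨e, he, hel, h.le e he⟩
  have hp := plane hl he hel
  obtain ⟨z, hz, c1, c2⟩ := centre h hp (hk l _ hC le_sup_left hp ▸ k2)
  by_cases hzl : z ≤ l
  · exact ⟨z, hz, hzl, le_sup_right.trans c2⟩
  refine ⟨x, hx, b1, le_sup_right.trans (?_ : l ⊔ e ≤ W x)⟩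
  rw [← P.sup_eq_of_rk le_sup_left c1 hzl (by omega)]
  exact sup_le (h.le_W hx hC b1) (h.symm hz hx (b1.trans (le_sup_left.trans c2)))

theorem case2 (h : BS P C W w) (h3 : 3 ≤ w) (h2 : w + 2 ≤ P.n) {k : ℕ}
    (hk : ∀ l π, P.rk l = 2 → l ∉ C → l ≤ π → P.rk π = 3 → cnt C π = k) : False := by
  obtain ⟨x, hx⟩ := h.exists_pt
  obtain ⟨y, hy, hyx⟩ := h.exists_off hx
  have hne : x ≠ y := fun e => hyx (e ▸ h.le x hx)
  have hl := P.rk_sup_pts hx hy hne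
  have hD : x ⊔ y ∉ C := fun a => hyx ((h.join hx hy hne).1 a)
  have k1 : 1 ≤ k := by
    obtain ⟨m, b1, b2, hm⟩ := P.exists_rk (h.le x hx) (k := 2) (by omega) (by rw [h.rk x hx]; omega)
    have hp := plane hm hy fun a => hyx (a.trans b2)
    rw [← hk _ _ hl hD (sup_le_sup_right b1 y) hp]
    exact (Set.ncard_pos (Set.toFinite _)).2 ⟨m, (h.mem x m hx hm b1).2 b2, le_sup_left⟩
  have k2 : ¬ 2 ≤ k := fun k2 => by
    have : (⊤ : L) ≤ W x ⊔ y := P.le_of_rk1 fun e he _ => by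
      by_cases hel : e ≤ x ⊔ y
      · exact hel.trans (sup_le_sup_right (h.le x hx) y)
      have hp := plane hl he hel
      obtain ⟨z, hz, c1, c2⟩ := centre h hp (hk _ _ hl hD le_sup_left hp ▸ k2)
      have hzl : ¬ z ≤ x ⊔ y := fun a => hD ((h.mem z _ hz hl a).2 (le_sup_left.trans c2))
      refine le_sup_right.trans (?_ : (x ⊔ y) ⊔ e ≤ _)
      rw [← P.sup_eq_of_rk le_sup_left c1 hzl (by omega)]
      exact sup_le (sup_le_sup_right (h.le x hx) y)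
        ((h.symm hz hx (le_sup_left.trans (le_sup_left.trans c2))).trans le_sup_left)
    have h4 := P.rk_mono this
    rw [P.rk_top, P.rk_sup_pt hy hyx, h.rk x hx] at h4
    omega
  have eqW : ∀ a b, P.rk a = 1 → P.rk b = 1 → b ≤ W a → W a = W b := fun a b ha hb hab => by
    refine P.eq_of_rk_le (P.le_of_rk1 fun v hv hva => ?_) (by rw [h.rk a ha, h.rk b hb])
    obtain rfl | hbv := eq_or_ne b v
    · exact h.le b hb
    have r1 := P.rk_sup_pts hb hv hbv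
    have r2 := P.rk_sup_inf a (b ⊔ v)
    obtain ⟨π, c1, c2, hπ⟩ := P.exists_rk (sup_le (h.le a ha) (sup_le hab hva)) (k := 3) (by omega)
      (by rw [h.rk a ha]; exact h3)
    by_contra hn
    have := hk _ π r1 (fun c => hn ((h.join hb hv hbv).1 c)) (le_sup_right.trans c1) hπ
    have := two_le h hπ ha (le_sup_left.trans c1) c2
    omega
  have hb : W x ⊓ W y = ⊥ := le_bot_iff.1 (P.le_of_rk1 fun u hu hle => by
    have e1 := eqW x u hx hu (hle.trans inf_le_left)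
    have e2 := eqW y u hy hu (hle.trans inf_le_right)
    exact (hyx (by rw [e1, ← e2]; exact h.le y hy)).elim)
  have hw : w + 3 ≤ P.n := by
    have h4 := P.rk_sup_inf (W x) (W y)
    have h5 := P.rk_le_n (W x ⊔ W y)
    rw [hb, P.rk_bot, h.rk x hx, h.rk y hy] at h4
    omega
  refine covT h hl (fun u => W u ⊔ (x ⊔ y)) (fun u hu hul => ?_) fun e he => ?_
  · have h4 := P.rk_sup_inf (W u) (x ⊔ y)
    have h5 := P.rk_mono (le_inf (h.le u hu) hul)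
    rw [h.rk u hu] at h4
    omega
  by_cases hel : e ≤ x ⊔ y
  · exact ⟨x, hx, le_sup_left, hel.trans le_sup_right⟩
  have hp := plane hl he hel
  obtain ⟨m, hm, hmp⟩ := (Set.ncard_pos (s := {m | m ∈ C ∧ m ≤ (x ⊔ y) ⊔ e}) (Set.toFinite _)).1
    (lt_of_lt_of_eq k1 (hk _ _ hl hD le_sup_left hp).symm)
  obtain ⟨c1, c2⟩ := lines_plane hl (h.sub m hm) hp (fun a => hD (a ▸ hm)) hmp le_sup_left
  exact ⟨_, c1, inf_le_right, le_sup_right.trans (c2.symm.le.trans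
    (sup_le_sup_right (h.le_W c1 hm inf_le_left) _))⟩

end BmP

theorem BS.mid {C : Set L} {W : L → L} {w : ℕ} (h : BS P C W w) (h3 : 3 ≤ w) (h2 : w + 2 ≤ P.n) : False := by
  obtain ⟨k, hk⟩ | ⟨k, hk⟩ := h.i1
  exacts [BmP.case1 h h3 h2 hk, BmP.case2 h h3 h2 hk]

end CfsgLib.KL
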