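import Mathlib
import Cfsg.Agent.Lib.KL.Bc

/-! KL, package BS2: case B, line spreads (plans/KL.md). -/

set_option autoImplicit false

namespace CfsgLib.KL

open CfsgLib.CK Bc

variable {G L : Type*} [Group G] [CompleteLattice L] [MulAction G L] [Finite L] {P : PG G L} {H : Subgroup G}

namespace Bs2P

variable {C : Set L} {W : L → L}

theorem W_mem (h : BS P C W 2) {x : L} (hx : P.rk x = 1) : W x ∈ C :=
  (h.mem x _ hx (h.rk x hx) (h.le x hx)).2 le_rfl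

theorem eq_W (h : BS P C W 2) {x l : L} (hx : P.rk x = 1) (hl : l ∈ C) (hxl : x ≤ l) : l = W x :=
  P.eq_of_rk_le (h.le_W hx hl hxl) (by rw [h.rk x hx, h.sub l hl])

theorem skew (h : BS P C W 2) {l m : L} (hl : l ∈ C) (hm : m ∈ C) (hne : m ≠ l) : m ⊓ l = ⊥ := by
  by_contra a
  have h1 := rk_inf_lines (h.sub l hl) (h.sub m hm) hne a
  exact hne ((eq_W h h1 hm inf_le_left).trans (eq_W h h1 hl inf_le_right).symm)

theorem kap_zero (h : BS P C W 2) {l : L} (hl : l ∈ C) (S : L) : kap C l S = 0 :=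
  (Set.ncard_eq_zero (Set.toFinite _)).2 (Set.eq_empty_of_forall_notMem fun _ hm =>
    hm.2.2.2 (skew h hl hm.1 hm.2.2.1))

theorem not_le_plane (h : BS P C W 2) {l π v : L} (hl : l ∈ C) (hπ : P.rk π = 3) (hlπ : l ≤ π) (hv : P.rk v = 1)
    (hvl : ¬ v ≤ l) : ¬ W v ≤ π := fun a => by
  have hne : W v ≠ l := fun e => hvl (e ▸ h.le v hv)
  have := (lines_plane (h.sub l hl) (h.rk v hv) hπ hne a hlπ).1
  rw [skew h hl (W_mem h hv) hne, P.rk_bot] at this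
  omega

theorem rk_solid (h : BS P C W 2) {l π v : L} (hl : l ∈ C) (hπ : P.rk π = 3) (hlπ : l ≤ π) (hv : P.rk v = 1)
    (hvπ : v ≤ π) (hvl : ¬ v ≤ l) : P.rk (π ⊔ W v) = 4 := by
  have h1 := P.rk_sup_inf (W v) π
  rw [P.inf_eq_of_rk (h.le v hv) hvπ (not_le_plane h hl hπ hlπ hv hvl) (by rw [h.rk v hv]; omega), h.rk v hv,
    sup_comm] at h1
  omega

/-- the number of lines of `C` in the solids through a line of `C` is not constant -/
theorem not_const (h : BS P C W 2) {l π : L} (hl : l ∈ C) (hπ : P.rk π = 3) (hlπ : l ≤ π) {s : ℕ}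
    (hs : ∀ S, P.rk S = 4 → l ≤ S → cnt C S = s) : False := by
  have h5 := h.five
  have hl2 := h.sub l hl
  have key := dc_eq {v | P.Pt ⊥ π v ∧ ¬ v ≤ l} {S | P.Pt π ⊤ S} (fun v S => W v ≤ S) (m := 1) (k := s - 1)
    (fun v hv => ?_) fun S hS => ?_
  · have d1 := P.rk_add_d hlπ
    have d2 := P.rk_add_ck π
    rw [P.ncard_pt_off bot_le hlπ, P.ncard_pt le_top, P.d_bot, hl2, show P.d l π = 1 by omega, P.θ_one, mul_one,
      mul_one, P.d_top] at key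
    have c1 := (P.coprime_θ 2 (k := P.ck π) (by omega)).symm.eq_one_of_dvd (key ▸ dvd_mul_right _ _)
    have := P.θ_inj (c1.trans P.θ_one.symm)
    omega
  · obtain ⟨hv1, hv2⟩ := P.pt_bot.1 hv.1
    have h4 := rk_solid h hl hπ hlπ hv2 hv1 hv.2
    refine Set.ncard_eq_one.2 ⟨π ⊔ W v, Set.eq_singleton_iff_unique_mem.2
      ⟨⟨P.pt_iff.2 ⟨le_sup_left, le_top, by omega⟩, le_sup_right⟩, fun S hS => ?_⟩⟩
    have := (P.pt_iff.1 hS.1).2.2
    exact (P.eq_of_rk_le (sup_le hS.1.1 hS.2) (by omega)).symm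
  · have hS4 : P.rk S = 4 := by have := (P.pt_iff.1 hS).2.2; omega
    rw [← hs S hS4 (hlπ.trans hS.1), cnt, ← Set.ncard_diff_singleton_of_mem (a := l)
      (show l ∈ {e | e ∈ C ∧ e ≤ S} from ⟨hl, hlπ.trans hS.1⟩)]
    refine Set.ncard_congr (fun v _ => W v) (fun v hv => ?_) (fun v v' hv hv' e => ?_) fun m hm => ?_
    · have hv2 := (P.pt_bot.1 hv.1.1).2
      exact ⟨⟨W_mem h hv2, hv.2⟩, fun e => hv.1.2 (Set.mem_singleton_iff.1 e ▸ h.le v hv2)⟩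
    · obtain ⟨a1, a2⟩ := P.pt_bot.1 hv.1.1
      obtain ⟨b1, b2⟩ := P.pt_bot.1 hv'.1.1
      by_contra hne
      refine not_le_plane h hl hπ hlπ a2 hv.1.2 ?_
      rw [← line_eq a2 b2 (h.rk v a2) hne (h.le v a2) (e ▸ h.le v' b2)]
      exact sup_le a1 b1
    · have hm2 := h.sub m hm.1.1
      have hmπ : ¬ m ≤ π := fun a => by
        have := (lines_plane hl2 hm2 hπ hm.2 a hlπ).1
        rw [skew h hl hm.1.1 hm.2, P.rk_bot] at this
        omega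
      have h1 := P.rk_sup_inf π m
      rw [P.sup_eq_of_rk hS.1 hm.1.2 hmπ (by omega)] at h1
      have h2 : P.rk (π ⊓ m) = 1 := by omega
      have h3 := eq_W h h2 hm.1.1 inf_le_right
      refine ⟨π ⊓ m, ⟨⟨P.pt_bot.2 ⟨inf_le_left, h2⟩, fun a => ne_bot h2 ?_⟩, h3 ▸ hm.1.2⟩, h3.symm⟩
      exact le_bot_iff.1 (skew h hl hm.1.1 hm.2 ▸ le_inf inf_le_right a)

/-- the points of `S` whose line lies in `S` -/
def U (P : PG G L) (W : L → L) (S : L) : Set L := {v | P.Pt ⊥ S v ∧ W v ≤ S}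

theorem kap_U (h : BS P C W 2) {m S : L} (hm : P.rk m = 2) (hD : m ∉ C) (hmS : m ≤ S) :
    {v | v ∈ U P W S ∧ v ≤ m}.ncard = kap C m S := by
  have k : ∀ z, T C S z \ {m} = T C S z := fun z => Set.diff_singleton_eq_self fun a => hD a.1.1
  have := kap_eq h.sub (S := S) hm (R := {v | v ∈ U P W S ∧ v ≤ m}) (fun v hv => hv.1.1.mono hv.2) (a := 0) (a' := 1)
    (fun z hz hz' => ?_) fun z hz => ?_
  · rwa [mul_zero, zero_add, mul_one] at this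
  · have h1 := (P.pt_bot.1 hz).2
    have h2 : ¬ W z ≤ S := fun a => hz' ⟨⟨hz.mono (hz.2.1.trans hmS), a⟩, hz.2.1⟩
    rw [k, h.thru h1 (hz.2.1.trans hmS), inf_comm,
      P.inf_eq_of_rk (h.le z h1) (hz.2.1.trans hmS) h2 (by rw [h.rk z h1]; omega), h1]
    exact P.θ_zero
  · have h1 := (P.pt_bot.1 hz.1.1).2
    rw [k, h.thru h1 hz.1.1.2.1, inf_eq_right.2 hz.1.2, h.rk z h1]
    exact P.θ_one

theorem one_line {x v S : L} (hx : P.rk x = 1) (hxS : x ≤ S) (hv : P.Pt ⊥ S v) (hne : v ≠ x) :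
    {m | m ∈ {m | P.Pt x S m} ∧ v ≤ m}.ncard = 1 := by
  obtain ⟨a1, a2⟩ := P.pt_bot.1 hv
  refine Set.ncard_eq_one.2 ⟨x ⊔ v, Set.eq_singleton_iff_unique_mem.2
    ⟨⟨(P.pt_line hx).2 ⟨le_sup_left, sup_le hxS a1, P.rk_sup_pts hx a2 hne.symm⟩, le_sup_right⟩, fun m hm => ?_⟩⟩
  exact (line_eq hx a2 ((P.pt_line hx).1 hm.1).2.2 hne.symm hm.1.1 hm.2).symm

theorem all_U (h : BS P C W 2) {l S : L} (hl : l ∈ C) (hS : P.rk S = 4) (hlS : l ≤ S) {k : ℕ}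
    (hk : ∀ m, P.rk m = 2 → m ∉ C → m ≤ S → kap C m S = k) {y : L} (hy : P.rk y = 1) (hyS : y ≤ S) : W y ≤ S := by
  by_contra hn
  have hl2 := h.sub l hl
  have e1 := dc_eq (U P W S) {m | P.Pt y S m} (fun v m => v ≤ m) (m := 1) (k := k)
    (fun v hv => one_line hy hyS hv.1 fun e => hn (e ▸ hv.2)) fun m hm => by
      obtain ⟨a1, a2, a3⟩ := (P.pt_line hy).1 hm
      have a4 : m ∉ C := fun a => hn (eq_W h hy a a1 ▸ a2)
      rw [kap_U h a3 a4 a2, hk m a3 a4 a2]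
  obtain ⟨x, -, hxl, hx⟩ := P.exists_rk (bot_le : ⊥ ≤ l) (k := 1) (by rw [P.rk_bot]; omega) (by omega)
  have hxS := hxl.trans hlS
  have hW := eq_W h hx hl hxl
  obtain ⟨m₀, hm₀, hml⟩ := P.exists_pt_of_lt hxl (P.lt_of_rk_lt hlS (by omega))
  have kq : k ≤ P.q + 1 := by
    obtain ⟨a1, a2, a3⟩ := (P.pt_line hx).1 hm₀
    have a4 : m₀ ∉ C := fun a => hml ((eq_W h hx a a1).trans hW.symm).le
    rw [← hk m₀ a3 a4 a2, ← kap_U h a3 a4 a2, ← ncard_line a3]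
    exact Set.ncard_le_ncard (fun v hv => hv.1.1.mono hv.2) (Set.toFinite _)
  have e2 := dc2 (A := U P W S) (A' := {x}) (B := {m | P.Pt x S m}) (B' := {l})
    (Set.singleton_subset_iff.2 ⟨P.pt_bot.2 ⟨hxS, hx⟩, hW ▸ hlS⟩)
    (Set.singleton_subset_iff.2 ((P.pt_line hx).2 ⟨hxl, hlS, hl2⟩)) (fun v m => v ≤ m) (m := 1)
    (m' := P.q ^ 2 + P.q) (k := k) (k' := P.q + 1 - k) (fun v hv hne => one_line hx hxS hv.1 hne)
    (fun v hv => ?_) (fun m hm hne => ?_) fun m hm => ?_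
  · rw [ncard_thru hy hyS] at e1
    rw [ncard_thru hx hxS, e1, Set.ncard_singleton, Set.ncard_singleton] at e2
    have := P.two_le_q
    have : 2 ^ 2 ≤ P.q ^ 2 := Nat.pow_le_pow_left this 2
    omega
  · obtain rfl : v = x := hv
    rw [show {m | m ∈ {m | P.Pt v S m} ∧ v ≤ m} = {m | P.Pt v S m} from
      Set.ext fun m => ⟨fun a => a.1, fun a => ⟨a, a.1⟩⟩, ncard_thru hx hxS, hS, show 4 - 1 = 3 from rfl, P.θ_three]
    omega
  · obtain ⟨a1, a2, a3⟩ := (P.pt_line hx).1 hm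
    have a4 : m ∉ C := fun a => hne ((eq_W h hx a a1).trans hW.symm)
    rw [kap_U h a3 a4 a2, hk m a3 a4 a2]
  · obtain rfl : m = l := hm
    rw [show k + (P.q + 1 - k) = P.q + 1 by omega, ← ncard_line hl2]
    congr 1
    ext v
    exact ⟨fun a => a.1.1.mono a.2, fun a => ⟨⟨PG.Pt.mono a (a.2.1.trans hlS),
      eq_W h (P.pt_bot.1 a).2 hl a.2.1 ▸ hlS⟩, a.2.1⟩⟩

theorem exists_D (h : BS P C W 2) {l S : L} (hl : l ∈ C) (hS : P.rk S = 4) (hlS : l ≤ S) :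
    ∃ m, P.rk m = 2 ∧ m ∉ C ∧ m ≤ S := by
  have hl2 := h.sub l hl
  obtain ⟨x, -, hxl, hx⟩ := P.exists_rk (bot_le : ⊥ ≤ l) (k := 1) (by rw [P.rk_bot]; omega) (by omega)
  obtain ⟨m₀, hm₀, hml⟩ := P.exists_pt_of_lt hxl (P.lt_of_rk_lt hlS (by omega))
  obtain ⟨a1, a2, a3⟩ := (P.pt_line hx).1 hm₀
  exact ⟨m₀, a3, fun a => hml ((eq_W h hx a a1).trans (eq_W h hx hl hxl).symm).le, a2⟩

end Bs2P

open Bs2P in
theorem BS.spread {C : Set L} {W : L → L} (h : BS P C W 2) : False := by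
  have h5 := h.five
  obtain ⟨x, hx⟩ := h.exists_pt
  have hl := W_mem h hx
  have hl2 := h.rk x hx
  obtain ⟨π, hlπ, -, hπ⟩ := P.exists_rk (le_top : W x ≤ ⊤) (k := 3) (by omega) (by rw [P.rk_top]; omega)
  obtain ⟨S₀, hS₀, -, r₀⟩ := P.exists_rk (le_top : W x ≤ ⊤) (k := 4) (by omega) (by rw [P.rk_top]; omega)
  obtain ⟨c₀, c₁, c₂, c₃, e1, e2⟩ := h.i3
  have nc : ¬ ∀ S, P.rk S = 4 → W x ≤ S → (cnt C S : ℂ) = cnt C S₀ := fun a =>
    not_const h hl hπ hlπ fun S h1 h2 => Nat.cast_injective (a S h1 h2)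
  have h3 : c₃ = 1 := by
    by_contra h3
    refine nc fun S h1 h2 => mul_left_cancel₀ (sub_ne_zero.2 h3) ?_
    have a1 := e1 _ S hl h2 h1
    have a2 := e1 _ S₀ hl hS₀ r₀
    rw [kap_zero h hl] at a1 a2
    linear_combination a2 - a1
  have h2 : c₂ ≠ 0 := fun h2 => nc fun S h1 h2' => by
    obtain ⟨m, a1, a2, a3⟩ := exists_D h hl h1 h2'
    obtain ⟨m', b1, b2, b3⟩ := exists_D h hl r₀ hS₀
    have a4 := e2 m S a1 a2 a3 h1
    have b4 := e2 m' S₀ b1 b2 b3 r₀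
    rw [h2, h3] at a4 b4
    linear_combination b4 - a4
  obtain ⟨v, hv, hvπ, hvl⟩ := P.exists_rk1 (a := π) (b := W x) fun a => by have := P.rk_mono a; omega
  have h4 := rk_solid h hl hπ hlπ hv hvπ hvl
  obtain ⟨S, hS, hn⟩ := P.exists_pt_of_lt (le_sup_left : π ≤ π ⊔ W v)
    (P.lt_of_rk_lt le_top (by rw [P.rk_top]; omega))
  have hS4 : P.rk S = 4 := by have := (P.pt_iff.1 hS).2.2; omega
  have hlS := hlπ.trans hS.1
  obtain ⟨m₀, a1, a2, a3⟩ := exists_D h hl hS4 hlS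
  have := all_U h hl hS4 hlS (k := kap C m₀ S) (fun m b1 b2 b3 => Nat.cast_injective (R := ℂ)
    (mul_left_cancel₀ h2 (by linear_combination e2 m₀ S a1 a2 a3 hS4 - e2 m S b1 b2 b3 hS4))) hv (hvπ.trans hS.1)
  exact hn (P.eq_of_rk_le (sup_le hS.1 this) (by omega)).ge

end CfsgLib.KL
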