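import Mathlib
import Cfsg.Agent.Lib.KL.Ms
import Cfsg.Agent.Lib.KL.Gen

/-! KL, package D12: cases D1 and D2 (plans/KL.md). -/

set_option autoImplicit false
set_option linter.unusedSectionVars false

namespace CfsgLib.KL

open CfsgLib.CK

variable {G L : Type*} [Group G] [CompleteLattice L] [MulAction G L] [Finite L] {P : PG G L} {H : Subgroup G}

namespace D12P

theorem exists_line {ρ π : L} (h1 : P.rk ρ = 3) (h2 : P.rk π = 3) (h : ρ ≠ π) :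
    ∃ m, ρ ⊓ π ≤ m ∧ P.rk m = 2 ∧ P.Pt m ⊤ ρ := by
  have := P.rk_lt (inf_lt_left.2 (P.not_le_of_ne (by omega) h))
  obtain ⟨m, a1, a2, a3⟩ := P.exists_rk (inf_le_left : ρ ⊓ π ≤ ρ) (k := 2) (by omega) (by omega)
  exact ⟨m, a1, a3, P.pt_iff.2 ⟨a2, le_top, by omega⟩⟩

theorem inj1 (t2 : Tr H (F1 P 2)) {O : Set L} (hO : Inv H O) {u : L → ℂ} {y : L × L × L} (hy : y ∈ F3 P 1 2 3)
    (hu : Adm G (F1 P 3) O (same1 P y) u) (s : sm {y.2.2} u = 0) : ∀ ρ ∈ F1 P 3, u ρ = 0 := by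
  refine inj_of_panels (mu P y) fun ρ hρ => ?_
  by_cases e : ρ = y.2.2
  · exact .inl (e ▸ (sm_single _ u).symm.trans s)
  obtain ⟨m, a1, a2, a3⟩ := exists_line hρ hy.2.2.2.2 e
  have ss : {ρ' | P.Pt m ⊤ ρ'} ⊆ F1 P 3 := fun ρ' h => (P.pt_iff.1 h).2.2.trans (by rw [a2])
  exact .inr ⟨_, ss, a3, hu.bal _ ss (Eqv.bal (Q := fun m => {ρ' | P.Pt m ⊤ ρ'}) (fun g _ _ => pt_smul_top g) hO t2
    smul_F1 a2), fun ρ' h => (pos_or_mu' a3 h hy.1 hy.2.1 (not_le_sup a3 a1)).imp_left (hu.pos _ (ss h) _ hρ)⟩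

theorem eqv1 : Eqv G fun m : L => {x : L × L | x.2 = m ∧ P.Pt ⊥ m x.1} := fun g m x => by
  simp only [Set.mem_setOf_eq, Prod.smul_snd, Prod.smul_fst, smul_left_cancel_iff, pt_smul_bot]

theorem eqv3 : Eqv G fun z : L × L => {x : L × L | x.1 = z.1 ∧ P.Pt z.2 ⊤ x.2} := fun g m x => by
  simp only [Set.mem_setOf_eq, Prod.smul_snd, Prod.smul_fst, smul_left_cancel_iff, pt_smul_top]

theorem eqvQ : Eqv G fun y : L × L × L => {x : L × L | x.2 = y.2.2 ∧ P.Pt ⊥ y.2.1 x.1} := fun g m x => by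
  simp only [Set.mem_setOf_eq, Prod.smul_snd, Prod.smul_fst, smul_left_cancel_iff, pt_smul_bot]

theorem subQ : ∀ y ∈ F3 P 1 2 3, {x : L × L | x.2 = y.2.2 ∧ P.Pt ⊥ y.2.1 x.1} ⊆ F2 P 1 3 := fun _ hy _ hx =>
  ⟨hx.1 ▸ hx.2.2.1.trans hy.2.1, hx.2.2.2, hx.1 ▸ hy.2.2.2.2⟩

theorem inj2 (t12 : Tr H (F2 P 1 2)) (t3 : Tr H (F1 P 3)) {O : Set (L × L)} (hO : Inv H O) {u : L × L → ℂ}
    {y : L × L × L} (hy : y ∈ F3 P 1 2 3) (hu : Adm G (F2 P 1 3) O (same2 P y) u) (s1 : u (y.1, y.2.2) = 0)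
    (s2 : sm {x : L × L | x.2 = y.2.2 ∧ P.Pt ⊥ y.2.1 x.1} u = 0) : ∀ x ∈ F2 P 1 3, u x = 0 := by
  have sQ := subQ y hy
  obtain ⟨h1, h2, hx, hl, hπ⟩ := hy
  refine inj_of_panels (fun x => mu P y x.1 + mu P y x.2) ?_
  rintro ⟨z, ρ⟩ hz
  obtain ⟨a1, a2, a3⟩ := id hz
  have p1 : P.Pt ⊥ ρ z := P.pt_bot.2 ⟨a1, a2⟩
  obtain g1 | ⟨a, b1, b2⟩ := gen_or p1 y
  · have ss : {x : L × L | x.2 = ρ ∧ P.Pt ⊥ ρ x.1} ⊆ F2 P 1 3 := by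
      rintro ⟨z', _⟩ ⟨rfl, h⟩
      exact ⟨h.2.1, h.2.2, a3⟩
    refine .inr ⟨_, ss, ⟨rfl, p1⟩, hu.bal _ ss (eqv1.bal hO t3 smul_F1 a3), ?_⟩
    rintro ⟨z', _⟩ ⟨rfl, h⟩
    exact (g1 z' h).imp (fun e => hu.pos _ (ss ⟨rfl, h⟩) _ hz ⟨e, rfl⟩) fun e => Nat.add_lt_add_right e _
  rw [sup_bot_eq] at b1 b2
  by_cases e : ρ = y.2.2
  · subst e
    have ha : a ≠ 2 := by
      rintro rfl
      exact b2 le_rfl
    have hzl : z ≤ y.2.1 := b1.trans (yy_mono h1 h2 (a := a) (b := 1) (by omega))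
    left
    by_cases e : z = y.1
    · rwa [e]
    refine sm_zero s2 ⟨rfl, P.pt_bot.2 ⟨hzl, a2⟩⟩ ?_
    rintro ⟨z', _⟩ ⟨rfl, h⟩
    by_cases e' : z' = y.1
    · exact .inl (e' ▸ s1)
    obtain ⟨c1, c2⟩ := P.pt_bot.1 h
    refine .inr (hu.pos (z', y.2.2) (sQ ⟨rfl, h⟩) _ hz ⟨?_, rfl⟩)
    simp only at a2 c1 c2 ⊢
    rw [pos, pos, pt_inf_bot hx a2 e, pt_inf_bot hx c2 e', inf_eq_left.2 hzl, inf_eq_left.2 c1,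
      inf_eq_left.2 (hzl.trans h2), inf_eq_left.2 (c1.trans h2), a2, c2]
  obtain ⟨m, c1, c2, c3⟩ := exists_line a3 hπ e
  have hzm : z ≤ m := (le_inf a1 (b1.trans (yy_le h1 h2 a))).trans c1
  have ss : {x : L × L | x.1 = z ∧ P.Pt m ⊤ x.2} ⊆ F2 P 1 3 := by
    rintro ⟨_, ρ'⟩ ⟨rfl, h⟩
    exact ⟨hzm.trans h.1, a2, (P.pt_iff.1 h).2.2.trans (by rw [c2])⟩
  refine .inr ⟨_, ss, ⟨rfl, c3⟩, hu.bal _ ss (eqv3.bal hO t12 smul_F2 (z := (z, m)) ⟨hzm, a2, c2⟩), ?_⟩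
  rintro ⟨_, ρ'⟩ ⟨rfl, h⟩
  exact (pos_or_mu' c3 h h1 h2 (not_le_sup c3 c1)).imp (fun e => hu.pos _ (ss ⟨rfl, h⟩) _ hz ⟨rfl, e⟩)
    fun e => Nat.add_lt_add_left e _

theorem cntQ {O : Set (L × L)} (hO : O ⊆ F2 P 1 3) (l π : L) :
    cnt {z | (z, π) ∈ O} l = (O ∩ {x : L × L | x.2 = π ∧ P.Pt ⊥ l x.1}).ncard :=
  Set.ncard_congr (fun e _ => (e, π)) (fun e he => ⟨he.1, rfl, P.pt_bot.2 ⟨he.2, (hO he.1).2.1⟩⟩)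
    (fun _ _ _ _ h => congrArg Prod.fst h) (by rintro ⟨e, _⟩ ⟨h, rfl, h'⟩; exact ⟨e, ⟨h, h'.2.1⟩, rfl⟩)

theorem exists_O (h : GSP P H) (t12 : Tr H (F2 P 1 2)) (t3 : Tr H (F1 P 3)) (t13 : ¬ Tr H (F2 P 1 3)) :
    ∃ O k, Part H (F2 P 1 3) O ∧ ∀ y ∈ F3 P 1 2 3, (y.1, y.2.2) ∈ O →
      (O ∩ {x : L × L | x.2 = y.2.2 ∧ P.Pt ⊥ y.2.1 x.1}).ncard = k := by
  have iA : Inv H (F2 P 1 3) := fun g _ => smul_F2 g
  obtain ⟨O, hO⟩ := exists_part iA t13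
  obtain ⟨k, hk⟩ | ⟨k, hk⟩ := (h.two 1 3 1 2 3).dich hO (pt := fun y => (y.1, y.2.2))
    (fun y hy => ⟨hy.1.trans hy.2.1, hy.2.2.1, hy.2.2.2.2⟩) subQ (fun _ _ => rfl) eqvQ
    fun y hy u hu => inj2 t12 t3 hO.inv hy hu
  · exact ⟨O, k, hO, hk⟩
  refine ⟨_, P.q + 1 - k, hO.compl iA, fun y hy h1 => ?_⟩
  have h2 := Set.ncard_inter_add_ncard_diff_eq_ncard {x : L × L | x.2 = y.2.2 ∧ P.Pt ⊥ y.2.1 x.1} O
  rw [Set.inter_comm, hk y hy h1.2, show {x : L × L | x.2 = y.2.2 ∧ P.Pt ⊥ y.2.1 x.1}.ncard = P.q + 1 by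
    rw [← P.θ_two, ← hy.2.2.2.1, ← P.d_bot, ← P.ncard_pt bot_le]
    exact Set.ncard_congr (fun x _ => x.1) (fun x hx => hx.2) (fun a b ha hb e => Prod.ext e (ha.1.trans hb.1.symm))
      fun e he => ⟨(e, y.2.2), ⟨rfl, he⟩, rfl⟩] at h2
  rw [← h2, Nat.add_sub_cancel_left]
  exact congrArg Set.ncard (Set.ext fun x => ⟨fun h => ⟨h.2, h.1.2⟩, fun h => ⟨⟨subQ y hy h.1, h.2⟩, h.1⟩⟩)

end D12P

open D12P

theorem caseD1 (h : GSP P H) (h5 : 5 ≤ P.n) (t2 : Tr H (F1 P 2)) (t3 : ¬ Tr H (F1 P 3)) : PlFl P H := by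
  obtain ⟨O, hO⟩ := exists_part (fun g _ => smul_F1 g) t3
  exact fun y hy y' hy' e => (h.one 3 1 2 3).orb1 hO (Q := fun y => {y.2.2})
    (fun y hy => Set.singleton_subset_iff.2 hy.2.2.2.2) (eqv_single fun _ _ => rfl)
    (fun y hy u hu => inj1 t2 hO.inv hy hu) hy hy' (by rw [e])

theorem caseD2 (h : GSP P H) (h5 : 5 ≤ P.n) (t12 : Tr H (F2 P 1 2)) (t3 : Tr H (F1 P 3)) (t13 : ¬ Tr H (F2 P 1 3)) :
    ∃ (l π : L) (A : Set L), P.rk l = 2 ∧ (∀ e ∈ A, P.Pt ⊥ l e) ∧ A.Nonempty ∧ A.ncard ∣ P.q ∧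
      Inv (Stab (Stab H l) π) A ∧ Tr (Stab (Stab H l) π) A ∧ Tr (Stab (Stab H l) π) ({e | P.Pt ⊥ l e} \ A) := by
  classical
  obtain ⟨O, k, hO, hk⟩ := exists_O h t12 t3 t13
  obtain ⟨⟨x, π⟩, hx⟩ := hO.ne
  obtain ⟨a1, a2, a3⟩ := hO.sub hx
  simp only at a1 a2 a3
  have hd : k ∣ P.q := by
    refine arc_dvd (P := P) (o := ⊥) (t := π) bot_le a3 (R := {z | (z, π) ∈ O})
      (fun e he => P.pt_bot.2 ⟨(hO.sub he).1, (hO.sub he).2.1⟩) ⟨x, hx⟩ ?_ fun l hl => ?_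
    · obtain ⟨⟨z, ρ⟩, ⟨b1, b2, b3⟩, b4⟩ := hO.ne'
      obtain ⟨g, hg, rfl⟩ := t3 ρ b3 π a3
      exact ⟨g • z, (pt_smul_bot g).2 (P.pt_bot.2 ⟨b1, b2⟩), fun h => b4 ((inv_iff hO.inv hg (x := (z, ρ))).1 h)⟩
    · by_cases h1 : ∃ z, (z, π) ∈ O ∧ z ≤ l
      · obtain ⟨z, b1, b2⟩ := h1
        exact .inr ((cntQ hO.sub l π).trans (hk (z, l, π) ⟨b2, hl.2.1, (hO.sub b1).2.1, hl.2.2, a3⟩ b1))
      · exact .inl ((Set.ncard_eq_zero (Set.toFinite _)).2 (Set.eq_empty_of_forall_notMem fun x hx => h1 ⟨x, hx⟩))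
  obtain ⟨l, b1, b2, b3⟩ := P.exists_rk a1 (k := 2) (by omega) (by omega)
  have key : ∀ z z', P.Pt ⊥ l z → P.Pt ⊥ l z' → ((z, π) ∈ O ↔ (z', π) ∈ O) →
      ∃ g ∈ Stab (Stab H l) π, g • z = z' := fun z z' hz hz' e => by
    obtain ⟨g, hg, e⟩ := (h.two 1 3 1 2 3).orb2 hO (Q₁ := fun y => {(y.1, y.2.2)})
      (fun y hy => Set.singleton_subset_iff.2 ⟨hy.1.trans hy.2.1, hy.2.2.1, hy.2.2.2.2⟩) subQ
      (eqv_single fun _ _ => rfl) eqvQ (fun y hy u hu s => inj2 t12 t3 hO.inv hy hu ((sm_single _ u).symm.trans s))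
      (y := (z, l, π)) (y' := (z', l, π)) ⟨hz.2.1, b2, hz.2.2, b3, a3⟩ ⟨hz'.2.1, b2, hz'.2.2, b3, a3⟩
      (by simp only [ncard_inter_single, e]) rfl
    exact ⟨g, ⟨⟨hg, congrArg (fun y : L × L × L => y.2.1) e⟩, congrArg (fun y : L × L × L => y.2.2) e⟩,
      congrArg (fun y : L × L × L => y.1) e⟩
  have hA : ∀ e ∈ {e | e ∈ {z | (z, π) ∈ O} ∧ e ≤ l}, P.Pt ⊥ l e := fun e he =>
    P.pt_bot.2 ⟨he.2, (hO.sub he.1).2.1⟩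
  refine ⟨l, π, _, b3, hA, ⟨x, hx, b1⟩, ?_, ?_, fun z hz z' hz' => key z z' (hA z hz) (hA z' hz')
    (iff_of_true hz.1 hz'.1), fun z hz z' hz' => key z z' hz.1 hz'.1
      (iff_of_false (fun h => hz.2 ⟨h, hz.1.2.1⟩) fun h => hz'.2 ⟨h, hz'.1.2.1⟩)⟩
  · exact ((cntQ hO.sub l π).trans (hk (x, l, π) ⟨b1, b2, a2, b3, a3⟩ hx)).dvd.trans hd
  · rintro g ⟨⟨c1, c2⟩, c3⟩ z hz
    refine ⟨?_, (P.smul_mono g hz.2).trans (show g • l = l from c2).le⟩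
    have := hO.inv g c1 _ hz.1
    rwa [Prod.smul_mk, show g • π = π from c3] at this

end CfsgLib.KL
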