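import Mathlib
import Cfsg.Agent.Lib.KL.T
import Cfsg.Agent.Lib.KL.Gen
import Cfsg.Agent.Lib.CK.BL

/-! KL, package D3: case D3 (plans/KL.md). -/

set_option autoImplicit false
set_option linter.unusedSectionVars false

namespace CfsgLib.KL

open CfsgLib.CK

variable {G L : Type*} [Group G] [CompleteLattice L] [MulAction G L] [Finite L] {P : PG G L} {H : Subgroup G}

namespace D3P

theorem tr23 [Finite G] (t13 : Tr H (F2 P 1 3)) : Tr H (F2 P 2 3) := by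
  rintro ⟨l, π⟩ ⟨a1, a2, a3⟩ ⟨l', π'⟩ ⟨b1, b2, b3⟩
  simp only at a1 a2 a3 b1 b2 b3
  obtain ⟨x, c1, c2⟩ := exists_sub_rk (P := P) (t := π) (k := 1) (by omega)
  obtain ⟨x', c3, c4⟩ := exists_sub_rk (P := P) (t := π') (k := 1) (by omega)
  obtain ⟨g, hg, e⟩ := t13 (x, π) ⟨c1, c2, a3⟩ (x', π') ⟨c3, c4, b3⟩
  obtain rfl : g • π = π' := congrArg Prod.snd e
  have h1 : Tr (Stab H (g • π)) {e | P.Pt ⊥ (g • π) e} := fun a ha b hb => by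
    obtain ⟨k, hk, e⟩ := t13 (a, g • π) ⟨ha.2.1, ha.2.2, b3⟩ (b, g • π) ⟨hb.2.1, hb.2.2, b3⟩
    exact ⟨k, ⟨hk, congrArg Prod.snd e⟩, congrArg Prod.fst e⟩
  rw [← orbN_le_one_iff, PG.orbN_pt_hy bot_le (P.fx_bot _) (fx_Stab _ _), orbN_le_one_iff] at h1
  obtain ⟨k, ⟨hk, e1⟩, e2⟩ := h1 (g • l) (P.hy_iff.2 ⟨P.smul_mono g a1, bot_le, by rw [P.rk_smul]; omega⟩) l'
    (P.hy_iff.2 ⟨b1, bot_le, by omega⟩)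
  exact ⟨k * g, mul_mem hk hg, Prod.ext ((mul_smul k g l).trans e2) ((mul_smul k g π).trans e1)⟩

theorem eqv1 : Eqv G fun z : L × L => {x : L × L × L | x.2.1 = z.1 ∧ x.2.2 = z.2 ∧ P.Pt ⊥ z.1 x.1} := fun g m x => by
  simp only [Set.mem_setOf_eq, Prod.smul_snd, Prod.smul_fst, smul_left_cancel_iff, pt_smul_bot]

theorem eqv2 : Eqv G fun z : L × L => {x : L × L × L | x.1 = z.1 ∧ x.2.2 = z.2 ∧ P.Pt z.1 z.2 x.2.1} := fun g m x => by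
  simp only [Set.mem_setOf_eq, Prod.smul_snd, Prod.smul_fst, smul_left_cancel_iff, pt_smul]

theorem eqv3 : Eqv G fun z : L × L => {x : L × L × L | x.1 = z.1 ∧ x.2.1 = z.2 ∧ P.Pt z.2 ⊤ x.2.2} := fun g m x => by
  simp only [Set.mem_setOf_eq, Prod.smul_snd, Prod.smul_fst, smul_left_cancel_iff, pt_smul_top]

theorem eqvQ : Eqv G fun y : L × L × L => {x : L × L × L | x.1 = y.1 ∧ x.2.1 = y.2.1 ∧ P.Pt y.2.1 y.2.2 x.2.2} :=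
  fun g m x => by simp only [Set.mem_setOf_eq, Prod.smul_snd, Prod.smul_fst, smul_left_cancel_iff, pt_smul]

theorem subQ : ∀ y ∈ F3 P 1 2 4,
    {x : L × L × L | x.1 = y.1 ∧ x.2.1 = y.2.1 ∧ P.Pt y.2.1 y.2.2 x.2.2} ⊆ F3 P 1 2 3 := by
  rintro y hy ⟨_, _, ρ⟩ ⟨rfl, rfl, h⟩
  exact ⟨hy.1, h.1, hy.2.2.1, hy.2.2.2.1, (P.pt_iff.1 h).2.2.trans (by rw [hy.2.2.2.1])⟩

theorem inj (t12 : Tr H (F2 P 1 2)) (t13 : Tr H (F2 P 1 3)) (t23 : Tr H (F2 P 2 3)) {O : Set (L × L × L)}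
    (hO : Inv H O) {u : L × L × L → ℂ} {y : L × L × L} (hy : y ∈ F3 P 1 2 4) (hu : Adm G (F3 P 1 2 3) O (same3 P y) u)
    (s : sm {x : L × L × L | x.1 = y.1 ∧ x.2.1 = y.2.1 ∧ P.Pt y.2.1 y.2.2 x.2.2} u = 0) :
    ∀ x ∈ F3 P 1 2 3, u x = 0 := by
  have sQ := subQ y hy
  obtain ⟨h1, h2, hx, hl, hS⟩ := hy
  refine inj_of_panels (fun x => mu P y x.1 + mu P y x.2.1 + mu P y x.2.2) ?_
  rintro ⟨z, m, ρ⟩ hz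
  obtain ⟨a1, a2, a3, a4, a5⟩ := id hz
  simp only at a1 a2 a3 a4 a5
  have p1 : P.Pt ⊥ m z := P.pt_bot.2 ⟨a1, a3⟩
  have p2 : P.Pt z ρ m := (P.pt_line a3).2 ⟨a1, a2, a4⟩
  have p3 : P.Pt m ⊤ ρ := P.pt_iff.2 ⟨a2, le_top, by omega⟩
  obtain g1 | ⟨a, b1, b2⟩ := gen_or p1 y
  · have ss : {x : L × L × L | x.2.1 = m ∧ x.2.2 = ρ ∧ P.Pt ⊥ m x.1} ⊆ F3 P 1 2 3 := by
      rintro ⟨z', _, _⟩ ⟨rfl, rfl, h⟩
      exact ⟨h.2.1, a2, h.2.2, a4, a5⟩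
    refine .inr ⟨_, ss, ⟨rfl, rfl, p1⟩, hu.bal _ ss (eqv1.bal hO t23 smul_F2 (z := (m, ρ)) ⟨a2, a4, a5⟩), ?_⟩
    rintro ⟨z', _, _⟩ ⟨rfl, rfl, h⟩
    exact (g1 z' h).imp (fun e => hu.pos _ (ss ⟨rfl, rfl, h⟩) _ hz ⟨e, rfl, rfl⟩)
      fun e => Nat.add_lt_add_right (Nat.add_lt_add_right e _) _
  obtain g2 | ⟨b, b3, b4⟩ := gen_or p2 y
  · have ss : {x : L × L × L | x.1 = z ∧ x.2.2 = ρ ∧ P.Pt z ρ x.2.1} ⊆ F3 P 1 2 3 := by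
      rintro ⟨_, m', _⟩ ⟨rfl, rfl, h⟩
      exact ⟨h.1, h.2.1, a3, ((P.pt_line a3).1 h).2.2, a5⟩
    refine .inr ⟨_, ss, ⟨rfl, rfl, p2⟩, hu.bal _ ss (eqv2.bal hO t13 smul_F2 (z := (z, ρ)) ⟨a1.trans a2, a3, a5⟩), ?_⟩
    rintro ⟨_, m', _⟩ ⟨rfl, rfl, h⟩
    exact (g2 m' h).imp (fun e => hu.pos _ (ss ⟨rfl, rfl, h⟩) _ hz ⟨rfl, e, rfl⟩)
      fun e => Nat.add_lt_add_right (Nat.add_lt_add_left e _) _
  obtain g3 | ⟨c, b5, b6⟩ := gen_or p3 y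
  · have ss : {x : L × L × L | x.1 = z ∧ x.2.1 = m ∧ P.Pt m ⊤ x.2.2} ⊆ F3 P 1 2 3 := by
      rintro ⟨_, _, ρ'⟩ ⟨rfl, rfl, h⟩
      exact ⟨a1, h.1, a3, a4, (P.pt_iff.1 h).2.2.trans (by rw [a4])⟩
    refine .inr ⟨_, ss, ⟨rfl, rfl, p3⟩, hu.bal _ ss (eqv3.bal hO t12 smul_F2 (z := (z, m)) ⟨a1, a3, a4⟩), ?_⟩
    rintro ⟨_, _, ρ'⟩ ⟨rfl, rfl, h⟩
    exact (g3 ρ' h).imp (fun e => hu.pos _ (ss ⟨rfl, rfl, h⟩) _ hz ⟨rfl, rfl, e⟩) fun e => Nat.add_lt_add_left e _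
  rw [sup_bot_eq] at b1 b2
  have hab : a < b := lt_of_not_ge fun h => b2 (b3.trans (sup_le (yy_mono h1 h2 h) b1))
  have hbc : b < c := lt_of_not_ge fun h => b4 (b5.trans (sup_le ((yy_mono h1 h2 h).trans le_sup_left) b3))
  obtain rfl : a = 0 := by omega
  obtain rfl : b = 1 := by omega
  obtain rfl : c = 2 := by omega
  obtain rfl : z = y.1 := P.eq_of_rk_le b1 (hx.trans a3.symm).le
  obtain rfl : m = y.2.1 := P.eq_of_rk_le (b3.trans (sup_le le_rfl h1)) (hl.trans a4.symm).le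
  have hρ : ρ ≤ y.2.2 := b5.trans (sup_le le_rfl h2)
  refine .inl (sm_zero s ⟨rfl, rfl, p3.mono hρ⟩ ?_)
  rintro ⟨_, _, ρ'⟩ ⟨rfl, rfl, h⟩
  have h' := sQ (a := (y.1, y.2.1, ρ')) ⟨rfl, rfl, h⟩
  refine .inr (hu.pos _ h' _ hz ⟨rfl, rfl, ?_⟩)
  simp only [pos, inf_eq_right.2 (h1.trans h.1), inf_eq_right.2 h.1, inf_eq_left.2 h.2.1, inf_eq_right.2 (h1.trans a2),
    inf_eq_right.2 a2, inf_eq_left.2 hρ, a5, show P.rk ρ' = 3 from h'.2.2.2.2]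

end D3P

open D3P in
theorem caseD3 [Finite G] (h : GSP P H) (h5 : 5 ≤ P.n) (t12 : Tr H (F2 P 1 2)) (t13 : Tr H (F2 P 1 3)) :
    Tr H (F3 P 1 2 3) := by
  by_contra t
  obtain ⟨O, hO⟩ := exists_part (fun g _ => smul_F3 g) t
  obtain ⟨a, b, hab⟩ := (h.three 1 2 3 1 2 4).two hO subQ eqvQ fun y hy u hu => inj t12 t13 (tr23 t13) hO.inv hy hu
  obtain ⟨⟨x, l, π⟩, hx⟩ := hO.ne
  have hx1 : P.rk x = 1 := (hO.sub hx).2.2.1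
  have := P.rk_add_ck x
  have k : ∀ w ∈ {w : L × L | (x, w.1, w.2) ∈ O}, P.Pt x ⊤ w.1 ∧ P.Pt w.1 ⊤ w.2 := fun w hw =>
    let ⟨a1, a2, a3, a4, a5⟩ := hO.sub hw
    ⟨(P.pt_line a3).2 ⟨a1, le_top, a4⟩, P.pt_iff.2 ⟨a2, le_top, a5.trans (by rw [a4])⟩⟩
  have k1 : ∀ e, {ρ | (x, e, ρ) ∈ O}.ncard =
      (O ∩ {w : L × L × L | w.1 = x ∧ w.2.1 = e ∧ P.Pt e ⊤ w.2.2}).ncard := fun e =>
    Set.ncard_congr (fun ρ _ => (x, e, ρ)) (fun ρ hρ => ⟨hρ, rfl, rfl, (k (e, ρ) hρ).2⟩)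
      (fun _ _ _ _ h => congrArg (fun y : L × L × L => y.2.2) h)
      (by rintro ⟨_, _, ρ⟩ ⟨h, rfl, rfl, -⟩; exact ⟨ρ, h, rfl⟩)
  have k2 : ∀ ρ, {e | (x, e, ρ) ∈ O}.ncard =
      (O ∩ {w : L × L × L | w.1 = x ∧ w.2.2 = ρ ∧ P.Pt x ρ w.2.1}).ncard := fun ρ =>
    Set.ncard_congr (fun e _ => (x, e, ρ)) (fun e he => ⟨he, rfl, rfl, (k (e, ρ) he).1.mono (k (e, ρ) he).2.1⟩)
      (fun _ _ _ _ h => congrArg (fun y : L × L × L => y.2.1) h)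
      (by rintro ⟨_, e, _⟩ ⟨h, rfl, rfl, -⟩; exact ⟨e, h, rfl⟩)
  refine lemTF (P := P) (o := x) le_top (by rw [P.d_top]; omega) k ⟨(l, π), hx⟩ ?_ (fun e e' he he' => ?_)
    (fun ρ ρ' hρ hρ' => ?_) (a := a) (b := b) fun e S he hS => ?_
  · obtain ⟨⟨z, m, ρ⟩, ⟨a1, a2, a3, a4, a5⟩, a6⟩ := hO.ne'
    obtain ⟨g, hg, e⟩ := t12 (z, m) ⟨a1, a3, a4⟩ (x, l) ⟨(hO.sub hx).1, hx1, (hO.sub hx).2.2.2.1⟩
    obtain rfl : g • z = x := congrArg Prod.fst e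
    exact ⟨g • m, g • ρ, (pt_smul_top g).2 ((P.pt_line a3).2 ⟨a1, le_top, a4⟩),
      (pt_smul_top g).2 (P.pt_iff.2 ⟨a2, le_top, a5.trans (by rw [a4])⟩),
      fun h => a6 ((inv_iff hO.inv hg (x := (z, m, ρ))).1 h)⟩
  · exact (k1 e).trans ((eqv3.cnt_tr hO.inv t12 (y := (x, e)) (y' := (x, e')) ⟨he.1, hx1, ((P.pt_line hx1).1 he).2.2⟩
      ⟨he'.1, hx1, ((P.pt_line hx1).1 he').2.2⟩).trans (k1 e').symm)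
  · exact (k2 ρ).trans ((eqv2.cnt_tr hO.inv t13 (y := (x, ρ)) (y' := (x, ρ'))
      ⟨hρ.1, hx1, (ln_iff.1 hρ).2.2.trans (by rw [hx1])⟩
      ⟨hρ'.1, hx1, (ln_iff.1 hρ').2.2.trans (by rw [hx1])⟩).trans (k2 ρ').symm)
  · have he' := ((P.pt_line hx1).1 he).2.2
    rw [show cnt {ρ | (e, ρ) ∈ {w : L × L | (x, w.1, w.2) ∈ O}} S =
        (O ∩ {w : L × L × L | w.1 = x ∧ w.2.1 = e ∧ P.Pt e S w.2.2}).ncard from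
      Set.ncard_congr (fun ρ _ => (x, e, ρ)) (fun ρ hρ => ⟨hρ.1, rfl, rfl, (k (e, ρ) hρ.1).2.mono hρ.2⟩)
        (fun _ _ _ _ h => congrArg (fun y : L × L × L => y.2.2) h)
        (by rintro ⟨_, _, ρ⟩ ⟨h, rfl, rfl, h'⟩; exact ⟨ρ, ⟨h, h'.2.1⟩, rfl⟩)]
    exact hab (x, e, S) ⟨he.1, hS.1, hx1, he', (ln_iff.1 hS).2.2.trans (by rw [he'])⟩

end CfsgLib.KL
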