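import Mathlib
import Cfsg.Agent.Lib.KL.Base
import Cfsg.Agent.Lib.CK.B34
import Cfsg.Agent.Lib.CKS.Lin2

/-! KL, package PQ: flag-transitive groups of a plane (plans/KL.md). -/

set_option autoImplicit false
set_option linter.unusedSectionVars false

namespace CfsgLib.KL

open CfsgLib.CK Module CfsgLib.TvGen CfsgLib.Tech

variable {F V : Type*} [Field F] [Finite F] [AddCommGroup V] [Module F V] [Finite V]

namespace PqP

variable {Y : Subgroup (V ≃ₗ[F] V)}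

theorem A_eq (h3 : finrank F V = 3) (tr : Tr Y (F2 (lin F V) 1 2)) {v v' : V} {D D' : Submodule F V} (hv : v ≠ 0)
    (hv' : v' ≠ 0) (hD : (lin F V).ck D = 1) (hD' : (lin F V).ck D' = 1) (m : v ∈ D) (m' : v' ∈ D') :
    (b34A Y v D).ncard = (b34A Y v' D').ncard := by
  have key : ∀ {v v' : V} {D D' : Submodule F V}, v ≠ 0 → v' ≠ 0 → (lin F V).ck D = 1 →
      (lin F V).ck D' = 1 → v ∈ D → v' ∈ D' → (b34A Y v D).ncard ≤ (b34A Y v' D').ncard := by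
    intro v v' D D' hv hv' hD hD' m m'
    have h1 := (lin F V).rk_add_ck D
    have h2 := (lin F V).rk_add_ck D'
    rw [lin_n] at h1 h2
    obtain ⟨g, hg, e⟩ := tr (F ∙ v, D) ⟨(Submodule.span_singleton_le_iff_mem _ _).2 m, rk_span hv,
      show (lin F V).rk D = 2 by omega⟩ (F ∙ v', D') ⟨(Submodule.span_singleton_le_iff_mem _ _).2 m', rk_span hv',
      show (lin F V).rk D' = 2 by omega⟩
    exact b34A_le hv hg (congrArg Prod.fst e) (congrArg Prod.snd e)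
  exact le_antisymm (key hv hv' hD hD' m m') (key hv' hv hD' hD m' m)

theorem trv (h3 : finrank F V = 3) (tr : Tr Y (F2 (lin F V) 1 2)) (ht : HasT Y) : Trv Y := by
  intro v φ h0
  by_cases hv : v = 0
  · rw [hv]; exact Tv.zl Y φ
  by_cases hφ : φ = 0
  · rw [hφ]; exact Tv.zr Y v
  obtain ⟨v0, φ0, hv0, hφ0, t0⟩ := ht
  set a := (b34A Y v (LinearMap.ker φ)).ncard with ha
  have hapos : 0 < a := by
    rw [ha, A_eq h3 tr hv hv0 (ck_ker hφ) (ck_ker hφ0) h0 t0.1]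
    exact (Set.ncard_pos (Set.toFinite _)).2 ⟨φ0, ⟨t0, hφ0⟩, rfl⟩
  have hcount := dc_eq ((b34Q Y v : Set (Dual F V)) \ {0}) {D | (lin F V).Hy (F ∙ v) ⊤ D}
    (fun ψ D => LinearMap.ker ψ = D) (m := 1) (k := a) (by
      rintro ψ ⟨h1, h2⟩
      rw [Set.ncard_eq_one]
      refine ⟨LinearMap.ker ψ, Set.ext fun D => ⟨fun hD => hD.2.symm, ?_⟩⟩
      rintro rfl
      exact ⟨(lin F V).hy_top.2 ⟨(Submodule.span_singleton_le_iff_mem _ _).2 h1.1, ck_ker h2⟩, rfl⟩)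
    (by
      intro D hD
      obtain ⟨h1, h2⟩ := (lin F V).hy_top.1 hD
      exact A_eq h3 tr hv hv h2 (ck_ker hφ) ((Submodule.span_singleton_le_iff_mem _ _).1 h1) h0)
  rw [(lin F V).ncard_hy le_top, (lin F V).d_top, mul_one] at hcount
  have hn : (lin F V).n = 3 := by rw [lin_n, h3]
  have hck : (lin F V).ck (F ∙ v) = ((lin F V).n - 2) + 1 := by
    have := (lin F V).rk_add_ck (F ∙ v)
    rw [rk_span hv] at this; omega
  obtain ⟨e, he⟩ := (lin F V).qp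
  rw [hck, PG.θ_succ', he] at hcount
  obtain ⟨j, hj⟩ := b34_pow (b34Q Y v)
  have hQ : ((b34Q Y v : Set (Dual F V)) \ {0}).ncard + 1 = Nat.card (b34Q Y v) :=
    Set.ncard_sdiff_singleton_add_one (b34Q Y v).zero_mem
  obtain ⟨i, hi⟩ := b34_pow (b34Q Y v ⊓ (F ∙ φ).toAddSubgroup)
  have hT : a + 1 = Nat.card ↥(b34Q Y v ⊓ (F ∙ φ).toAddSubgroup) := by
    have : b34A Y v (LinearMap.ker φ) =
        ((b34Q Y v ⊓ (F ∙ φ).toAddSubgroup : AddSubgroup _) : Set (Dual F V)) \ {0} := by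
      ext ψ
      exact ⟨fun ⟨⟨h1, h2⟩, h3⟩ => ⟨⟨h1, (b34_ker_iff hφ h2).1 h3⟩, h2⟩,
        fun ⟨⟨h1, h3⟩, h2⟩ => ⟨⟨h1, h2⟩, (b34_ker_iff hφ h2).2 h3⟩⟩
    rw [ha, this]
    exact Set.ncard_sdiff_singleton_add_one (AddSubgroup.zero_mem _)
  have hle : e + 1 ≤ i := b34_arith (lin F V).pp hapos ((lin F V).θ_pos (k := (lin F V).n - 2)
    (by omega)) (hT.trans hi) (j := j) (by rw [← hcount, hQ, hj])
  have hcard : Nat.card (F ∙ φ).toAddSubgroup = (lin F V).p ^ (e + 1) := by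
    rw [← he, lin_q]
    show Nat.card (F ∙ φ) = _
    rw [Module.natCard_eq_pow_finrank (K := F), finrank_span_singleton hφ, pow_one]
  have heq : b34Q Y v ⊓ (F ∙ φ).toAddSubgroup = (F ∙ φ).toAddSubgroup :=
    AddSubgroup.eq_of_le_of_card_ge inf_le_right
      (by rw [hcard, hi]; exact Nat.pow_le_pow_right (lin F V).pp.pos hle)
  have : φ ∈ b34Q Y v ⊓ (F ∙ φ).toAddSubgroup := by
    rw [heq]; exact Submodule.mem_span_singleton_self φ
  exact this.1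

/-- a reflection of `Y` with centre `x` -/
def Rf (Y : Subgroup (V ≃ₗ[F] V)) (x : V) (ψ : Dual F V) : Prop :=
  ψ x = -2 ∧ ∃ k ∈ Y, ∀ v, k v = v + ψ v • x

theorem Rf.conj {x y : V} {ψ : Dual F V} (h : Rf Y x ψ) {g : V ≃ₗ[F] V} (hg : g ∈ Y) {c : F} (hc : c • y = g x) :
    Rf Y y (c • (ψ ∘ₗ (g.symm : V →ₗ[F] V))) := by
  obtain ⟨h1, k, hk, e⟩ := h
  refine ⟨?_, g * k * g⁻¹, mul_mem (mul_mem hg hk) (inv_mem hg), fun v => ?_⟩
  · show c • ψ (g.symm y) = -2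
    rw [← map_smul, ← map_smul, hc, g.symm_apply_apply, h1]
  · show g (k (g.symm v)) = v + (c • ψ (g.symm v)) • y
    rw [e, map_add, g.apply_symm_apply, map_smul, ← hc, smul_smul, smul_eq_mul, mul_comm]

theorem rank_one {k : V ≃ₗ[F] V} (h : finrank F (LinearMap.range ((k : V →ₗ[F] V) - LinearMap.id)) = 1) :
    ∃ (x : V) (ψ : Dual F V), x ≠ 0 ∧ ψ ≠ 0 ∧ ∀ v, k v = v + ψ v • x := by
  obtain ⟨x, hx, e⟩ := exists_of_rk ((lin_rk _).trans h)
  obtain ⟨χ, hχ⟩ : ∃ χ : Dual F V, χ x = 1 := Module.Projective.exists_dual_eq_one F hx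
  have key : ∀ v, k v = v + (χ ∘ₗ ((k : V →ₗ[F] V) - LinearMap.id)) v • x := fun v => by
    obtain ⟨c, hc⟩ := Submodule.mem_span_singleton.1 (e ▸ LinearMap.mem_range_self ((k : V →ₗ[F] V) - LinearMap.id) v)
    rw [LinearMap.comp_apply, ← hc, map_smul, hχ, smul_eq_mul, mul_one, hc]
    simp
  refine ⟨x, _, hx, fun h0 => ?_, key⟩
  obtain ⟨v, hv⟩ : x ∈ LinearMap.range ((k : V →ₗ[F] V) - LinearMap.id) := e ▸ Submodule.mem_span_singleton_self x
  have := congrArg (fun ψ : Dual F V => ψ v) h0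
  simp only [LinearMap.comp_apply, hv, hχ] at this
  simp at this

theorem exists_inv (h3 : finrank F V = 3) (sc : ∀ g, Sc g → g ∈ Y) {g : V ≃ₗ[F] V} (hg : g ∈ Y) (h1 : ¬ Sc g)
    (h2 : Sc (g * g)) : ∃ k ∈ Y, ¬ Sc k ∧ ∀ v, k (k v) = v := by
  obtain ⟨c, hc⟩ := h2
  have e : (g : V →ₗ[F] V) ∘ₗ (g : V →ₗ[F] V) = c • LinearMap.id := LinearMap.ext hc
  have hd := congrArg LinearMap.det e
  rw [LinearMap.det_comp, LinearMap.det_smul, h3, LinearMap.det_id, mul_one] at hd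
  have h0 : LinearMap.det (g : V →ₗ[F] V) ≠ 0 := g.isUnit_det'.ne_zero
  have hc0 : c ≠ 0 := by
    rintro rfl
    exact mul_ne_zero h0 h0 (by rw [hd]; simp)
  set d := LinearMap.det (g : V →ₗ[F] V)
  have he : c / d ≠ 0 := div_ne_zero hc0 h0
  refine ⟨LinearEquiv.smulOfNeZero F V _ he * g, mul_mem (sc _ ⟨c / d, fun _ => rfl⟩) hg, fun ⟨a, ha⟩ => h1
    ⟨(c / d)⁻¹ * a, fun v => ?_⟩, fun v => ?_⟩
  · rw [mul_smul, ← ha v]
    exact (inv_smul_smul₀ he _).symm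
  · show (c / d) • g ((c / d) • g v) = v
    rw [map_smul, show g (g v) = c • v from hc v, smul_smul, smul_smul,
      show c / d * (c / d) * c = 1 by field_simp; linear_combination -hd, one_smul]

theorem exists_one (h3 : finrank F V = 3) (sc : ∀ g, Sc g → g ∈ Y) {k : V ≃ₗ[F] V} (hk : k ∈ Y) (h1 : ¬ Sc k)
    (h2 : ∀ v, k (k v) = v) : ∃ k ∈ Y, (∀ v, k (k v) = v) ∧
      finrank F (LinearMap.range ((k : V →ₗ[F] V) - LinearMap.id)) = 1 := by
  let k' : V ≃ₗ[F] V := LinearEquiv.smulOfNeZero F V (-1) (by simp) * k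
  have hk' : ∀ v, k' v = -k v := fun v => neg_one_smul F (k v)
  have a1 : finrank F (LinearMap.range ((k : V →ₗ[F] V) - LinearMap.id)) ≠ 0 := fun h => h1 ⟨1, fun v => by
    have := LinearMap.congr_fun (LinearMap.range_eq_bot.1 (Submodule.finrank_eq_zero.1 h)) v
    simpa [sub_eq_zero] using this⟩
  have a2 : finrank F (LinearMap.range ((k' : V →ₗ[F] V) - LinearMap.id)) ≠ 0 := fun h => h1 ⟨-1, fun v => by
    have := LinearMap.congr_fun (LinearMap.range_eq_bot.1 (Submodule.finrank_eq_zero.1 h)) v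
    simpa [sub_eq_zero, hk', neg_eq_iff_eq_neg] using this⟩
  have a3 := LinearMap.finrank_range_add_finrank_ker ((k : V →ₗ[F] V) - LinearMap.id)
  have a4 : finrank F (LinearMap.range ((k' : V →ₗ[F] V) - LinearMap.id)) ≤
      finrank F (LinearMap.ker ((k : V →ₗ[F] V) - LinearMap.id)) := Submodule.finrank_mono (by
    rintro _ ⟨v, rfl⟩
    simp [hk', h2]; abel)
  by_cases h : finrank F (LinearMap.range ((k : V →ₗ[F] V) - LinearMap.id)) = 1
  · exact ⟨k, hk, h2, h⟩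
  · exact ⟨k', mul_mem (sc _ ⟨-1, fun _ => rfl⟩) hk, fun v => by simp [hk', h2], by omega⟩

theorem tr_pt (h3 : finrank F V = 3) (tr : Tr Y (F2 (lin F V) 1 2)) {x y : V} (hx : x ≠ 0) (hy : y ≠ 0) :
    ∃ g ∈ Y, ∃ c : F, c • y = g x := by
  have key : ∀ x : V, x ≠ 0 → ∃ D, (F ∙ x, D) ∈ F2 (lin F V) 1 2 := fun x hx => by
    obtain ⟨D, h1, -, h2⟩ := (lin F V).exists_rk (a := F ∙ x) (b := ⊤) le_top (k := 2)
      (by rw [rk_span hx]; omega) (by rw [PG.rk_top, lin_n]; omega)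
    exact ⟨D, h1, rk_span hx, h2⟩
  obtain ⟨D, hD⟩ := key x hx
  obtain ⟨D', hD'⟩ := key y hy
  obtain ⟨g, hg, e⟩ := tr _ hD _ hD'
  have e1 : g • (F ∙ x) = F ∙ y := congrArg Prod.fst e
  rw [smul_span] at e1
  exact ⟨g, hg, Submodule.mem_span_singleton.1 (e1 ▸ Submodule.mem_span_singleton_self _)⟩

theorem hasT (h3 : finrank F V = 3) (tr : Tr Y (F2 (lin F V) 1 2)) {k : V ≃ₗ[F] V} (hk : k ∈ Y)
    (h2 : ∀ v, k (k v) = v) (h1 : finrank F (LinearMap.range ((k : V →ₗ[F] V) - LinearMap.id)) = 1) : HasT Y := by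
  classical
  obtain ⟨x, ψ, hx, hψ, e⟩ := rank_one h1
  have h0 : ψ x = -2 := by
    obtain ⟨u, hu⟩ := DFunLike.ne_iff.1 hψ
    have := h2 u
    rw [e u, map_add, map_smul, e u, e x, add_assoc, add_eq_left, smul_add, smul_smul, ← add_smul, ← add_smul,
      smul_eq_zero, or_iff_left hx] at this
    have h4 : ψ u * (ψ x + 2) = 0 := by linear_combination this
    exact eq_neg_of_add_eq_zero_left ((mul_eq_zero.1 h4).resolve_left hu)
  by_cases hc : (2 : F) = 0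
  · exact ⟨x, ψ, hx, hψ, by rw [h0, hc, neg_zero], k, hk, e⟩
  by_contra hT
  have ex : ∀ y : V, ∃ φ : Dual F V, (y = 0 → φ = 0) ∧ (y ≠ 0 → Rf Y y φ) := fun y => by
    by_cases hy : y = 0
    · exact ⟨0, fun _ => rfl, fun h => (h hy).elim⟩
    · obtain ⟨g, hg, c, hc⟩ := tr_pt h3 tr hx hy
      exact ⟨_, fun h => (hy h).elim, fun _ => Rf.conj ⟨h0, k, hk, e⟩ hg hc⟩
  have un : ∀ y : V, y ≠ 0 → ∀ φ φ', Rf Y y φ → Rf Y y φ' → φ = φ' := by
    rintro y hy φ φ' ⟨a1, g, hg, a2⟩ ⟨b1, g', hg', b2⟩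
    by_contra hne
    refine hT ⟨y, φ - φ', hy, sub_ne_zero.2 hne, by simp [a1, b1], g * g', mul_mem hg hg', fun v => ?_⟩
    rw [LinearEquiv.mul_apply, b2, map_add, map_smul, a2, a2, a1, LinearMap.sub_apply]
    module
  choose f f0 f1 using ex
  refine CKS.Lin2P.polar h3.ge f (fun y hy => by rw [(f1 y hy).1]; simpa using hc) fun a b hab => ?_
  by_cases ha : a = 0
  · rw [ha, map_zero]
  by_cases hb : b = 0
  · rw [f0 b hb, LinearMap.zero_apply]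
  obtain ⟨a1, g, hg, a2⟩ := f1 a ha
  have := un b hb _ _ ((f1 b hb).conj hg (c := 1) (by rw [a2, hab]; simp)) (f1 b hb)
  have h4 := LinearMap.congr_fun this (g a)
  rw [one_smul, LinearMap.comp_apply, LinearEquiv.coe_coe, g.symm_apply_apply, a2, a1, map_add, map_smul,
    smul_eq_mul] at h4
  have h5 : 2 * f b a = 0 := by linear_combination h4
  exact (mul_eq_zero.1 h5).resolve_left hc

end PqP

theorem pq (h3 : finrank F V = 3) {Y : Subgroup (V ≃ₗ[F] V)} (sc : ∀ g, Sc g → g ∈ Y)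
    (tr : Tr Y (F2 (lin F V) 1 2)) {g : V ≃ₗ[F] V} (hg : g ∈ Y) (h1 : ¬ Sc g) (h2 : Sc (g * g)) : Trv Y := by
  obtain ⟨k, hk, a1, a2⟩ := PqP.exists_inv h3 sc hg h1 h2
  obtain ⟨k', hk', b1, b2⟩ := PqP.exists_one h3 sc hk a1 a2
  exact PqP.trv h3 tr (PqP.hasT h3 tr hk' b1 b2)

end CfsgLib.KL
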