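import Mathlib
import Cfsg.Agent.Lib.KL.Pq
import Cfsg.Agent.Lib.CK.SimL

/-! KL, package DE: from planes to lines (plans/KL.md). -/

set_option autoImplicit false
set_option linter.unusedSectionVars false

namespace CfsgLib.KL

open CfsgLib.CK Module

variable {F V : Type*} [Field F] [Finite F] [AddCommGroup V] [Module F V] [Finite V]

namespace DeP

open CfsgLib.Tech

/-- scalar on `π` -/
def ScOn (π : Submodule F V) (g : V ≃ₗ[F] V) : Prop := ∃ c : F, ∀ v ∈ π, g v = c • v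

theorem sc_mem {H : Subgroup (V ≃ₗ[F] V)} (sc : ∀ g, Sc g → g ∈ H) {c : F} (hc : c ≠ 0) :
    ∃ g ∈ H, ∀ v, g v = c • v :=
  ⟨LinearEquiv.smulOfNeZero F V c hc, sc _ ⟨c, fun _ => rfl⟩, fun _ => rfl⟩

theorem two (h3 : 3 ≤ finrank F V) (h2 : ringChar F = 2) {H : Subgroup (V ≃ₗ[F] V)} (sc : ∀ g, Sc g → g ∈ H)
    (inv : ∃ t ∈ H, ¬ Sc t ∧ Sc (t * t)) :
    ∃ π : Submodule F V, finrank F π = 3 ∧ ∃ g ∈ Stab H π, ¬ ScOn π g ∧ ScOn π (g * g) := by
  obtain ⟨t, ht, n, c, hc⟩ := inv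
  obtain ⟨e, rfl⟩ := FiniteField.isSquare_of_char_two h2 c
  haveI : CharP F 2 := ringChar.of_eq h2
  have : Nontrivial V := Module.nontrivial_of_finrank_pos (R := F) (by omega)
  have e0 : e ≠ 0 := by
    rintro rfl
    obtain ⟨v, hv⟩ := exists_ne (0 : V)
    exact hv ((t * t).map_eq_zero_iff.1 (by rw [hc]; simp))
  let N : V →ₗ[F] V := (t : V →ₗ[F] V) - e • (LinearMap.id : V →ₗ[F] V)
  have hN : ∀ v, N v = t v - e • v := fun _ => rfl
  have NN : ∀ v, N (N v) = 0 := fun v => by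
    have h4 : t (t v) = (e * e) • v := hc v
    have h5 : (2 : F) = 0 := CharTwo.two_eq_zero
    rw [hN, hN, map_sub, map_smul, h4]
    linear_combination (norm := module) h5 • ((e * e) • v - e • t v)
  obtain ⟨v, hv⟩ : ∃ v, N v ≠ 0 := by
    by_contra! k
    exact n ⟨e, fun v => sub_eq_zero.1 (k v)⟩
  have r1 := N.finrank_range_add_finrank_ker
  have r2 := Submodule.finrank_mono (show LinearMap.range N ≤ LinearMap.ker N by rintro _ ⟨w, rfl⟩; exact NN w)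
  have v0 : v ≠ 0 := fun k => hv (by rw [k, map_zero])
  have r3 := (lin F V).rk_sup_pt (rk_span v0) (U := LinearMap.ker N) fun k => hv (k (Submodule.mem_span_singleton_self v))
  have r4 := (lin F V).rk_sup_inf (F ∙ N v) (F ∙ v)
  rw [rk_span v0, rk_span hv] at r4
  obtain ⟨π, p1, p2, p3⟩ := (lin F V).exists_rk (sup_le_sup_right ((Submodule.span_singleton_le_iff_mem (N v)
    (LinearMap.ker N)).2 (NN v)) (F ∙ v)) (k := 3) (by omega) (by rw [r3, lin_rk]; omega)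
  have m1 : v ∈ π := p1 (Submodule.mem_sup_right (Submodule.mem_span_singleton_self v))
  have m2 : N v ∈ π := p1 (Submodule.mem_sup_left (Submodule.mem_span_singleton_self _))
  refine ⟨π, (lin_rk π).symm.trans p3, t, ⟨ht, smul_eq_of_le fun w hw => ?_⟩, ?_, _, fun w _ => hc w⟩
  · obtain ⟨a, ha, _, hb, rfl⟩ := Submodule.mem_sup.1 (p2 hw)
    obtain ⟨d, rfl⟩ := Submodule.mem_span_singleton.1 hb
    rw [← sub_add_cancel (t _) (e • (a + d • v)), ← hN, map_add, show N a = 0 from ha, zero_add, map_smul]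
    exact add_mem (π.smul_mem _ m2) (π.smul_mem _ hw)
  · rintro ⟨d, hd⟩
    have k : N v = (d - e) • v := by rw [hN, hd v m1, sub_smul]
    have := NN v
    rw [k, map_smul, k, smul_eq_zero, ← k, or_iff_left hv] at this
    exact hv (by rw [k, this, zero_smul])

theorem odd (h3 : 3 ≤ finrank F V) (h2 : ringChar F ≠ 2) {H : Subgroup (V ≃ₗ[F] V)} (h : PlFl (lin F V) H) :
    ∃ π : Submodule F V, finrank F π = 3 ∧ ∃ g ∈ Stab H π, ¬ ScOn π g ∧ ScOn π (g * g) := by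
  obtain ⟨π, -, -, p3⟩ := (lin F V).exists_rk (bot_le : ⊥ ≤ ⊤) (k := 3) (by rw [PG.rk_bot]; omega)
    (by rw [PG.rk_top, lin_n]; omega)
  obtain ⟨l, -, l2, l3⟩ := (lin F V).exists_rk (bot_le : ⊥ ≤ π) (k := 2) (by rw [PG.rk_bot]; omega) (by omega)
  obtain ⟨x, -, x2, x3⟩ := (lin F V).exists_rk (bot_le : ⊥ ≤ l) (k := 1) (by rw [PG.rk_bot]; omega) (by omega)
  obtain ⟨S, hS⟩ := exists_isSylowIn 2 (Stab (Stab H π) x)
  refine ⟨π, (lin_rk π).symm.trans p3, ?_⟩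
  obtain ⟨s, hs, n⟩ : ∃ s ∈ S, ¬ ScOn π s := by
    by_contra! k
    have t : Tr (Stab (Stab H π) x) {m | (lin F V).Pt x π m} := fun a ha b hb => by
      obtain ⟨g, hg, e⟩ := h (x, a, π) ⟨ha.1, ha.2.1, x3, (((lin F V).pt_line x3).1 ha).2.2, p3⟩
        (x, b, π) ⟨hb.1, hb.2.1, x3, (((lin F V).pt_line x3).1 hb).2.2, p3⟩ rfl
      exact ⟨g, ⟨⟨hg, (Prod.mk.inj (Prod.mk.inj e).2).2⟩, (Prod.mk.inj e).1⟩, (Prod.mk.inj (Prod.mk.inj e).2).1⟩
    have i := t.relIndex (PG.inv_pt (fx_Stab _ x) ((fx_Stab H π).mono (Stab_le _ x)))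
      (((lin F V).pt_line x3).2 ⟨x2, l2, l3⟩)
    have d := (lin F V).rk_add_d (x2.trans l2)
    rw [(lin F V).ncard_pt (x2.trans l2), show (lin F V).d x π = 2 by omega, PG.θ_two, lin_q] at i
    refine hS.not_dvd (Dvd.dvd.trans ?_ (Subgroup.relIndex_dvd_of_le_left _ (le_Stab hS.le fun g hg =>
      smul_eq_of_le fun v hv => ?_ : S ≤ Stab (Stab (Stab H π) x) l)))
    · have := Fintype.ofFinite F
      have := FiniteField.odd_card_of_char_ne_two h2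
      rw [i, Nat.card_eq_fintype_card]
      omega
    · obtain ⟨c, hc⟩ := k g hg
      rw [hc v (l2 hv)]
      exact l.smul_mem c hv
  obtain ⟨k, hk⟩ := hS.pgroup ⟨s, hs⟩
  have hk' : s ^ 2 ^ k = 1 := congrArg Subtype.val hk
  clear hk
  induction k generalizing s with
  | zero => exact (n ⟨1, fun v _ => by rw [pow_zero, pow_one] at hk'; simp [hk']⟩).elim
  | succ k ih =>
    by_cases e : ScOn π (s * s)
    · exact ⟨s, Stab_le _ x (hS.le hs), n, e⟩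
    · exact ih _ (mul_mem hs hs) e (by rw [← sq, ← pow_mul, ← pow_succ', hk'])

end DeP

open DeP in
theorem loc_of_plfl (h3 : 3 ≤ finrank F V) {H : Subgroup (V ≃ₗ[F] V)} (sc : ∀ g, Sc g → g ∈ H)
    (inv : ∃ t ∈ H, ¬ Sc t ∧ Sc (t * t)) (h : PlFl (lin F V) H) : Loc (lin F V) H := by
  obtain ⟨π, p3, g, hg, n1, n2⟩ : ∃ π : Submodule F V, finrank F π = 3 ∧ ∃ g ∈ Stab H π, ¬ ScOn π g ∧ ScOn π (g * g) := by
    by_cases h2 : ringChar F = 2
    exacts [two h3 h2 sc inv, odd h3 h2 h]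
  obtain ⟨φ, hφ, s⟩ := exists_sub π (Stab H π) (fx_Stab H π)
  have p3' : (lin F V).rk π = 3 := (lin_rk π).trans p3
  have T : Trv φ.range := by
    refine pq p3 (fun k ⟨c, hc⟩ => ?_) (fun a ha b hb => ?_) (g := φ ⟨g, hg⟩) ⟨_, rfl⟩
      (fun ⟨c, hc⟩ => n1 ⟨c, fun v hv => (hφ ⟨g, hg⟩ ⟨v, hv⟩).symm.trans (congrArg Subtype.val (hc _))⟩) ?_
    · have : Nontrivial π := Module.nontrivial_of_finrank_pos (R := F) (by omega)
      obtain ⟨v, hv⟩ := exists_ne (0 : π)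
      obtain ⟨u, hu, e⟩ := sc_mem sc (c := c) fun e => hv (k.map_eq_zero_iff.1 (by rw [hc, e, zero_smul]))
      exact ⟨⟨u, hu, smul_eq_of_le fun v hv => e v ▸ π.smul_mem c hv⟩,
        LinearEquiv.ext fun v => Subtype.ext (by rw [hφ, hc]; exact e v)⟩
    · have k : ∀ a ∈ F2 (lin F π) 1 2, (a.1.map π.subtype, a.2.map π.subtype, π) ∈ F3 (lin F V) 1 2 3 := fun a ha =>
        ⟨Submodule.map_mono ha.1, Submodule.map_subtype_le _ _, (s.rk_eq _).symm.trans ha.2.1,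
          (s.rk_eq _).symm.trans ha.2.2, p3'⟩
      obtain ⟨u, hu, e⟩ := h _ (k a ha) _ (k b hb) rfl
      obtain ⟨w, hw, e'⟩ := s.down u ⟨hu, (Prod.mk.inj (Prod.mk.inj e).2).2⟩
      exact ⟨w, hw, Prod.ext (s.inj ((e' _).trans (Prod.mk.inj e).1))
        (s.inj ((e' _).trans (Prod.mk.inj (Prod.mk.inj e).2).1))⟩
    · obtain ⟨c, hc⟩ := n2
      exact ⟨c, fun v => Subtype.ext (by rw [← map_mul, hφ]; exact hc v v.2)⟩
  obtain ⟨l, -, l2, l3⟩ := (lin F V).exists_rk (bot_le : ⊥ ≤ π) (k := 2) (by rw [PG.rk_bot]; omega) (by omega)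
  obtain ⟨x, -, x2, x3⟩ := (lin F V).exists_rk (bot_le : ⊥ ≤ l) (k := 1) (by rw [PG.rk_bot]; omega) (by omega)
  refine ⟨x, l, x3, l3, x2, fun a ha b hb => ?_⟩
  obtain ⟨z, z0, rfl⟩ := exists_of_rk x3
  have a1 := (lin F V).pt_bot.1 ha.1
  have b1 := (lin F V).pt_bot.1 hb.1
  obtain ⟨v, v0, rfl⟩ := exists_of_rk a1.2
  obtain ⟨w, w0, rfl⟩ := exists_of_rk b1.2
  have zl : z ∈ l := x2 (Submodule.mem_span_singleton_self z)
  have vl : v ∈ l := a1.1 (Submodule.mem_span_singleton_self v)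
  have na := (lin F V).not_le_of_ne (by omega) ha.2
  have nb := (lin F V).not_le_of_ne (by omega) hb.2
  have e := (lin F V).sup_eq_of_rk x2 a1.1 na (by omega)
  obtain ⟨_, h1, _, h2, rfl⟩ := Submodule.mem_sup.1 (e.ge (b1.1 (Submodule.mem_span_singleton_self w)))
  obtain ⟨β, rfl⟩ := Submodule.mem_span_singleton.1 h1
  obtain ⟨α, rfl⟩ := Submodule.mem_span_singleton.1 h2
  have α0 : α ≠ 0 := fun k => nb ((Submodule.span_singleton_le_iff_mem _ _).2 (by simpa [k] using h1))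
  obtain ⟨ψ, q1, q2⟩ := Submodule.exists_le_ker_of_notMem (mt (Submodule.span_singleton_le_iff_mem _ _).2 na)
  have q3 : ψ z = 0 := q2 (Submodule.mem_span_singleton_self z)
  obtain ⟨-, _, ⟨u, rfl⟩, hu⟩ := T ⟨z, l2 zl⟩ ((β / (α * ψ v)) • ψ ∘ₗ π.subtype) (by simp [q3])
  have k : ∀ y ∈ π, u.1 y = y + (β / (α * ψ v) * ψ y) • z := fun y hy =>
    (hφ u ⟨y, hy⟩).symm.trans (congrArg Subtype.val (hu ⟨y, hy⟩))
  refine ⟨u, ⟨⟨u.2.1, smul_eq_of_le fun y hy => ?_⟩, ?_⟩, ?_⟩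
  · rw [k y (l2 hy)]
    exact add_mem hy (l.smul_mem _ zl)
  · change u.1 • (F ∙ z) = F ∙ z
    rw [smul_span, k z (l2 zl), q3, mul_zero, zero_smul, add_zero]
  · rw [smul_span, k v (l2 vl), ← Submodule.span_singleton_smul_eq (IsUnit.mk0 α α0), smul_add, smul_smul, add_comm]
    congr 4
    field_simp

end CfsgLib.KL
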