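import Mathlib
import Cfsg.Agent.Lib.KL.Base
import Cfsg.Agent.Lib.ClMax.Basic

/-! KL, package PF: pairs of flags (plans/KL.md). -/

set_option autoImplicit false

namespace CfsgLib.KL

open CfsgLib.CK Module

variable {F V : Type*} [Field F] [Finite F] [AddCommGroup V] [Module F V] [Finite V]

namespace PfP

omit [Finite F] [Finite V] in
theorem exists_form {W : Submodule F V} {v : V} (hv : v ∉ W) : ∃ φ : Dual F V, φ v = 1 ∧ W ≤ LinearMap.ker φ := by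
  obtain ⟨φ, h1, h2⟩ := Submodule.exists_dual_map_eq_bot_of_notMem hv inferInstance
  refine ⟨(φ v)⁻¹ • φ, by simp [h1], fun w hw => ?_⟩
  have h3 : φ w = 0 := (Submodule.eq_bot_iff _).1 h2 _ ⟨w, hw, rfl⟩
  simp [h3]

omit [Finite F] [Finite V] in
/-- a transvection fixing `W` pointwise moves `⟨u⟩` to `⟨u'⟩` -/
theorem move {W : Submodule F V} {u u' : V} (hu : u ∉ W) (hu' : u' ∉ W) :
    ∃ h ∈ ClMax.SLV F V, (∀ w ∈ W, h w = w) ∧ h • (F ∙ u) = F ∙ u' := by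
  obtain ⟨φ, h1, h2, h3⟩ : ∃ φ : Dual F V, φ u = 1 ∧ φ u' ≠ 0 ∧ W ≤ LinearMap.ker φ := by
    obtain ⟨φ, h1, h2⟩ := exists_form hu
    obtain ⟨ψ, h3, h4⟩ := exists_form hu'
    by_cases h : φ u' = 0
    · refine ⟨ψ + (1 - ψ u) • φ, by simp [h1], by simp [h, h3], fun w hw => ?_⟩
      have a1 : φ w = 0 := h2 hw
      have a2 : ψ w = 0 := h4 hw
      simp [a1, a2]
    · exact ⟨φ, h1, h, h2⟩
  have h4 : φ ((φ u')⁻¹ • u' - u) = 0 := by simp [h1, h2]
  refine ⟨LinearEquiv.transvection h4, LinearEquiv.transvection.det_eq_one h4, fun w hw => ?_, ?_⟩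
  · rw [LinearEquiv.transvection.apply, show φ w = 0 from h3 hw, zero_smul, add_zero]
  · rw [smul_span, LinearEquiv.transvection.apply, h1, one_smul, add_sub_cancel,
      Submodule.span_singleton_smul_eq (inv_ne_zero h2).isUnit]

/-- two chains from `⊥` to a common top member -/
structure Two (N : ℕ) (A Y : ℕ → Submodule F V) : Prop where
  mA : Monotone A
  mY : Monotone Y
  A0 : A 0 = ⊥
  Y0 : Y 0 = ⊥
  lA : ∀ i, A i ≤ Y N
  lY : ∀ j, Y j ≤ A N

/-- the members up to `k` lie in the kernel of `φ`, the others contain `v` -/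
def Sp (k : ℕ) (v : V) (φ : Dual F V) (A : ℕ → Submodule F V) : Prop :=
  ∀ i, (k < i → v ∈ A i) ∧ (i ≤ k → A i ≤ LinearMap.ker φ)

variable {N : ℕ} {A Y A' Y' : ℕ → Submodule F V}

omit [Finite F] [Finite V] in
theorem Two.inf (h : Two N A Y) (D : Submodule F V) : Two N (fun i => A i ⊓ D) fun j => Y j ⊓ D :=
  ⟨fun _ _ e => inf_le_inf_right D (h.mA e), fun _ _ e => inf_le_inf_right D (h.mY e), by simp [h.A0], by simp [h.Y0],
    fun i => inf_le_inf_right D (h.lA i), fun j => inf_le_inf_right D (h.lY j)⟩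

omit [Finite F] [Finite V] in
theorem Two.idx (h : Two N A Y) (h0 : A N ≠ ⊥) :
    ∃ k l, A k ⊓ Y N = ⊥ ∧ A (k + 1) ⊓ Y l = ⊥ ∧ A (k + 1) ⊓ Y (l + 1) ≠ ⊥ := by
  obtain ⟨k, h1, h2⟩ := Nat.exists_not_and_succ_of_not_zero_of_exists (p := fun i => A i ≠ ⊥) (by simp [h.A0]) ⟨N, h0⟩
  obtain ⟨l, h3, h4⟩ := Nat.exists_not_and_succ_of_not_zero_of_exists (p := fun j => A (k + 1) ⊓ Y j ≠ ⊥)
    (by simp [h.Y0]) ⟨N, by rwa [inf_eq_left.2 (h.lA _)]⟩
  exact ⟨k, l, by rw [not_not.1 h1, bot_inf_eq], not_not.1 h3, h4⟩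

omit [Finite F] [Finite V] in
theorem Two.split (h : Two N A Y) {k l : ℕ} (h1 : A k ⊓ Y N = ⊥) (h2 : A (k + 1) ⊓ Y l = ⊥)
    (h3 : A (k + 1) ⊓ Y (l + 1) ≠ ⊥) : ∃ (v : V) (φ : Dual F V), φ v = 1 ∧ v ∈ A N ∧ Sp k v φ A ∧ Sp l v φ Y := by
  obtain ⟨v, hv, h0⟩ := Submodule.exists_mem_ne_zero_of_ne_bot h3
  obtain ⟨φ, h4, h5⟩ := exists_form (W := Y l) (v := v) fun h4 => h0 ((Submodule.eq_bot_iff _).1 h2 v ⟨hv.1, h4⟩)
  rw [inf_eq_left.2 (h.lA k)] at h1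
  exact ⟨v, φ, h4, h.lY _ hv.2, fun i => ⟨fun e => h.mA e hv.1, fun e => ((h.mA e).trans h1.le).trans bot_le⟩,
    fun j => ⟨fun e => h.mY e hv.2, fun e => (h.mY e).trans h5⟩⟩

omit [Finite F] [Finite V] in
theorem inf_ker_sup {U : Submodule F V} {v : V} {φ : Dual F V} (h : φ v = 1) (hv : v ∈ U) :
    U ⊓ LinearMap.ker φ ⊔ F ∙ v = U := by
  refine le_antisymm (sup_le inf_le_left ((Submodule.span_singleton_le_iff_mem v U).2 hv)) fun u hu => ?_
  rw [← sub_add_cancel u (φ u • v)]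
  exact Submodule.add_mem_sup ⟨U.sub_mem hu (U.smul_mem _ hv), by simp [h]⟩
    (Submodule.smul_mem _ _ (Submodule.mem_span_singleton_self v))

omit [Finite F] in
theorem finrank_inf_ker {U : Submodule F V} {v : V} {φ : Dual F V} (h : φ v = 1) (hv : v ∈ U) :
    finrank F ↥(U ⊓ LinearMap.ker φ) + 1 = finrank F U := by
  rw [← Submodule.finrank_sup_span_singleton (v := v) fun e => by simpa [h] using e.2, inf_ker_sup h hv]

omit [Finite F] in
theorem finrank_sp {k l : ℕ} {v : V} {φ : Dual F V} (h : φ v = 1) (hA : Sp k v φ A) (hY : Sp l v φ Y) (i j : ℕ) :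
    finrank F ↥(A i ⊓ LinearMap.ker φ ⊓ (Y j ⊓ LinearMap.ker φ)) + (if k < i ∧ l < j then 1 else 0) =
      finrank F ↥(A i ⊓ Y j) := by
  rw [← inf_inf_distrib_right]
  split_ifs with e
  · exact finrank_inf_ker h ⟨(hA i).1 e.1, (hY j).1 e.2⟩
  · rw [add_zero, inf_eq_left.2]
    rcases not_and_or.1 e with e | e
    exacts [inf_le_left.trans ((hA i).2 (not_lt.1 e)), inf_le_right.trans ((hY j).2 (not_lt.1 e))]

omit [Finite F] in
theorem rebuild {k : ℕ} {v v' : V} {φ φ' : Dual F V} (h : φ v = 1) (h' : φ' v' = 1) (hA : Sp k v φ A)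
    (hA' : Sp k v' φ' A') {g s : V ≃ₗ[F] V} {T : Submodule F V} (hT : ∀ i, A' i ≤ T)
    (hg : ∀ i, g • (A i ⊓ LinearMap.ker φ) = A' i ⊓ LinearMap.ker φ') (h1 : ∀ w ∈ T ⊓ LinearMap.ker φ', s w = w)
    (h2 : s • (F ∙ g v) = F ∙ v') (i : ℕ) : (s * g) • A i = A' i := by
  have h3 : (s * g) • (A i ⊓ LinearMap.ker φ) = A' i ⊓ LinearMap.ker φ' := by
    rw [mul_smul, hg]
    exact smul_eq_of_le fun w hw => by rwa [h1 w ⟨hT i hw.1, hw.2⟩]
  rcases lt_or_ge k i with e | e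
  · rw [← inf_ker_sup h ((hA i).1 e), ← inf_ker_sup h' ((hA' i).1 e), smul_def, Submodule.map_sup, ← smul_def,
      ← smul_def, h3, mul_smul, smul_span, h2]
  · rwa [inf_eq_left.2 ((hA i).2 e), inf_eq_left.2 ((hA' i).2 e)] at h3

omit [Finite F] in
/-- two pairs of chains with the same intersection dimensions are conjugate in `SL` -/
theorem conj_two (n : ℕ) : ∀ {A Y A' Y' : ℕ → Submodule F V}, Two N A Y → Two N A' Y' → finrank F (A N) = n →
    (∀ i j, finrank F ↥(A i ⊓ Y j) = finrank F ↥(A' i ⊓ Y' j)) →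
    ∃ g ∈ ClMax.SLV F V, (∀ i, g • A i = A' i) ∧ ∀ j, g • Y j = Y' j := by
  induction n with
  | zero =>
    intro A Y A' Y' h h' hn hd
    have h1 := hd N N
    rw [inf_eq_left.2 (h.lA N), inf_eq_left.2 (h'.lA N), hn, eq_comm] at h1
    rw [Submodule.finrank_eq_zero] at hn h1
    have k : ∀ {A Y : ℕ → Submodule F V}, Two N A Y → A N = ⊥ → (∀ i, A i = ⊥) ∧ ∀ j, Y j = ⊥ := fun h e =>
      ⟨fun i => le_bot_iff.1 (((h.lA i).trans (h.lY N)).trans e.le), fun j => le_bot_iff.1 ((h.lY j).trans e.le)⟩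
    exact ⟨1, one_mem _, fun i => by rw [one_smul, (k h hn).1, (k h' h1).1],
      fun j => by rw [one_smul, (k h hn).2, (k h' h1).2]⟩
  | succ n ih =>
    intro A Y A' Y' h h' hn hd
    have hb : ∀ i j, A i ⊓ Y j = ⊥ ↔ A' i ⊓ Y' j = ⊥ := fun i j => by
      rw [← Submodule.finrank_eq_zero, hd, Submodule.finrank_eq_zero]
    obtain ⟨k, l, h1, h2, h3⟩ := h.idx fun e => by
      rw [e, finrank_bot] at hn
      omega
    obtain ⟨v, φ, a1, a2, a3, a4⟩ := h.split h1 h2 h3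
    obtain ⟨v', φ', b1, -, b3, b4⟩ := h'.split ((hb _ _).1 h1) ((hb _ _).1 h2) fun e => h3 ((hb _ _).2 e)
    obtain ⟨g, hg, c1, c2⟩ := ih (h.inf (LinearMap.ker φ)) (h'.inf (LinearMap.ker φ'))
      (by have := finrank_inf_ker a1 a2; omega) fun i j => by
        have e1 := finrank_sp a1 a3 a4 i j
        have e2 := finrank_sp b1 b3 b4 i j
        have e3 := hd i j
        omega
    obtain ⟨s, hs, d1, d2⟩ := move (W := A' N ⊓ LinearMap.ker φ') (u := g v) (u' := v')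
      (fun e => by
        rw [← c1 N, apply_mem_smul] at e
        simpa [a1] using e.2) fun e => by simpa [b1] using e.2
    exact ⟨s * g, mul_mem hs hg, rebuild a1 b1 a3 b3 (fun i => (h'.lA i).trans (h'.lY N)) c1 d1 d2,
      rebuild a1 b1 a4 b4 h'.lY c2 d1 d2⟩

/-- the chain of a flag -/
def ch (x : Submodule F V × Submodule F V × Submodule F V) : ℕ → Submodule F V
  | 0 => ⊥
  | 1 => x.1
  | 2 => x.2.1
  | 3 => x.2.2
  | _ + 4 => ⊤

omit [Finite F] [Finite V] in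
theorem ch_mono {x : Submodule F V × Submodule F V × Submodule F V} (h1 : x.1 ≤ x.2.1) (h2 : x.2.1 ≤ x.2.2) :
    Monotone (ch x) :=
  monotone_nat_of_le_succ fun
    | 0 => bot_le
    | 1 => h1
    | 2 => h2
    | 3 => le_top
    | _ + 4 => le_top

theorem rk_ch {a b c : ℕ} {y y' : Submodule F V × Submodule F V × Submodule F V} (hy : y ∈ F3 (lin F V) a b c)
    (hy' : y' ∈ F3 (lin F V) a b c) : ∀ j, (lin F V).rk (ch y j) = (lin F V).rk (ch y' j)
  | 0 => rfl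
  | 1 => hy.2.2.1.trans hy'.2.2.1.symm
  | 2 => hy.2.2.2.1.trans hy'.2.2.2.1.symm
  | 3 => hy.2.2.2.2.trans hy'.2.2.2.2.symm
  | _ + 4 => rfl

theorem rk_pos {y y' : Submodule F V × Submodule F V × Submodule F V} {z z' : Submodule F V}
    (h : pos (lin F V) y z = pos (lin F V) y' z') (h0 : (lin F V).rk z = (lin F V).rk z') :
    ∀ j, (lin F V).rk (z ⊓ ch y j) = (lin F V).rk (z' ⊓ ch y' j)
  | 0 => by simp only [ch, inf_bot_eq]
  | 1 => congrArg (·.1) h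
  | 2 => congrArg (·.2.1) h
  | 3 => congrArg (·.2.2) h
  | _ + 4 => by simpa only [ch, inf_top_eq] using h0

end PfP

open PfP in
theorem pf {a b c a' b' c' : ℕ} {x x' y y' : Submodule F V × Submodule F V × Submodule F V}
    (hx : x ∈ F3 (lin F V) a b c) (hx' : x' ∈ F3 (lin F V) a b c) (hy : y ∈ F3 (lin F V) a' b' c')
    (hy' : y' ∈ F3 (lin F V) a' b' c') (h1 : pos (lin F V) y x.1 = pos (lin F V) y' x'.1)
    (h2 : pos (lin F V) y x.2.1 = pos (lin F V) y' x'.2.1) (h3 : pos (lin F V) y x.2.2 = pos (lin F V) y' x'.2.2) :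
    ∃ g ∈ ClMax.SLV F V, g • x = x' ∧ g • y = y' := by

  have hd : ∀ i j, (lin F V).rk (ch x i ⊓ ch y j) = (lin F V).rk (ch x' i ⊓ ch y' j)
    | 0, j => by simp only [ch, bot_inf_eq]
    | 1, j => rk_pos h1 (rk_ch hx hx' 1) j
    | 2, j => rk_pos h2 (rk_ch hx hx' 2) j
    | 3, j => rk_pos h3 (rk_ch hx hx' 3) j
    | _ + 4, j => by simpa only [ch, top_inf_eq] using rk_ch hy hy' j
  obtain ⟨g, hg, e1, e2⟩ := conj_two (N := 4) (A := ch x) (Y := ch y) (A' := ch x') (Y' := ch y') _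
    ⟨ch_mono hx.1 hx.2.1, ch_mono hy.1 hy.2.1, rfl, rfl, fun _ => le_top, fun _ => le_top⟩
    ⟨ch_mono hx'.1 hx'.2.1, ch_mono hy'.1 hy'.2.1, rfl, rfl, fun _ => le_top, fun _ => le_top⟩ rfl fun i j => by
      rw [← lin_rk, ← lin_rk, hd]
  exact ⟨g, hg, Prod.ext (e1 1) (Prod.ext (e1 2) (e1 3)), Prod.ext (e2 1) (Prod.ext (e2 2) (e2 3))⟩

end CfsgLib.KL
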