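import Mathlib
import Cfsg.Agent.Lib.KL.Base

/-! KL, package SPAN: the span property (plans/KL.md). -/

set_option autoImplicit false

namespace CfsgLib.KL

open CfsgLib.CK

namespace SpanP

/-- evaluation -/
def ev {X : Type*} (x : X) : Module.Dual ℂ (X → ℂ) := LinearMap.proj x

theorem ev_apply {X : Type*} (x : X) (u : X → ℂ) : ev x u = u x := rfl

/-- the sum over `S` as a functional -/
noncomputable def smL {X : Type*} [Finite X] (S : Set X) : Module.Dual ℂ (X → ℂ) :=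
  ∑ x ∈ S.toFinite.toFinset, ev x

theorem smL_apply {X : Type*} [Finite X] (S : Set X) (u : X → ℂ) : smL S u = sm S u := by
  rw [sm_eq_sum, smL, LinearMap.sum_apply]
  rfl

theorem smL_ind {X : Type*} [Finite X] (S : Set X) (p : X → Prop) [DecidablePred p] :
    smL S (fun a => if p a then 1 else 0) = ({a | a ∈ S ∧ p a}.ncard : ℂ) := by
  rw [smL_apply, sm_eq_sum, Finset.sum_boole, ← Set.ncard_coe_finset]
  congr 2
  ext a
  simp

/-- the functionals whose values on a family are affine combinations of given numbers -/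
def aff {E J : Type*} [AddCommGroup E] [Module ℂ E] {k : ℕ} (w : J → E) (n : Fin k → J → ℂ) :
    Submodule ℂ (Module.Dual ℂ E) where
  carrier := {K | ∃ (c₀ : ℂ) (c : Fin k → ℂ), ∀ g, K (w g) = c₀ + ∑ i, c i * n i g}
  add_mem' := by
    rintro K K' ⟨c₀, c, h⟩ ⟨c₀', c', h'⟩
    refine ⟨c₀ + c₀', c + c', fun g => ?_⟩
    simp only [LinearMap.add_apply, h, h', Pi.add_apply, add_mul, Finset.sum_add_distrib]
    ring
  zero_mem' := ⟨0, 0, fun g => by simp⟩
  smul_mem' := by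
    rintro a K ⟨c₀, c, h⟩
    refine ⟨a * c₀, a • c, fun g => ?_⟩
    simp only [LinearMap.smul_apply, h, Pi.smul_apply, smul_eq_mul, mul_add, Finset.mul_sum, mul_assoc]

theorem mem_aff_of_const {E J : Type*} [AddCommGroup E] [Module ℂ E] {k : ℕ} {w : J → E} {n : Fin k → J → ℂ}
    {K : Module.Dual ℂ E} {c₀ : ℂ} (h : ∀ g, K (w g) = c₀) : K ∈ aff w n :=
  ⟨c₀, 0, fun g => by simp [h]⟩

theorem mem_aff_of_mul {E J : Type*} [AddCommGroup E] [Module ℂ E] {k : ℕ} {w : J → E} {n : Fin k → J → ℂ}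
    {K : Module.Dual ℂ E} {c : ℂ} {i : Fin k} (h : ∀ g, K (w g) = c * n i g) : K ∈ aff w n :=
  ⟨0, Pi.single i c, fun g => by
    rw [h, zero_add, Finset.sum_eq_single i (fun j _ hj => by rw [Pi.single_eq_of_ne hj, zero_mul]) (by simp),
      Pi.single_eq_same]⟩

theorem eq_top_of_coann {E : Type*} [AddCommGroup E] [Module ℂ E] [FiniteDimensional ℂ E]
    {W : Submodule ℂ (Module.Dual ℂ E)} (h : ∀ u : E, (∀ K ∈ W, K u = 0) → u = 0) : W = ⊤ := by
  have h1 : W.dualCoannihilator = ⊥ :=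
    eq_bot_iff.2 fun u hu => h u ((Submodule.mem_dualCoannihilator u).1 hu)
  rw [← Subspace.dualCoannihilator_dualAnnihilator_eq (W := W), h1, Submodule.dualAnnihilator_bot]

end SpanP

open SpanP in
theorem span_of_sp {p : ℕ} {G₀ G X Y : Type*} [Group G₀] [Finite G₀] [Group G] [MulAction G X] [MulAction G Y]
    [Finite X] (f : G₀ →* G) {H₀ : Subgroup G₀} (hsp : SP p H₀) {H : Subgroup G} (hH : ∀ h ∈ H₀, f h ∈ H)
    {A : Set X} {B : Set Y} {same : Y → X → X → Prop} (iA : ∀ g : G, ∀ x ∈ A, g • x ∈ A)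
    (tA : ∀ x ∈ A, ∀ x' ∈ A, ∃ g, f g • x = x') (tB : ∀ y ∈ B, ∀ y' ∈ B, ∃ g, f g • y = y')
    (fA : ∀ x ∈ A, ∃ U : Sylow p G₀, ∀ g ∈ Bor U, f g • x = x)
    (fB : ∀ y ∈ B, ∃ U : Sylow p G₀, ∀ g ∈ Bor U, f g • y = y)
    (hs : ∀ y ∈ B, ∀ x ∈ A, ∀ x' ∈ A, same y x x' → ∃ g, f g • y = y ∧ f g • x = x') : Span H A B same := by

  classical
  intro O hO k Q hQ eQ inj hh hi
  obtain hB | ⟨y₀, hy₀⟩ := B.eq_empty_or_nonempty
  · exact ⟨0, 0, fun y hy => by simp [hB] at hy⟩
  obtain ⟨x₀, hx₀⟩ := hO.ne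
  obtain ⟨U, hU⟩ := fA x₀ (hO.sub hx₀)
  obtain ⟨U', hU'⟩ := fB y₀ hy₀
  obtain ⟨c, t, hc⟩ := hsp U U' (fun g => if f g • x₀ ∈ O then 1 else 0) (fun g => hh (f g • y₀))
    (fun k hk y => by simp only [map_mul, mul_smul, inv_iff hO.inv (hH k hk)])
    (fun k hk y => by simp only [map_mul, mul_smul, hi _ (hH k hk)])
    (fun b hb y => by simp only [map_mul, mul_smul, hU b hb])
    (fun b hb y => by simp only [map_mul, mul_smul, hU' b hb])
    (by
      obtain ⟨x, hx, hx'⟩ := hO.ne'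
      obtain ⟨g, rfl⟩ := tA x₀ (hO.sub hx₀) x hx
      exact ⟨1, g, by simp [hx₀, hx']⟩)
  have := Fintype.ofFinite G₀
  let T : Subgroup G₀ := (MulAction.stabilizer G y₀).comap f
  have hT : ∀ s : T, f s • y₀ = y₀ := fun s => s.2
  let w : G₀ → X → ℂ := fun g => ∑ s : T, fun a => if f (g * s) • a ∈ O then 1 else 0
  have hw : ∀ g a, w g a = ∑ s : T, if f (g * s) • a ∈ O then 1 else 0 := fun g a => Finset.sum_apply _ _ _
  let n : Fin k → G₀ → ℂ := fun i g => (O ∩ Q i (f g • y₀)).ncard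
  have hS : ∀ (S : Set X) g, smL S (w g) = ∑ s : T, ({a | a ∈ S ∧ f (g * s) • a ∈ O}.ncard : ℂ) := fun S g => by
    simp only [w, map_sum, smL_ind]
  have top : aff w n = ⊤ := by
    refine eq_top_of_coann fun u hu => ?_
    have h0 : ∀ x, x ∉ A → u x = 0 := fun x hx =>
      hu (ev x) (mem_aff_of_const (c₀ := 0) fun g => by
        rw [ev_apply, hw]
        exact Finset.sum_eq_zero fun s _ => if_neg fun h => hx (inv_smul_smul (f (g * s)) x ▸ iA (f (g * s))⁻¹ _ (hO.sub h)))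
    have h1 : Adm G A O (same y₀) u := by
      refine ⟨fun x hx x' hx' h => ?_, fun S hSA hS' => ?_⟩
      · obtain ⟨s₀, h2, rfl⟩ := hs y₀ hy₀ x hx x' hx' h
        suffices h3 : ev x - ev (f s₀ • x) ∈ aff w n by
          have h4 := hu _ h3
          rwa [LinearMap.sub_apply, ev_apply, ev_apply, sub_eq_zero] at h4
        refine mem_aff_of_const (c₀ := 0) fun g => ?_
        rw [LinearMap.sub_apply, ev_apply, ev_apply, hw, hw, sub_eq_zero,
          ← Equiv.sum_comp (Equiv.mulRight (⟨s₀, h2⟩ : T))]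
        refine Finset.sum_congr rfl fun s _ => ?_
        simp only [Equiv.coe_mulRight, Subgroup.coe_mul, map_mul, mul_smul]
      · rw [← smL_apply]
        refine hu _ (mem_aff_of_const (c₀ := ∑ _s : T, ((O ∩ S).ncard : ℂ)) fun g => ?_)
        rw [hS]
        exact Finset.sum_congr rfl fun s _ => by rw [hS' (f (g * s))]
    have h2 : ∀ i, sm (Q i y₀) u = 0 := fun i => by
      rw [← smL_apply]
      refine hu _ (mem_aff_of_mul (c := Fintype.card T) (i := i) fun g => ?_)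
      rw [hS, Finset.sum_congr rfl (g := fun _ => n i g) fun s _ => by
        rw [(eQ i).ncard, map_mul, mul_smul, hT]]
      simp
    funext x
    by_cases hx : x ∈ A
    exacts [inj y₀ hy₀ u h1 h2 x hx, h0 x hx]
  obtain ⟨c₀, d, hd⟩ : ∑ x : G₀, t x • ev (f x • x₀) ∈ aff w n :=
    top ▸ Submodule.mem_top
  have hN : (Fintype.card T : ℂ) ≠ 0 := Nat.cast_ne_zero.2 Fintype.card_ne_zero
  refine ⟨c + c₀ / Fintype.card T, fun i => d i / Fintype.card T, fun y hy => ?_⟩
  obtain ⟨g, rfl⟩ := tB y₀ hy₀ y hy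
  have h1 : ∑ s : T, hh (f (g * s) • y₀) = Fintype.card T * hh (f g • y₀) := by
    simp only [map_mul, mul_smul, hT]
    simp
  have h2 := hd g
  simp only [LinearMap.sum_apply, LinearMap.smul_apply, ev_apply, hw, smul_eq_mul, Finset.mul_sum] at h2
  rw [Finset.sum_comm] at h2
  simp only [hc, finsum_eq_sum_of_fintype, Finset.sum_add_distrib, Finset.sum_const, Finset.card_univ,
    nsmul_eq_mul] at h1
  have h3 : ∑ s : T, ∑ x, t x * (if f (g * s * x) • x₀ ∈ O then (1 : ℂ) else 0) = c₀ + ∑ i, d i * n i g := by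
    rw [← h2]
    simp only [map_mul, mul_smul]
  rw [h3] at h1
  have h4 := hc g
  rw [finsum_eq_sum_of_fintype] at h4
  refine mul_left_cancel₀ hN ?_
  rw [h4, ← h1, mul_add, mul_add, Finset.mul_sum, add_assoc]
  congr 2
  · field_simp
  · exact Finset.sum_congr rfl fun i _ => by simp only [n]; field_simp

end CfsgLib.KL
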