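import Mathlib
import Cfsg.Agent.Lib.KL.Span
import Cfsg.Agent.Lib.KL.Pf
import Cfsg.Agent.Lib.CKS.LinB

/-! KL, package FLAG: the span property of the linear groups (plans/KL.md). -/

set_option autoImplicit false
set_option linter.unusedSectionVars false

namespace CfsgLib.KL

open CfsgLib.CK Module

variable {F V : Type*} [Field F] [Finite F] [AddCommGroup V] [Module F V] [Finite V]

namespace FlagP

open ClMax MinIdx.SL

theorem tr3 {a b c : ℕ} {x x' : Submodule F V × Submodule F V × Submodule F V} (hx : x ∈ F3 (lin F V) a b c)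
    (hx' : x' ∈ F3 (lin F V) a b c) : ∃ g : SLV F V, (g : V ≃ₗ[F] V) • x = x' := by
  have h0 : ((⊥, ⊥, ⊥) : Submodule F V × Submodule F V × Submodule F V) ∈ F3 (lin F V) 0 0 0 :=
    ⟨le_rfl, le_rfl, PG.rk_bot _, PG.rk_bot _, PG.rk_bot _⟩
  obtain ⟨g, hg, e, -⟩ := pf hx hx' h0 h0 (by simp [pos]) (by simp [pos]) (by simp [pos])
  exact ⟨⟨g, hg⟩, e⟩

theorem chain : ∃ W : ℕ → Submodule F V, Monotone W ∧ ∀ i, finrank F (W i) = min i (finrank F V) := by
  have h : ∀ (i : ℕ) (X : Submodule F V), ∃ Y : Submodule F V, X ≤ Y ∧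
      (finrank F X = min i (finrank F V) → finrank F Y = min (i + 1) (finrank F V)) := fun i X => by
    by_cases e : finrank F X = min i (finrank F V)
    · obtain ⟨Y, h1, -, h2⟩ := (lin F V).exists_rk (le_top : X ≤ ⊤) (k := min (i + 1) (finrank F V))
        (by rw [lin_rk]; omega) (by rw [lin_rk, finrank_top]; omega)
      exact ⟨Y, h1, fun _ => (lin_rk Y).symm.trans h2⟩
    · exact ⟨X, le_rfl, fun k => (e k).elim⟩
  choose f h1 h2 using h
  refine ⟨fun i => Nat.rec ⊥ f i, monotone_nat_of_le_succ fun i => h1 i _, fun i => ?_⟩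
  induction i with
  | zero => simp
  | succ i ih => exact h2 i _ ih

/-- the unipotent radical of the stabiliser of a chain -/
def uni {W : ℕ → Submodule F V} (hW : Monotone W) : Subgroup (SLV F V) where
  carrier := {g | ∀ i, ∀ v ∈ W (i + 1), g.1 v - v ∈ W i}
  one_mem' i v _ := by simp
  mul_mem' {g h} hg hh i v hv := by
    have k : h.1 v ∈ W (i + 1) := by simpa using add_mem (hW i.le_succ (hh i v hv)) hv
    simpa using add_mem (hg i _ k) (hh i v hv)
  inv_mem' {g} hg i v hv := by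
    have k : g.1 • W (i + 1) = W (i + 1) := smul_eq_of_le fun w hw => by
      simpa using add_mem (hW i.le_succ (hg i w hw)) hw
    have := neg_mem (hg i _ (mem_smul.1 (k.ge hv)))
    simpa using this

theorem uni_p {p : ℕ} [hp : Fact p.Prime] [CharP F p] {W : ℕ → Submodule F V} (hW : Monotone W) (h0 : W 0 = ⊥) {n : ℕ}
    (hn : W n = ⊤) : IsPGroup p (uni hW) := fun g => by
  have k : ∀ i, ∀ v ∈ W i, (((g.1.1 : V →ₗ[F] V) - 1) ^ i) v = 0 := fun i => by
    induction i with
    | zero => intro v hv; simpa [h0] using hv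
    | succ i ih => intro v hv; rw [pow_succ]; exact ih _ (g.2 i v hv)
  refine ⟨n, Subtype.ext (ext' fun v => ?_)⟩
  rcases subsingleton_or_nontrivial V with _ | _
  · exact Subsingleton.elim _ _
  haveI : CharP (Module.End F V) p := charP_of_injective_algebraMap (algebraMap F _).injective p
  have h4 := sub_pow_char_pow_of_commute p n (Commute.one_right (g.1.1 : Module.End F V))
  rw [pow_eq_zero_of_le (Nat.lt_pow_self hp.out.one_lt).le (LinearMap.ext fun v => k n v (hn ▸ Submodule.mem_top)),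
    one_pow, eq_comm, sub_eq_zero] at h4
  have := LinearMap.congr_fun h4 v
  rw [Module.End.pow_apply] at this
  simpa [LinearEquiv.pow_apply] using this

end FlagP

open FlagP ClMax MinIdx.SL

theorem flag {p : ℕ} [Fact p.Prime] [CharP F p] {a b c : ℕ} {x : Submodule F V × Submodule F V × Submodule F V}
    (hx : x ∈ F3 (lin F V) a b c) : ∃ U : Sylow p (ClMax.SLV F V), ∀ g ∈ Bor U, (g : V ≃ₗ[F] V) • x = x := by
  obtain ⟨W, hW, hd⟩ := chain (F := F) (V := V)
  obtain ⟨U, hU⟩ := (uni_p (p := p) hW (Submodule.finrank_eq_zero.1 (by simpa using hd 0))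
    (Submodule.eq_top_of_finrank_eq (by simpa using hd (finrank F V)))).exists_le_sylow
  have key := CKS.flag_inv (SLV F V).subtype hU U.2 le_rfl W (fun i hi => by rw [hd]; omega) fun i hi v hv => by
    by_contra k
    obtain ⟨φ, h1, h2⟩ := Submodule.exists_le_ker_of_notMem k
    obtain ⟨z, z1, z2⟩ := SetLike.exists_of_lt (Submodule.lt_of_le_of_finrank_lt_finrank (hW i.le_succ)
      (by rw [hd, hd]; omega))
    have := hv (tv z φ) fun j w hw => by
      rw [tv_apply (h2 z1), add_sub_cancel_left]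
      rcases le_or_gt j i with e | e
      · rw [show φ w = 0 from h2 (hW (by omega) hw), zero_smul]
        exact zero_mem _
      · exact Submodule.smul_mem _ _ (hW e z1)
    change (tv z φ).1 v - v ∈ _ at this
    rw [tv_apply (h2 z1), add_sub_cancel_left, Submodule.smul_mem_iff _ h1] at this
    exact z2 this
  obtain ⟨h1, h2, h3, h4, h5⟩ := id hx
  have := (lin F V).rk_mono h1
  have := (lin F V).rk_mono h2
  have := (lin F V).rk_le_n x.2.2
  rw [lin_n] at this
  obtain ⟨g, e⟩ := tr3 (x := (W a, W b, W c)) ⟨hW (by omega), hW (by omega), by rw [lin_rk, hd]; omega,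
    by rw [lin_rk, hd]; omega, by rw [lin_rk, hd]; omega⟩ hx
  refine ⟨g • U, fun h hh => ?_⟩
  have hn : g⁻¹ * h * g ∈ Bor U := by
    have h6 : h • g • U = g • U := Sylow.smul_eq_iff_mem_normalizer.2 hh
    exact Sylow.smul_eq_iff_mem_normalizer.1 (by rw [mul_smul, mul_smul, h6, inv_smul_smul])
  have k : ∀ i ≤ finrank F V, ((g⁻¹ * h * g : SLV F V) : V ≃ₗ[F] V) • W i = W i := fun i hi =>
    smul_eq_of_le (key _ hn i hi)
  have k' : ((g⁻¹ * h * g : SLV F V) : V ≃ₗ[F] V) • (W a, W b, W c) = (W a, W b, W c) :=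
    Prod.ext (k a (by omega)) (Prod.ext (k b (by omega)) (k c (by omega)))
  rwa [Subgroup.coe_mul, Subgroup.coe_mul, Subgroup.coe_inv, mul_smul, mul_smul, e, inv_smul_eq_iff, e] at k'

theorem FlagP.span_emb {p : ℕ} [Fact p.Prime] [CharP F p] {K : Subgroup (ClMax.SLV F V)} (hsp : SP p K)
    {H : Subgroup (V ≃ₗ[F] V)} (hH : ∀ k ∈ K, (k : V ≃ₗ[F] V) ∈ H) {X : Type*} [MulAction (V ≃ₗ[F] V) X] [Finite X]
    (e : X → Submodule F V × Submodule F V × Submodule F V) (he : ∀ (g : V ≃ₗ[F] V) x, e (g • x) = g • e x)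
    (inj : Function.Injective e) {A : Set X} {a a' a'' : ℕ} (hA : ∀ x ∈ A, e x ∈ F3 (lin F V) a a' a'')
    (iA : ∀ g : V ≃ₗ[F] V, ∀ x ∈ A, g • x ∈ A) {same : Submodule F V × Submodule F V × Submodule F V → X → X → Prop}
    (hs : ∀ y x x', same y x x' → same3 (lin F V) y (e x) (e x')) (b c d : ℕ) :
    Span H A (F3 (lin F V) b c d) same := by
  refine span_of_sp (SLV F V).subtype hsp hH iA (fun x hx x' hx' => ?_) (fun y hy y' hy' => tr3 hy hy')
    (fun x hx => ?_) (fun y hy => flag hy) fun y hy x hx x' hx' h => ?_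
  · exact (tr3 (hA x hx) (hA x' hx')).imp fun g k => inj ((he _ _).trans k)
  · exact (flag (hA x hx)).imp fun U k g hg => inj ((he _ _).trans (k g hg))
  · obtain ⟨h1, h2, h3⟩ := hs y x x' h
    obtain ⟨g, hg, e1, e2⟩ := pf (hA x hx) (hA x' hx') hy hy h1 h2 h3
    exact ⟨⟨g, hg⟩, e2, inj ((he _ _).trans e1)⟩

theorem gsp_lin {p : ℕ} [Fact p.Prime] [CharP F p] {K : Subgroup (ClMax.SLV F V)} (hsp : SP p K)
    {H : Subgroup (V ≃ₗ[F] V)} (hH : ∀ k ∈ K, (k : V ≃ₗ[F] V) ∈ H) : GSP (lin F V) H := by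
  refine ⟨fun a => ?_, fun a a' => ?_, fun a a' a'' => ?_⟩
  · exact span_emb hsp hH (fun z => (z, z, z)) (fun _ _ => rfl) (fun _ _ h => congrArg Prod.fst h)
      (fun z hz => ⟨le_rfl, le_rfl, hz, hz, hz⟩) smul_F1 fun _ _ _ h => ⟨h, h, h⟩
  · refine span_emb hsp hH (X := Submodule F V × Submodule F V) (a := a) (a' := a') (a'' := a')
      (fun z => (z.1, z.2, z.2)) (fun _ _ => rfl) (fun x y h => ?_) (fun z hz => ?_) smul_F2 fun y x x' h => ?_
    · exact Prod.ext (Prod.mk.inj h).1 (Prod.mk.inj (Prod.mk.inj h).2).1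
    · exact ⟨hz.1, le_rfl, hz.2.1, hz.2.2, hz.2.2⟩
    · exact And.intro h.1 (And.intro h.2 h.2)
  · exact span_emb hsp hH (a := a) (a' := a') (a'' := a'') (fun x => x) (fun _ _ => rfl) (fun _ _ h => h)
      (fun _ h => h) smul_F3 fun _ _ _ h => h

end CfsgLib.KL
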