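import Mathlib
import Cfsg.Agent.Lib.KL.Base
import Cfsg.Agent.Lib.CKS.BtrL
import Cfsg.Agent.Lib.CKS.GenB

/-! KL, package HOW: Howlett's lemma, span form (plans/KL.md). -/

set_option autoImplicit false

namespace CfsgLib.KL

open Cfsg MulAction CfsgLib.CKS

namespace HowP

open Module LinearMap

variable {G : Type*} [Group G] {Ω : Type*} [MulAction G Ω]

/-- a surjective family of equivariant maps has an equivariant section -/
theorem exists_sec [Fintype G] {I M N : Type*} [Fintype I] [AddCommGroup M] [Module ℂ M] [AddCommGroup N]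
    [Module ℂ N] (ρ : Representation ℂ G M) (σ : Representation ℂ G N) (φ : I → M →ₗ[ℂ] N)
    (hφ : ∀ i g, φ i ∘ₗ ρ g = σ g ∘ₗ φ i) (hs : ∀ n, ∃ v : I → M, ∑ i, φ i (v i) = n) :
    ∃ ψ : I → N →ₗ[ℂ] M, (∀ i g, ψ i ∘ₗ σ g = ρ g ∘ₗ ψ i) ∧ ∑ i, φ i ∘ₗ ψ i = LinearMap.id := by
  obtain ⟨s, hs⟩ := (∑ i, φ i ∘ₗ proj i : (I → M) →ₗ[ℂ] N).exists_rightInverse_of_surjective
    (range_eq_top.2 fun n => by simpa using hs n)
  have hc : (Fintype.card G : ℂ) ≠ 0 := by simp
  refine ⟨fun i => (Fintype.card G : ℂ)⁻¹ • ∑ g, ρ g ∘ₗ (proj i ∘ₗ s) ∘ₗ σ g⁻¹, fun i h => ?_, ?_⟩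
  · refine LinearMap.ext fun n => ?_
    simp only [comp_apply, LinearMap.smul_apply, LinearMap.sum_apply, map_smul, map_sum]
    congr 1
    refine (Fintype.sum_equiv (Equiv.mulLeft h) _ _ fun g => ?_).symm
    simp only [Equiv.coe_mulLeft, map_mul, End.mul_apply, mul_inv_rev]
    rw [← End.mul_apply (σ h⁻¹), ← map_mul, inv_mul_cancel, map_one, End.one_apply]
  · refine LinearMap.ext fun n => ?_
    have h1 : ∀ i g v, φ i (ρ g v) = σ g (φ i v) := fun i g v => LinearMap.congr_fun (hφ i g) v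
    have h2 : ∀ n, ∑ i, φ i (s n i) = n := fun n => by simpa using LinearMap.congr_fun hs n
    simp only [comp_apply, LinearMap.smul_apply, LinearMap.sum_apply, map_smul, map_sum, h1, proj_apply, id_apply]
    rw [← Finset.smul_sum, Finset.sum_comm]
    simp only [← map_sum, h2]
    simp only [← End.mul_apply, ← map_mul, mul_inv_cancel, map_one, End.one_apply, Finset.sum_const,
      Finset.card_univ]
    rw [← Nat.cast_smul_eq_nsmul ℂ, smul_smul, inv_mul_cancel₀ hc, one_smul]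

variable (Ω) in
/-- the projection killing the constants -/
noncomputable def pz [Fintype Ω] : End ℂ (Ω → ℂ) :=
  1 - (Fintype.card Ω : ℂ)⁻¹ • (∑ a, proj a : (Ω → ℂ) →ₗ[ℂ] ℂ).smulRight 1

theorem pz_apply [Fintype Ω] (v : Ω → ℂ) (x : Ω) : pz Ω v x = v x - (Fintype.card Ω : ℂ)⁻¹ * ∑ a, v a := by
  simp [pz]

theorem pz_const [Fintype Ω] [Nonempty Ω] (c : ℂ) : pz Ω (fun _ => c) = 0 := funext fun x => by
  have hc : (Fintype.card Ω : ℂ) ≠ 0 := by simp
  simp [pz_apply, hc]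

theorem pz_pz [Fintype Ω] [Nonempty Ω] : pz Ω * pz Ω = pz Ω := LinearMap.ext fun v => by
  have : pz Ω v = v - fun _ => (Fintype.card Ω : ℂ)⁻¹ * ∑ a, v a := funext fun x => pz_apply v x
  rw [End.mul_apply]
  conv_lhs => rw [this, map_sub, pz_const, sub_zero]

theorem pz_comm [Fintype Ω] (g : G) : Commute (pz Ω) (permRep G Ω g) := LinearMap.ext fun v => funext fun x => by
  simp only [End.mul_apply, pz_apply, permRep_apply]
  rw [Equiv.sum_comp (MulAction.toPerm g⁻¹) v |>.symm]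
  rfl

theorem trace_pz [Fintype Ω] [Nonempty Ω] (g : G) : trace ℂ _ (permRep G Ω g * pz Ω) = fx Ω g - 1 := by
  have hc : (Fintype.card Ω : ℂ) ≠ 0 := by simp
  rw [pz, mul_sub, mul_one, map_sub, mul_smul_comm, map_smul, End.mul_eq_comp,
    show permRep G Ω g ∘ₗ _ = (∑ a, proj a : (Ω → ℂ) →ₗ[ℂ] ℂ).smulRight 1 from rfl, trace_smulRight,
    show trace ℂ _ _ = _ from character_permRep g]
  simp [hc]

variable {p : ℕ} [Fact p.Prime]

theorem dvd_orbits [Finite G] [Finite Ω] [IsPretransitive G Ω] {U : Subgroup G} (hU : IsPGroup p U)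
    (h1 : ¬ p ∣ U.index) (hp : p ∣ Nat.card Ω) :
    p ∣ Nat.card (orbitRel.Quotient ↥(⨅ l : U →* ℂˣ, l.ker) Ω) := by
  let := quotAct (Ω := Ω) (P := ⊤) (R := ⨅ l : U →* ℂˣ, l.ker) fun g _ r hr => by simpa using hr
  have k := (hU.to_subgroup ⊤).card_modEq_card_fixedPoints (orbitRel.Quotient ↥(⨅ l : U →* ℂˣ, l.ker) Ω)
  rw [(Nat.card_eq_zero (α := fixedPoints _ _)).2 (.inl ⟨?_⟩), Nat.modEq_zero_iff_dvd] at k
  · exact k
  rintro ⟨⟨a⟩, ha⟩
  refine h1 ((index_stabilizer_of_transitive G a ▸ hp).trans (Subgroup.index_dvd_of_le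
    ((le_of_chars hU (A := U ⊓ stabilizer G a) inf_le_left fun l hl => MonoidHom.ext fun u => ?_).trans inf_le_right)))
  obtain ⟨d, hd⟩ := Quotient.exact (ha ⟨u, trivial⟩)
  have := hl (d.1⁻¹ * u) ⟨(d.1⁻¹ * u).2, mem_stabilizer_iff.2 <| by
    rw [Subgroup.coe_mul, mul_smul, Subgroup.coe_inv, inv_smul_eq_iff]
    exact hd.symm⟩
  simpa [show l d = 1 from Subgroup.mem_iInf.1 d.2 l] using this

/-- the equivariant map attached to a point -/
noncomputable def ph [Fintype G] [DecidableEq Ω] (B : Subgroup G) (a : Ω) : (G ⧸ B → ℂ) →ₗ[ℂ] Ω → ℂ :=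
  ∑ g : G, (proj (g : G ⧸ B) : (G ⧸ B → ℂ) →ₗ[ℂ] ℂ).smulRight (Pi.single (g • a) 1)

theorem ph_apply [Fintype G] [DecidableEq Ω] (B : Subgroup G) (a : Ω) (v : G ⧸ B → ℂ) (x : Ω) :
    ph B a v x = ∑ g : G, if x = g • a then v g else 0 := by
  simp [ph, Pi.single_apply]

theorem ph_comm [Fintype G] [DecidableEq Ω] (B : Subgroup G) (a : Ω) (h : G) :
    ph B a ∘ₗ permRep G (G ⧸ B) h = permRep G Ω h ∘ₗ ph B a := LinearMap.ext fun v => funext fun x => by
  simp only [comp_apply, ph_apply, permRep_apply]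
  refine (Fintype.sum_equiv (Equiv.mulLeft h) _ _ fun g => ?_).symm
  simp only [Equiv.coe_mulLeft, mul_smul, inv_smul_eq_iff, Quotient.smul_mk, smul_eq_mul, inv_mul_cancel_left]

theorem ph_surj [Fintype G] [Fintype Ω] [DecidableEq Ω] (B : Subgroup G)
    (h : Submodule.span ℂ {f : Ω → ℂ | ∃ g : G, ∀ b ∈ B, ∀ a, f ((g * b * g⁻¹) • a) = f a} = ⊤) (n : Ω → ℂ) :
    ∃ v : Ω → G ⧸ B → ℂ, ∑ a, ph B a (v a) = n := by
  classical
  have : Submodule.span ℂ {f : Ω → ℂ | ∃ g : G, ∀ b ∈ B, ∀ a, f ((g * b * g⁻¹) • a) = f a} ≤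
      range (∑ a, ph B a ∘ₗ proj a : (Ω → G ⧸ B → ℂ) →ₗ[ℂ] Ω → ℂ) := by
    refine Submodule.span_le.2 ?_
    rintro f ⟨g, hf⟩
    let c : ℂ := (Finset.univ.filter fun k : G => (k : G ⧸ B) = g).card
    have hc : c ≠ 0 := Nat.cast_ne_zero.2 (Finset.card_ne_zero.2 ⟨g, by simp⟩)
    refine ⟨fun a => (c⁻¹ * f (g • a)) • Pi.single (g : G ⧸ B) 1, funext fun x => ?_⟩
    simp only [LinearMap.sum_apply, comp_apply, proj_apply, Finset.sum_apply, ph_apply]
    rw [Finset.sum_comm, Finset.sum_congr rfl (g := fun k : G => if (k : G ⧸ B) = g then c⁻¹ * f x else 0)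
      fun k _ => ?_, ← Finset.sum_filter, Finset.sum_const, nsmul_eq_mul, mul_inv_cancel_left₀ hc]
    rw [Finset.sum_eq_single (k⁻¹ • x) (fun a _ ha => if_neg fun e => ha (by rw [e, inv_smul_smul])) (by simp),
      if_pos (smul_inv_smul k x).symm, Pi.smul_apply, Pi.single_apply]
    split_ifs with e
    · have := hf _ (QuotientGroup.eq.1 e) x
      rw [smul_eq_mul, mul_one, ← mul_smul, ← this]
      congr 3
      group
    · simp
  obtain ⟨v, hv⟩ := this (h.ge (Submodule.mem_top (x := n)))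
  exact ⟨v, by simpa using hv⟩

end HowP

open Module LinearMap HowP in
theorem ngen_of_split {G : Type*} [Group G] [Finite G] {Ω : Type*} [Finite Ω] [Nonempty Ω] [MulAction G Ω]
    [IsPretransitive G Ω] {P : BNPair G} {p : ℕ} [Fact p.Prime] {U : Subgroup G} {X : P.S → Subgroup G}
    {R : Set P.S → Subgroup G} (S : Split P p U X R) (hp : p ∣ Nat.card Ω) :
    Submodule.span ℂ {f : Ω → ℂ | ∃ g : G, ∀ b ∈ P.B, ∀ a, f ((g * b * g⁻¹) • a) = f a} ≠ ⊤ := by
  classical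
  intro hB
  have := Fintype.ofFinite G
  have := Fintype.ofFinite Ω
  have := Fintype.ofFinite P.S
  have := Fintype.ofFinite U
  have := Fintype.ofFinite (U →* ℂˣ)
  obtain ⟨ψ, hψ, hs⟩ := exists_sec (permRep G (G ⧸ P.B)) (permRep G Ω) (ph P.B) (ph_comm P.B) (ph_surj P.B hB)
  have h1 : ∀ i g, Commute (ψ i ∘ₗ pz Ω ∘ₗ ph P.B i : End ℂ _) (permRep G (G ⧸ P.B) g) := fun i g => by
    change (ψ i ∘ₗ pz Ω ∘ₗ ph P.B i) ∘ₗ _ = _ ∘ₗ ψ i ∘ₗ pz Ω ∘ₗ ph P.B i
    rw [comp_assoc, comp_assoc, ph_comm, ← comp_assoc _ _ (pz Ω), ← End.mul_eq_comp (pz Ω), (pz_comm g).eq,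
      End.mul_eq_comp, comp_assoc, ← comp_assoc _ _ (ψ i), hψ, comp_assoc]
  have h3 : ∀ i, (ψ i ∘ₗ pz Ω ∘ₗ ph P.B i) 1 = 0 := fun i => by
    have : ph P.B i 1 = fun _ => ph P.B i 1 i := funext fun a => by
      obtain ⟨g, rfl⟩ := exists_smul_eq G a i
      simpa [permRep_apply, show permRep G (G ⧸ P.B) g 1 = 1 from rfl] using
        (congrFun (LinearMap.congr_fun (ph_comm P.B (g • a) g) 1) (g • a)).symm
    rw [comp_apply, comp_apply, this, pz_const, map_zero]
  choose a k1 k2 using fun i => S.exists_coef (h1 i) (h3 i)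
  have k0 : ∀ l : U →* ℂˣ, trace ℂ _ (eps (permRep G Ω) l * pz Ω) = ∑ i, a i (supp X l).toFinset := fun l => by
    have e : ∀ i, eps (permRep G (G ⧸ P.B)) l ∘ₗ ψ i = ψ i ∘ₗ eps (permRep G Ω) l := fun i =>
      LinearMap.ext fun v => by
        have : ∀ g v, ψ i (permRep G Ω g v) = permRep G (G ⧸ P.B) g (ψ i v) := fun g => LinearMap.congr_fun (hψ i g)
        simp only [eps, comp_apply, LinearMap.smul_apply, LinearMap.sum_apply, map_smul, map_sum, this]
    simp only [← k2, End.mul_eq_comp]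
    rw [Finset.sum_congr rfl fun i _ => by
      rw [← comp_assoc, e, comp_assoc, trace_comp_comm', comp_assoc, comp_assoc], ← map_sum]
    congr 1
    refine LinearMap.ext fun v => ?_
    have := LinearMap.congr_fun hs v
    simp only [LinearMap.sum_apply, comp_apply, id_apply] at this ⊢
    rw [← map_sum, ← map_sum, this]
  have k1' : ∑ J : Finset P.S, (-1) ^ J.card * ∑ i, a i J = 0 := by
    simp only [Finset.mul_sum]
    rw [Finset.sum_comm]
    exact Finset.sum_eq_zero fun i _ => k1 i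
  have k3 : ∀ J, ∃ m : ℕ, ∑ i, a i J = m := fun J => by
    obtain ⟨l, hl⟩ : (Finset.univ.filter fun l : U →* ℂˣ => (supp X l).toFinset = J).Nonempty := by
      rw [← Finset.card_ne_zero]
      intro h
      simpa [h] using (S.card_supp J).symm
    rw [← (Finset.mem_filter.1 hl).2, ← k0]
    exact exists_trace_eq_nat (by
      rw [mul_assoc, ← mul_assoc (pz Ω), (commute_eps pz_comm).eq, mul_assoc, pz_pz, ← mul_assoc, eps_eps])
  choose m hm using k3
  have k4 := sum_trace_eps (U := U) (trace_pz (G := G) (Ω := Ω))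
  simp only [k0, hm] at k1' k4
  rw [← Finset.sum_fiberwise_of_maps_to (g := fun l => (supp X l).toFinset) (t := Finset.univ) (by simp),
    Finset.sum_congr rfl fun J _ => (Finset.sum_congr rfl fun l hl => by rw [(Finset.mem_filter.1 hl).2]).trans
      (Finset.sum_const (m J : ℂ)), eq_sub_iff_add_eq] at k4
  simp only [nsmul_eq_mul] at k4
  have k5 := congrArg ((↑) : ℤ → ZMod p) (show ∑ J : Finset P.S, (-1 : ℤ) ^ J.card * m J = 0 by exact_mod_cast k1')
  have k6 := congrArg ((↑) : ℕ → ZMod p) (Nat.cast_injective (R := ℂ) (by push_cast; exact k4) :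
    ∑ J, (Finset.univ.filter fun l : U →* ℂˣ => (supp X l).toFinset = J).card * m J + 1 = _)
  push_cast at k5 k6
  simp only [S.card_supp] at k6
  rw [k5, (ZMod.natCast_eq_zero_iff _ _).2 (dvd_orbits S.pU S.index_U hp), zero_add] at k6
  exact one_ne_zero k6

theorem NGen.lift {p : ℕ} [Fact p.Prime] {G L Ω : Type*} [Group G] [Group L] [Finite L] [MulAction G Ω]
    [MulAction L Ω] (h : NGen p G Ω) (f : L →* G) (hf : Function.Surjective f)
    (hs : ∀ (g : L) (a : Ω), g • a = f g • a) : NGen p L Ω := by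
  refine ne_top_of_le_ne_top h (Submodule.span_mono ?_)
  rintro v ⟨U, hv⟩
  refine ⟨U.mapSurjective hf, fun g hg a => ?_⟩
  obtain ⟨l, rfl⟩ := hf g
  have h1 : (U : Subgroup L) ≤ ((U : Subgroup L).map f).comap f := Subgroup.le_comap_map _ _
  have h2 : ((l • U : Sylow p L) : Subgroup L) ≤ ((U : Subgroup L).map f).comap f := by
    rintro _ ⟨u, hu, rfl⟩
    change f (l * u * l⁻¹) ∈ (U : Subgroup L).map f
    rw [map_mul, map_mul, map_inv]
    exact (Subgroup.mem_normalizer_iff.1 hg _).1 (Subgroup.mem_map_of_mem f hu)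
  obtain ⟨k, hk⟩ := exists_smul_eq (((U : Subgroup L).map f).comap f) ((l • U).subtype h2) (U.subtype h1)
  rw [Sylow.smul_subtype] at hk
  have h3 : (k : L) * l ∈ Subgroup.normalizer ((U : Subgroup L) : Set L) :=
    Sylow.smul_eq_iff_mem_normalizer.1 ((mul_smul _ _ _).trans (Sylow.subtype_injective hk))
  obtain ⟨u, hu, e'⟩ := k.2
  rw [← hv _ (mul_mem (Subgroup.le_normalizer (inv_mem hu)) h3) a, hs, map_mul, map_mul, map_inv, e',
    inv_mul_cancel_left]

namespace HowP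

open RGD Twist LieAll

variable {ι κ B : Type} [Fintype κ] [DecidableEq κ] {Φ : RootSys ι κ} [Finite ι] {F : Type*} [Field F] [Finite F]
  {G : Type*} [Group G] [Finite G] {S : StSys Φ F G} {T : Tw S B} {M : Subgroup G} {p : ℕ} [Fact p.Prime] [CharP F p]

theorem ngen_of_gen (hM : IsTw T M) (hg : Gen T M) {Ω : Type*} [Finite Ω] [Nonempty Ω] [MulAction M Ω]
    [IsPretransitive M Ω] (hp : p ∣ Nat.card Ω) : NGen p M Ω := by
  refine ne_top_of_le_ne_top (ngen_of_split (how2_split hM hg) hp) (Submodule.span_mono ?_)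
  rintro v ⟨U, hv⟩
  obtain ⟨g, rfl⟩ := exists_smul_eq M (hM.sylow p) U
  refine ⟨g, fun b hb a => hv _ (Sylow.smul_eq_iff_mem_normalizer.1 ?_) a⟩
  have : b ∈ Bor (hM.sylow p) := fun x =>
    (hM.mem_sylow p).trans ((S.B_le_normalizer_U hb.1 x).trans (hM.mem_sylow p (g := b * x * b⁻¹)).symm)
  rw [mul_smul, inv_smul_smul, mul_smul, Sylow.smul_eq_iff_mem_normalizer.2 this]

theorem ngen_of_gen_equiv (hM : IsTw T M) (hg : Gen T M) {X : Type*} [Group X] (e : X ≃* M) {Ω : Type*} [Finite Ω]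
    [Nonempty Ω] [MulAction X Ω] [IsPretransitive X Ω] (hp : p ∣ Nat.card Ω) : NGen p X Ω := by
  let : MulAction M Ω := MulAction.compHom Ω e.symm.toMonoidHom
  have : Finite X := Finite.of_equiv _ e.symm.toEquiv
  have : IsPretransitive M Ω := ⟨fun a b => let ⟨g, hg⟩ := exists_smul_eq X a b
    ⟨e g, show e.symm (e g) • a = b by rwa [e.symm_apply_apply]⟩⟩
  exact (ngen_of_gen hM hg hp).lift e.toMonoidHom e.surjective fun g a =>
    show g • a = e.symm (e g) • a by rw [e.symm_apply_apply]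

end HowP

open HowP LieAll Twist Weyl RGD

variable {p : ℕ} [Fact p.Prime] {F : Type*} [Field F] [Fintype F] [CharP F p] {Ω : Type*} [Finite Ω] [Nonempty Ω]

theorem ngen_psl {d : ℕ} (hd : 3 ≤ d) [MulAction (PSL d F) Ω] [IsPretransitive (PSL d F) Ω] (hp : p ∣ Nat.card Ω) :
    NGen p (PSL d F) Ω :=
  have h := (good_psl (K := F) (n := d) (by omega)).tw
  ngen_of_gen_equiv h (gen_id h (Stein.laced_A hd)) Subgroup.topEquiv.symm hp

theorem ngen_psu {d q : ℕ} (hF : Fintype.card F = q ^ 2) (hd : 3 ≤ d) [MulAction (PSU d F q) Ω]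
    [IsPretransitive (PSU d F q) Ω] (hp : p ∣ Nat.card Ω) : NGen p (PSU d F q) Ω := by
  obtain ⟨f⟩ := nonempty_psu_equiv (n := d) hF (by omega)
  have h := (good_su (Unitary.conj_conj hF) (Unitary.exists_not_fixed hF) (n := d) (by omega)).tw
  exact ngen_of_gen_equiv h (gen_two h (Stein.laced_A hd) KInv.Fam.symA_A (Equiv.ext Fin.rev_rev) (fun _ => rfl)
    (Unitary.conj_conj hF) (Unitary.exists_not_fixed hF)) f hp

theorem ngen_psp {m : ℕ} (hm : 2 ≤ m) (hq : 3 ≤ Fintype.card F) [MulAction (PSp m F) Ω]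
    [IsPretransitive (PSp m F) Ω] (hp : p ∣ Nat.card Ω) : NGen p (PSp m F) Ω := by
  have h := (good_psp (K := F) (m := m) (by omega)).tw
  refine ngen_of_gen_equiv h (gen_two_len (fun r s => ?_) h (genb_three hq)) Subgroup.topEquiv.symm hp
  rw [Stein.ip_C, Stein.ip_C, ClSys.evBC_dot_self, ClSys.evBC_dot_self]
  rcases r with r | r <;> rcases s with s | s <;> simp

end CfsgLib.KL
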