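import Mathlib
import Cfsg.Agent.Lib.KL.Pf
import Cfsg.Agent.Lib.CKS.Lin0

/-! KL, package RED: reducible stabilisers (plans/KL.md). -/

set_option autoImplicit false

namespace CfsgLib.KL

open CfsgLib.CK Module

namespace RedP

variable {G L : Type*} [Group G] [CompleteLattice L] [MulAction G L] (P : PG G L)

theorem θ_mul (k : ℕ) : P.θ k * (P.q - 1) = P.q ^ k - 1 := by
  obtain ⟨r, hr⟩ : ∃ r, P.q = r + 1 := ⟨P.q - 1, by have := P.q_pos; omega⟩
  have : P.θ k * r + 1 = P.q ^ k := by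
    induction k with
    | zero => simp [P.θ_zero]
    | succ k ih => rw [P.θ_succ, pow_succ, ← ih, hr]; ring
  rw [← this, hr, Nat.add_sub_cancel, Nat.add_sub_cancel]

variable [Finite L]

theorem lines : {l | P.rk l = 2}.ncard * P.θ 2 = P.θ P.n * P.θ (P.n - 1) := by
  have h := dc_eq {l | P.rk l = 2} {x | P.rk x = 1} (fun l x => x ≤ l) (m := P.θ 2) (k := P.θ (P.n - 1))
    (fun l hl => by
      rw [← show P.rk l = 2 from hl, ← P.d_bot, ← P.ncard_pt bot_le]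
      exact congrArg _ (Set.ext fun x => by simp [P.pt_bot, and_comm]))
    fun x hx => by
      have h1 := P.rk_add_ck x
      rw [show P.rk x = 1 from hx] at h1
      rw [show P.n - 1 = P.d x ⊤ by rw [P.d_top]; omega, ← P.ncard_pt le_top]
      exact congrArg _ (Set.ext fun l => by simp [P.pt_line hx, and_comm])
  rw [h, show P.θ P.n = P.θ (P.d ⊥ ⊤) from rfl, ← P.ncard_pt bot_le]
  congr 2
  exact Set.ext fun x => P.pt_bot_top.symm

theorem exists_inf (W : L) {j k : ℕ} (hj : j ≤ P.rk W) (hk : P.rk W + k ≤ P.n) :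
    ∃ U, P.rk U = j + k ∧ P.rk (U ⊓ W) = j := by
  induction k with
  | zero =>
    obtain ⟨U, -, h1, h2⟩ := P.exists_rk (bot_le : ⊥ ≤ W) (k := j) (by simp [P.rk_bot]) hj
    exact ⟨U, h2, by rwa [inf_eq_left.2 h1]⟩
  | succ k ih =>
    obtain ⟨U, h1, h2⟩ := ih (by omega)
    have h3 := P.rk_sup_inf U W
    obtain ⟨e, he, -, h4⟩ := P.exists_rk1 (a := ⊤) (b := U ⊔ W) fun h => by
      have := P.rk_mono h
      rw [P.rk_top] at this
      omega
    have h5 := P.rk_sup_pt he h4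
    have h6 := P.rk_sup_pt he fun h => h4 (h.trans le_sup_left)
    have h7 := P.rk_sup_inf (U ⊔ e) W
    rw [sup_right_comm] at h7
    exact ⟨U ⊔ e, by omega, by omega⟩

end RedP

variable {F V : Type*} [Field F] [Finite F] [AddCommGroup V] [Module F V] [Finite V]

open MulAction

theorem RedP.pair {U U' W W' : Submodule F V} (h1 : (lin F V).rk U = (lin F V).rk U')
    (h2 : (lin F V).rk W = (lin F V).rk W') (h3 : (lin F V).rk (U ⊓ W) = (lin F V).rk (U' ⊓ W')) :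
    ∃ g : ClMax.SLV F V, (g : V ≃ₗ[F] V) • U = U' ∧ (g : V ≃ₗ[F] V) • W = W' := by
  have h : pos (lin F V) (W, W, W) U = pos (lin F V) (W', W', W') U' := by simp [pos, h3]
  obtain ⟨g, hg, e1, e2⟩ := pf (x := (U, U, U)) (x' := (U', U', U')) (y := (W, W, W)) (y' := (W', W', W'))
    ⟨le_rfl, le_rfl, rfl, rfl, rfl⟩ ⟨le_rfl, le_rfl, h1.symm, h1.symm, h1.symm⟩ ⟨le_rfl, le_rfl, rfl, rfl, rfl⟩
    ⟨le_rfl, le_rfl, h2.symm, h2.symm, h2.symm⟩ h h h
  exact ⟨⟨g, hg⟩, congrArg Prod.fst e1, congrArg Prod.fst e2⟩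

variable {Ω : Type*} [Finite Ω] [MulAction (ClMax.SLV F V) Ω]

theorem red_count (h5 : 5 ≤ finrank F V) [IsPreprimitive (ClMax.SLV F V) Ω] (ω : Ω)
    (h3 : Nat.card (orbitRel.Quotient (stabilizer (ClMax.SLV F V) ω) Ω) = 3) {W : Submodule F V} (h0 : W ≠ ⊥)
    (h1 : W ≠ ⊤) (hW : ∀ g ∈ stabilizer (ClMax.SLV F V) ω, (g : V ≃ₗ[F] V) • W = W) :
    Nat.card Ω * ((Nat.card F ^ 2 - 1) * (Nat.card F - 1)) =
      (Nat.card F ^ finrank F V - 1) * (Nat.card F ^ (finrank F V - 1) - 1) := by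
  have : Finite (Submodule F V) := Finite.of_injective _ SetLike.coe_injective
  have : Nontrivial Ω := by
    rw [← Finite.one_lt_card_iff_nontrivial]
    have := Nat.card_le_card_of_surjective _
      (Quotient.mk_surjective (s := orbitRel (stabilizer (ClMax.SLV F V) ω) Ω))
    change Nat.card (orbitRel.Quotient _ _) ≤ _ at this
    omega
  have hK : ∀ g : ClMax.SLV F V, (g : V ≃ₗ[F] V) • W = W → g • ω = ω := fun g hg => by
    obtain ⟨a, ha, ha'⟩ := ClMax.not_SLV_le_stabV h0 h1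
    exact ((((IsPreprimitive.isCoatom_stabilizer_of_isPreprimitive (ClMax.SLV F V) ω).ne_top_iff_eq
      (b := (ClMax.stabV W).subgroupOf (ClMax.SLV F V)) fun g hg => ClMax.mem_stabV_iff_map.2 (hW g hg)).1
        fun e => ha' (e.ge (Subgroup.mem_top ⟨a, ha⟩))).le (ClMax.mem_stabV_iff_map.2 hg) :)
  choose c hc using exists_smul_eq (ClMax.SLV F V) ω
  let e : Ω → Submodule F V := fun a => (c a : V ≃ₗ[F] V) • W
  have he : ∀ g : ClMax.SLV F V, e (g • ω) = (g : V ≃ₗ[F] V) • W := fun g => by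
    have := hW (g⁻¹ * c (g • ω)) (by rw [mem_stabilizer_iff, mul_smul, hc, inv_smul_smul])
    rwa [Subgroup.coe_mul, mul_smul, Subgroup.coe_inv, inv_smul_eq_iff] at this
  have he' : ∀ (g : ClMax.SLV F V) a, e (g • a) = (g : V ≃ₗ[F] V) • e a := fun g a => by
    rw [← hc a, ← mul_smul, he, he, Subgroup.coe_mul, mul_smul]
  have hi : Function.Injective e := fun a b h => by
    have := hK ((c b)⁻¹ * c a) (by rwa [Subgroup.coe_mul, mul_smul, Subgroup.coe_inv, inv_smul_eq_iff])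
    rwa [mul_smul, hc, inv_smul_eq_iff, hc] at this
  set P := lin F V with hP
  have hr : Set.range e = {U | P.rk U = P.rk W} := Set.ext fun U =>
    ⟨by rintro ⟨a, rfl⟩; exact P.rk_smul _ _, fun h => by
      obtain ⟨g, hg, -⟩ := RedP.pair (W := ⊥) (W' := ⊥) (Eq.symm h) rfl (by simp)
      exact ⟨g • ω, (he g).trans hg⟩⟩
  have hrk : ∀ a, P.rk (e a) = P.rk W := fun a => hr.le ⟨a, rfl⟩
  let f : orbitRel.Quotient (stabilizer (ClMax.SLV F V) ω) Ω → ℕ :=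
    Quotient.lift (fun a => P.rk (e a ⊓ W)) (by
      rintro a b ⟨k, rfl⟩
      change P.rk (e ((k : ClMax.SLV F V) • b) ⊓ W) = _
      rw [he', ← P.rk_smul ((k : ClMax.SLV F V) : V ≃ₗ[F] V) (e b ⊓ W), P.smul_inf, hW k k.2])
  have hf : Function.Injective f := by
    rintro ⟨a⟩ ⟨b⟩ h
    obtain ⟨g, h1, h2⟩ := RedP.pair ((hrk b).trans (hrk a).symm) rfl (Eq.symm h)
    exact Quotient.sound ⟨⟨g, hK g h2⟩, hi ((he' g b).trans h1)⟩
  have hn := P.rk_le_n W
  have hf' : Set.range f = Set.Icc (2 * P.rk W - P.n) (P.rk W) := Set.ext fun j => ⟨by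
    rintro ⟨⟨a⟩, rfl⟩
    have k1 := P.rk_sup_inf (e a) W
    have k2 := P.rk_le_n (e a ⊔ W)
    have k3 := P.rk_mono (inf_le_right : e a ⊓ W ≤ W)
    have k4 := hrk a
    exact ⟨show _ ≤ P.rk (e a ⊓ W) by omega, k3⟩, fun ⟨k1, k2⟩ => by
      obtain ⟨U, k3, k4⟩ := RedP.exists_inf P W k2 (k := P.rk W - j) (by omega)
      obtain ⟨a, rfl⟩ := hr.ge (show P.rk U = P.rk W by omega)
      exact ⟨Quotient.mk _ a, k4⟩⟩
  rw [← Nat.card_range_of_injective hf, hf', Nat.card_coe_set_eq, Set.ncard_eq_toFinset_card', Set.toFinset_Icc,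
    Nat.card_Icc] at h3
  have hΩ : Nat.card Ω * P.θ 2 = P.θ P.n * P.θ (P.n - 1) := by
    rw [← Nat.card_range_of_injective hi, hr, Nat.card_coe_set_eq]
    have hc := P.rk_add_ck W
    obtain h | h : P.rk W = 2 ∨ P.ck W = 2 := by omega
    · rw [h]
      exact RedP.lines P
    · refine Eq.trans ?_ (RedP.lines P.dual)
      congr 2
      exact Set.ext fun U => show P.rk U = P.rk W ↔ P.ck U = 2 by have := P.rk_add_ck U; omega
  rw [← lin_n, ← lin_q (F := F) (V := V), ← hP, ← RedP.θ_mul P, ← RedP.θ_mul P, ← RedP.θ_mul P]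
  linear_combination (P.q - 1) * (P.q - 1) * hΩ

open MinIdx MinIdx.SL ClMax CKS.LinB in
theorem red_exists {p : ℕ} [Fact p.Prime] [CharP F p] (h5 : 5 ≤ finrank F V) [IsPretransitive (ClMax.SLV F V) Ω]
    [Nontrivial Ω] (hp : ¬ p ∣ Nat.card Ω) (ω : Ω) : ∃ W : Submodule F V, W ≠ ⊥ ∧ W ≠ ⊤ ∧
      ∀ g ∈ stabilizer (ClMax.SLV F V) ω, (g : V ≃ₗ[F] V) • W = W := by
  obtain ⟨x, hx⟩ := exists_notMem_pair (F := F) (by omega) (0 : V) 0
  have hx0 : x ≠ 0 := by simpa using hx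
  obtain ⟨ω', hω⟩ := (isPGroup_R (F := F) (p := p) hx0).nonempty_fixed_point_of_prime_not_dvd_card Ω hp
  obtain ⟨W, hW, W0, W1⟩ : ∃ W : Submodule F V, (∀ g ∈ stabilizer (SLV F V) ω', ∀ u ∈ W, g.1 u ∈ W) ∧
      W ≠ ⊥ ∧ W ≠ ⊤ := by
    by_contra! h
    obtain ⟨a, ha⟩ := exists_ne ω'
    obtain ⟨g, rfl⟩ := exists_smul_eq (SLV F V) ω' a
    obtain ⟨k, hk, e⟩ := SLV_le_of_irred (X := (stabilizer (SLV F V) ω').map (SLV F V).subtype) hx0
      (fun φ hφ => ⟨_, ⟨tv x φ, hω ⟨_, tv_mem hφ⟩, rfl⟩, tv_apply hφ⟩)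
      (fun U hU => or_iff_not_imp_left.2 (h U fun g hg => hU _ ⟨g, hg, rfl⟩)) g.2
    exact ha (Subtype.ext e ▸ hk)
  obtain ⟨k, rfl⟩ := exists_smul_eq (SLV F V) ω' ω
  refine ⟨(k : V ≃ₗ[F] V) • W, fun e => W0 ?_, fun e => W1 ?_, fun g hg => ?_⟩
  · rwa [← (lin F V).smul_bot k, smul_left_cancel_iff] at e
  · rwa [← (lin F V).smul_top k, smul_left_cancel_iff] at e
  · have := smul_eq_of_le (hW (k⁻¹ * g * k) (by
      rw [mem_stabilizer_iff, mul_smul, mul_smul, mem_stabilizer_iff.1 hg, inv_smul_smul]))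
    rwa [Subgroup.coe_mul, Subgroup.coe_mul, mul_smul, mul_smul, Subgroup.coe_inv, inv_smul_eq_iff] at this

end CfsgLib.KL
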