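import Mathlib
import Cfsg.Agent.Lib.KL.Base

/-! KL, package SPK: rank 3 gives one constituent; parity (plans/KL.md). -/

set_option autoImplicit false

namespace CfsgLib.KL

open MulAction

variable {G : Type*} [Group G] [Finite G] {Ω : Type*} [Finite Ω] [MulAction G Ω] [IsPretransitive G Ω]

namespace SpkP

/-- translation invariant spaces of functions -/
def Iv (G : Type*) [Group G] {Ω : Type*} [MulAction G Ω] (S : Submodule ℂ (Ω → ℂ)) : Prop :=
  ∀ g : G, ∀ v ∈ S, (fun a => v (g • a)) ∈ S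

omit [Finite G] [Finite Ω] [IsPretransitive G Ω] in
theorem iv_span {s : Set (Ω → ℂ)} (h : ∀ g : G, ∀ v ∈ s, (fun a => v (g • a)) ∈ Submodule.span ℂ s) :
    Iv G (Submodule.span ℂ s) := fun g =>
  show Submodule.span ℂ s ≤ (Submodule.span ℂ s).comap (LinearMap.funLeft ℂ ℂ fun a => g • a) from
    Submodule.span_le.2 (h g)

/-- the functions invariant under `H` -/
def fixS (Ω : Type*) [MulAction G Ω] (H : Subgroup G) : Submodule ℂ (Ω → ℂ) where
  carrier := {v | ∀ k ∈ H, ∀ a, v (k • a) = v a}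
  add_mem' hv hw k hk a := by simp only [Pi.add_apply, hv k hk a, hw k hk a]
  zero_mem' _ _ _ := rfl
  smul_mem' c _ hv k hk a := by simp only [Pi.smul_apply, hv k hk a]

omit [Finite G] [IsPretransitive G Ω] in
theorem finrank_fixS_le (H : Subgroup G) :
    Module.finrank ℂ (fixS Ω H) ≤ Nat.card (orbitRel.Quotient H Ω) := by
  classical
  have := Fintype.ofFinite (orbitRel.Quotient H Ω)
  have h : fixS Ω H ≤ LinearMap.range
      (LinearMap.funLeft ℂ ℂ fun a : Ω => (Quotient.mk'' a : orbitRel.Quotient H Ω)) := fun v hv =>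
    ⟨Quotient.lift v (by rintro _ b ⟨k, rfl⟩; exact hv k k.2 b), rfl⟩
  refine (Submodule.finrank_mono h).trans ((LinearMap.finrank_range_le _).trans ?_)
  rw [Module.finrank_fintype_fun_eq_card, Nat.card_eq_fintype_card]

omit [Finite Ω] in
theorem exists_fix (ω : Ω) {D : Submodule ℂ (Ω → ℂ)} (hD : Iv G D) {v : Ω → ℂ} (hv : v ∈ D) (h0 : v ≠ 0) :
    ∃ w ∈ D, w ∈ fixS Ω (stabilizer G ω) ∧ w ≠ 0 := by
  obtain ⟨a, ha⟩ := Function.ne_iff.1 h0
  obtain ⟨g, rfl⟩ := exists_smul_eq G ω a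
  have := Fintype.ofFinite (stabilizer G ω)
  refine ⟨∑ k : stabilizer G ω, fun a => v (g • (k : G) • a), D.sum_mem fun k _ => hD k _ (hD g v hv),
    fun k hk a => ?_, fun h => ha ?_⟩
  · rw [Finset.sum_apply, Finset.sum_apply, ← Equiv.sum_comp (Equiv.mulRight (⟨k, hk⟩ : stabilizer G ω))
      fun k : stabilizer G ω => v (g • (k : G) • a)]
    exact Finset.sum_congr rfl fun s _ => by simp only [Equiv.coe_mulRight, Subgroup.coe_mul, mul_smul]
  · have h1 := congrFun h ω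
    rw [Finset.sum_apply, Finset.sum_congr rfl (g := fun _ => v (g • ω)) fun k _ => by
      rw [show (k : G) • ω = ω from k.2], Finset.sum_const, nsmul_eq_mul, Pi.zero_apply, mul_eq_zero] at h1
    exact h1.resolve_left (Nat.cast_ne_zero.2 Fintype.card_ne_zero)

/-- the orthogonal complement -/
def perp [Fintype Ω] (S : Submodule ℂ (Ω → ℂ)) : Submodule ℂ (Ω → ℂ) where
  carrier := {v | ∀ s ∈ S, ∑ a, v a * starRingEnd ℂ (s a) = 0}
  add_mem' hv hw s hs := by simp only [Pi.add_apply, add_mul, Finset.sum_add_distrib, hv s hs, hw s hs, add_zero]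
  zero_mem' s _ := by simp
  smul_mem' c _ hv s hs := by simp only [Pi.smul_apply, smul_eq_mul, mul_assoc, ← Finset.mul_sum, hv s hs, mul_zero]

theorem fix_lt (ω : Ω) {S T : Submodule ℂ (Ω → ℂ)} (hS : Iv G S) (hT : Iv G T) (h : S < T) :
    Module.finrank ℂ ↥(S ⊓ fixS Ω (stabilizer G ω)) < Module.finrank ℂ ↥(T ⊓ fixS Ω (stabilizer G ω)) := by
  have := Fintype.ofFinite Ω
  obtain ⟨t, ht, ht'⟩ := SetLike.exists_of_lt h
  obtain ⟨y, hy, z, hz, e⟩ :=
    (S.comap (WithLp.linearEquiv 2 ℂ (Ω → ℂ)).toLinearMap).exists_add_mem_mem_orthogonal (𝕜 := ℂ)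
      (E := EuclideanSpace ℂ Ω) (WithLp.toLp 2 t)
  have e' : t = y.ofLp + z.ofLp := congrArg WithLp.ofLp e
  have hy' : y.ofLp ∈ S := hy
  have h1 : z.ofLp ∈ T ⊓ perp S := by
    refine ⟨by rw [← add_sub_cancel_left y.ofLp z.ofLp, ← e']; exact T.sub_mem ht (h.le hy'), fun s hs => ?_⟩
    have h2 := (Submodule.mem_orthogonal _ _).1 hz (WithLp.toLp 2 s) hs
    rw [PiLp.inner_apply] at h2
    simpa using h2
  have h2 : Iv G (T ⊓ perp S) := fun g v hv => ⟨hT g v hv.1, fun s hs => by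
    have h3 := hv.2 _ (hS g⁻¹ s hs)
    rw [← Equiv.sum_comp (MulAction.toPerm g)] at h3
    simpa using h3⟩
  obtain ⟨w, hw, hw1, hw0⟩ := exists_fix ω h2 h1 fun h0 => ht' (by rw [e', h0, add_zero]; exact hy')
  refine Submodule.finrank_lt_finrank_of_lt (SetLike.lt_iff_le_and_exists.2
    ⟨inf_le_inf_right _ h.le, w, Submodule.mem_inf.2 ⟨hw.1, hw1⟩, fun h3 => hw0 ?_⟩)
  have h4 := hw.2 w h3.1
  simp only [Complex.mul_conj] at h4
  rw [← Complex.ofReal_sum, Complex.ofReal_eq_zero,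
    Finset.sum_eq_zero_iff_of_nonneg fun a _ => Complex.normSq_nonneg _] at h4
  funext a
  exact Complex.normSq_eq_zero.1 (h4 a (Finset.mem_univ a))

omit [Finite G] [Finite Ω] in
theorem exists_desc (ω : Ω) {f : G → ℂ} (hf : ∀ k ∈ stabilizer G ω, ∀ y, f (k * y) = f y) :
    ∃ φ : Ω → ℂ, ∀ y, φ (y⁻¹ • ω) = f y := by
  choose g hg using exists_smul_eq G ω
  refine ⟨fun a => f (g a)⁻¹, fun y => ?_⟩
  have h := hf (y * g (y⁻¹ • ω)) (by rw [mem_stabilizer_iff, mul_smul, hg, smul_inv_smul]) (g (y⁻¹ • ω))⁻¹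
  rw [mul_inv_cancel_right] at h
  exact h.symm

omit [Finite G] [Finite Ω] in
theorem desc_inv (ω : Ω) {f : G → ℂ} {φ : Ω → ℂ} (h : ∀ y, φ (y⁻¹ • ω) = f y) {B : Subgroup G}
    (hf : ∀ b ∈ B, ∀ y, f (y * b) = f y) : ∀ b ∈ B, ∀ a, φ (b • a) = φ a := fun b hb a => by
  obtain ⟨g, rfl⟩ := exists_smul_eq G ω a
  have h1 := h g⁻¹
  have h2 := h (g⁻¹ * b⁻¹)
  rw [mul_inv_rev, inv_inv, inv_inv, mul_smul, hf _ (inv_mem hb)] at h2
  rw [inv_inv] at h1
  rw [h1, h2]

end SpkP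

open SpkP in
theorem sp_of_rank {p : ℕ} [Fact p.Prime] (ω : Ω) (h3 : Nat.card (orbitRel.Quotient (stabilizer G ω) Ω) = 3)
    (hN : NGen p G Ω) : SP p (stabilizer G ω) := by

  intro U U' f h hf hh hfU hhU ⟨y₁, y₂, hy⟩
  obtain ⟨φ, hφ⟩ := exists_desc ω hf
  obtain ⟨ψ, hψ⟩ := exists_desc ω hh
  have := Fintype.ofFinite G
  let N := Submodule.span ℂ (insert (1 : Ω → ℂ) (Set.range fun x : G => fun a => φ (x⁻¹ • a)))
  let N' := Submodule.span ℂ {f : Ω → ℂ | ∃ U : Sylow p G, ∀ b ∈ Bor U, ∀ a, f (b • a) = f a}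
  have iN' : Iv G N' := iv_span fun g v ⟨W, hW⟩ => Submodule.subset_span ⟨g⁻¹ • W, fun b hb a => by
    have h1 : g * b * g⁻¹ ∈ Bor W := Sylow.smul_eq_iff_mem_normalizer.1 (by
      rw [mul_smul, mul_smul, Sylow.smul_eq_iff_mem_normalizer.2 hb, smul_inv_smul])
    have h2 := hW _ h1 (g • a)
    rwa [mul_smul, mul_smul, inv_smul_smul] at h2⟩
  have hψ' : ψ ∈ N' := Submodule.subset_span ⟨U', desc_inv ω hψ hhU⟩
  have hNN : N ≤ N' := Submodule.span_le.2 (by
    rintro _ (rfl | ⟨x, rfl⟩)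
    · exact Submodule.subset_span ⟨U, fun _ _ _ => rfl⟩
    · exact iN' x⁻¹ φ (Submodule.subset_span ⟨U, desc_inv ω hφ hfU⟩))
  have hN1 : N = N' := by
    by_contra hne
    have iN : Iv G N := iv_span (by
      rintro g _ (rfl | ⟨x, rfl⟩)
      · exact Submodule.subset_span (.inl rfl)
      · exact Submodule.subset_span (.inr ⟨g⁻¹ * x, by simp only [mul_inv_rev, inv_inv, mul_smul]⟩))
    have iA : Iv G (Submodule.span ℂ {(1 : Ω → ℂ)}) := iv_span (by
      rintro g _ rfl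
      exact Submodule.subset_span rfl)
    have l1 : (⊥ : Submodule ℂ (Ω → ℂ)) < Submodule.span ℂ {(1 : Ω → ℂ)} :=
      bot_lt_iff_ne_bot.2 fun h0 => one_ne_zero (congrFun (Submodule.span_singleton_eq_bot.1 h0) ω)
    have l2 : Submodule.span ℂ {(1 : Ω → ℂ)} < N := by
      refine SetLike.lt_iff_le_and_exists.2 ⟨Submodule.span_mono (by simp), φ,
        Submodule.subset_span (.inr ⟨1, by simp⟩), fun h0 => hy ?_⟩
      obtain ⟨c, hc⟩ := Submodule.mem_span_singleton.1 h0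
      rw [← hφ, ← hφ, ← hc]
      rfl
    have a1 := fix_lt ω (fun g v hv => by rw [Submodule.mem_bot] at hv ⊢; subst hv; rfl) iA l1
    have a2 := fix_lt ω iA iN l2
    have a3 := fix_lt ω iN iN' (lt_of_le_of_ne hNN hne)
    have a4 := fix_lt ω iN' (T := ⊤) (fun _ _ _ => trivial) (lt_top_iff_ne_top.2 hN)
    have a5 := finrank_fixS_le (Ω := Ω) (stabilizer G ω)
    rw [top_inf_eq] at a4
    omega
  obtain ⟨c, z, hz, e⟩ := Submodule.mem_span_insert.1 (show ψ ∈ N from hN1 ▸ hψ')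
  obtain ⟨t, rfl⟩ := (Submodule.mem_span_range_iff_exists_fun ℂ).1 hz
  refine ⟨c, t, fun y => ?_⟩
  rw [← hψ, e, finsum_eq_sum_of_fintype]
  simp only [Pi.add_apply, Pi.smul_apply, Pi.one_apply, smul_eq_mul, mul_one, Finset.sum_apply, ← hφ, mul_inv_rev,
    mul_smul]

theorem exists_inv (ω : Ω) (h3 : Nat.card (orbitRel.Quotient (stabilizer G ω) Ω) = 3) (Z : Subgroup G) [Z.Normal]
    (hZ : ∀ z ∈ Z, ∀ a : Ω, z • a = a) {s : G} (h1 : s ∉ Z) (h2 : s * s ∈ Z) :
    ∃ t ∈ stabilizer G ω, t ∉ Z ∧ t * t ∈ Z := by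

  classical
  by_contra! hne
  have hZK : Z ≤ stabilizer G ω := fun z hz => hZ z hz ω
  have o1 : Odd (Z.relIndex (stabilizer G ω)) := by
    rw [← Nat.not_even_iff_odd, even_iff_two_dvd]
    intro h
    obtain ⟨x, hx⟩ := exists_prime_orderOf_dvd_card' (G := stabilizer G ω ⧸ Z.subgroupOf (stabilizer G ω)) 2 h
    obtain ⟨t, rfl⟩ := QuotientGroup.mk_surjective x
    refine hne t t.2 (fun ht => ?_) ?_
    · rw [(QuotientGroup.eq_one_iff t).2 ht, orderOf_one] at hx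
      omega
    · have h4 := pow_orderOf_eq_one (t : stabilizer G ω ⧸ Z.subgroupOf (stabilizer G ω))
      rw [hx, sq, ← QuotientGroup.mk_mul, QuotientGroup.eq_one_iff] at h4
      exact h4
  have o2 : ∀ a : Ω, Odd (Nat.card (orbit (stabilizer G ω) a)) := fun a => by
    rw [Nat.card_coe_set_eq, ← index_stabilizer]
    exact o1.of_dvd_nat (Subgroup.index_dvd_of_le fun z hz => hZ z hz a)
  have o3 : Odd (Nat.card Ω) := by
    have := Fintype.ofFinite (orbitRel.Quotient (stabilizer G ω) Ω)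
    rw [Nat.card_congr (selfEquivSigmaOrbits (stabilizer G ω) Ω), Nat.card_sigma, Finset.odd_sum_iff_odd_card_odd,
      Finset.filter_true_of_mem fun _ _ => o2 _, Finset.card_univ, ← Nat.card_eq_fintype_card, h3]
    decide
  have o4 : Odd Z.index := by
    rw [← Subgroup.relIndex_mul_index hZK, index_stabilizer_of_transitive]
    exact o1.mul o3
  have h4 : orderOf (s : G ⧸ Z) = 2 :=
    orderOf_eq_prime (by rw [sq, ← QuotientGroup.mk_mul, QuotientGroup.eq_one_iff]; exact h2)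
      (by rwa [Ne, QuotientGroup.eq_one_iff])
  exact (Nat.not_even_iff_odd.2 o4) (even_iff_two_dvd.2 (h4 ▸ orderOf_dvd_natCard (s : G ⧸ Z)))

end CfsgLib.KL
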