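import Mathlib
import Cfsg.Agent.Lib.KL.Base
import Cfsg.Agent.Lib.CK.SimL
import Cfsg.Agent.Lib.CK.Eig

/-! KL, package Z: groups on a projective line (plans/KL.md). -/

set_option autoImplicit false

namespace CfsgLib.KL

open CfsgLib.CK Module

namespace ZP

open Subgroup CfsgLib.Tech

section Abs

variable {G L : Type*} [Group G] [MulAction G L] [Finite G]

theorem mem_of_parts {K : Subgroup G} (n : ℕ) : ∀ g : G, orderOf g = n →
    (∀ r k m : ℕ, r.Prime → (g ^ m) ^ r ^ k = 1 → g ^ m ∈ K) → g ∈ K := by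
  induction n using Nat.strong_induction_on with
  | _ n ih =>
  intro g hn h
  by_cases h1 : n = 1
  · rw [orderOf_eq_one_iff.1 (hn.trans h1)]; exact one_mem _
  have hr := Nat.minFac_prime h1
  have n0 : n ≠ 0 := hn ▸ (orderOf_pos g).ne'
  obtain ⟨e, o, ho, e1⟩ := Nat.exists_eq_pow_mul_and_not_dvd n0 _ hr.ne_one
  have e0 : e ≠ 0 := by
    rintro rfl
    rw [pow_zero, one_mul] at e1
    exact ho (e1 ▸ Nat.minFac_dvd n)
  generalize n.minFac = r at *
  have gn : g ^ (r ^ e * o) = 1 := by rw [← e1, ← hn, pow_orderOf_eq_one]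
  have o0 : 0 < o := Nat.pos_of_ne_zero fun k => ho (k ▸ dvd_zero r)
  have a1 : g ^ o ∈ K := h r e o hr (by rw [← pow_mul, mul_comm, gn])
  have a2 : g ^ r ^ e ∈ K := by
    refine ih _ ?_ _ rfl fun r' k m hr' e' => ?_
    · have : orderOf (g ^ r ^ e) ≤ o := orderOf_le_of_pow_eq_one o0 (by rw [← pow_mul, gn])
      have h2 : 1 < r ^ e := Nat.one_lt_pow e0 hr.one_lt
      nlinarith
    · rw [← pow_mul g] at e' ⊢
      exact h r' k _ hr' e'
  have c : IsCoprime ((r ^ e : ℕ) : ℤ) (o : ℤ) :=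
    Nat.isCoprime_iff_coprime.2 (Nat.Coprime.pow_left e ((Nat.Prime.coprime_iff_not_dvd hr).2 ho))
  obtain ⟨s, t, e2⟩ := c
  have : g = (g ^ r ^ e) ^ s * (g ^ o) ^ t := by
    rw [← zpow_natCast, ← zpow_natCast g o, ← zpow_mul, ← zpow_mul, ← zpow_add, mul_comm _ s, mul_comm _ t, e2,
      zpow_one]
  rw [this]
  exact mul_mem (zpow_mem a2 s) (zpow_mem a1 t)

omit [Finite G] in
theorem inv_diff {Y : Subgroup G} {X A : Set L} (hX : Inv Y X) (hA : Inv Y A) : Inv Y (X \ A) :=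
  fun g hg x hx => ⟨hX g hg x hx.1, fun k => hx.2 (by simpa using hA g⁻¹ (inv_mem hg) _ k)⟩

omit [Finite G] in
theorem inv_single {Y : Subgroup G} {a : L} (h : Fx Y a) : Inv Y {a} := fun g hg _ hx => by
  rw [hx]; exact h g hg

omit [Finite G] in
theorem fx_zpowers {g : G} {a : L} (h : g • a = a) : Fx (zpowers g) a :=
  fun _ hk => (zpowers_le.2 (show g ∈ MulAction.stabilizer G a from h)) hk

/-- a group acting like a subgroup of `PGL₂(q)` on `X` -/
structure Ln3 (p q : ℕ) (M : Subgroup G) (X : Set L) : Prop where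
  pp : p.Prime
  qp : ∃ e, q = p ^ (e + 1)
  card : X.ncard = q + 1
  inv : Inv M X
  three : ∀ g ∈ M, ∀ a ∈ X, ∀ b ∈ X, ∀ c ∈ X, a ≠ b → a ≠ c → b ≠ c → g • a = a → g • b = b → g • c = c →
    ∀ x ∈ X, g • x = x

variable [Finite L] {p q : ℕ} {M Z S : Subgroup G} {X A : Set L} (h : Ln3 p q M X) {a b : L} {g : G}
include h

omit [Finite G] [Finite L] in
theorem Ln3.dvd : p ∣ q := by
  obtain ⟨e, rfl⟩ := h.qp
  exact dvd_pow_self p e.succ_ne_zero

omit [Finite G] [Finite L] in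
theorem Ln3.two_le : 2 ≤ q := by
  obtain ⟨e, rfl⟩ := h.qp
  exact Nat.one_lt_pow e.succ_ne_zero h.pp.one_lt

omit [Finite G] [Finite L] in
theorem Ln3.card1 (ha : a ∈ X) : (X \ {a}).ncard = q := by
  rw [Set.ncard_sdiff_singleton_of_mem ha, h.card]; rfl

theorem Ln3.two_fix (hS : IsPGroup p S) (hM : S ≤ M) (ha : a ∈ X) (hb : b ∈ X) (ab : a ≠ b) (fa : Fx S a)
    (fb : Fx S b) : ∀ x ∈ X, Fx S x := by
  have c : ((X \ {a}) \ {b}).ncard = q - 1 := by
    rw [Set.ncard_sdiff_singleton_of_mem (show b ∈ X \ {a} from ⟨hb, ab.symm⟩), h.card1 ha]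
  obtain ⟨c, hc, fc⟩ := exists_fx h.pp hS
    (inv_diff (inv_diff (h.inv.mono hM) (inv_single fa)) (inv_single fb)) (by
      rw [c]
      intro k
      have := (Nat.dvd_sub h.dvd k)
      rw [show q - (q - 1) = 1 by have := h.two_le; omega] at this
      exact h.pp.not_dvd_one this)
  exact fun x hx g hg => h.three g (hM hg) a ha b hb c hc.1.1 ab (Ne.symm hc.1.2) (Ne.symm hc.2) (fa g hg)
    (fb g hg) (fc g hg) x hx

theorem Ln3.one_fix (hg : g ∈ M) (ha : a ∈ X) (fa : g • a = a)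
    (hp : ∀ k m : ℕ, (g ^ m) ^ p ^ k = 1 → g ^ m ∈ fixingSubgroup G X) (hK : g ∉ fixingSubgroup G X) :
    {x | x ∈ X \ {a} ∧ g • x = x}.ncard = 1 := by
  have := mt (mem_of_parts _ g rfl) hK
  push Not at this
  obtain ⟨r, k, m, hr, e, hn⟩ := this
  have rp : r ≠ p := fun k' => hn (hp k m (k' ▸ e))
  have fm : g ^ m • a = a := fx_zpowers fa _ (pow_mem (mem_zpowers g) m)
  obtain ⟨y, hy, fy⟩ := exists_fx hr (isPGroup_zpowers_of_pow e)
    (inv_diff (h.inv.mono (zpowers_le.2 (pow_mem hg m))) (inv_single (fx_zpowers fm))) (by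
      rw [h.card1 ha]
      obtain ⟨e, rfl⟩ := h.qp
      exact fun k => rp ((Nat.prime_dvd_prime_iff_eq hr h.pp).1 (hr.dvd_of_dvd_pow k)))
  have fy' := fy _ (mem_zpowers _)
  have gy : g • y = y := by
    by_contra k
    refine hn ((mem_fixingSubgroup_iff G).2 (h.three _ (pow_mem hg m) a ha y hy.1 (g • y) (h.inv g hg y hy.1)
      (Ne.symm hy.2) (fun k' => hy.2 ?_) (Ne.symm k) fm fy' ?_))
    · exact (MulAction.injective g (fa.trans k')).symm
    · rw [smul_smul, ← pow_succ, pow_succ', mul_smul, fy']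
  rw [Set.ncard_eq_one]
  refine ⟨y, Set.ext fun x => ⟨fun hx => ?_, fun hx => by rw [hx]; exact ⟨hy, gy⟩⟩⟩
  by_contra k
  exact hK ((mem_fixingSubgroup_iff G).2 (h.three g hg a ha y hy.1 x hx.1.1 (Ne.symm hy.2) (Ne.symm hx.1.2)
    (Ne.symm k) fa gy hx.2))

theorem Ln3.idx_dvd (hM : S ≤ M) (ha : a ∈ X) (fa : Fx S a)
    (hp : ∀ g ∈ S, ∀ k : ℕ, g ^ p ^ k = 1 → g ∈ fixingSubgroup G X) :
    (fixingSubgroup G X).relIndex S ∣ q - 1 := by
  classical
  have b := (inv_diff (h.inv.mono hM) (inv_single fa)).burnside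
  set K := fixingSubgroup G X with hK
  have e : ∀ g : S, {x | x ∈ X \ {a} ∧ g.1 • x = x}.ncard = 1 + if g ∈ K.subgroupOf S then q - 1 else 0 := by
    intro g
    split_ifs with k
    · rw [show {x | x ∈ X \ {a} ∧ g.1 • x = x} = X \ {a} from
        Set.ext fun x => ⟨fun hx => hx.1, fun hx => ⟨hx, (mem_fixingSubgroup_iff G).1 k x hx.1⟩⟩, h.card1 ha]
      have := h.two_le
      omega
    · exact h.one_fix (hM g.2) ha (fa g g.2) (fun k m => hp _ (pow_mem g.2 m) k) k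
  have := Fintype.ofFinite S
  rw [finsum_eq_sum_of_fintype, Finset.sum_congr rfl fun g _ => e g, Finset.sum_add_distrib, Finset.sum_const,
    ← Finset.sum_filter, Finset.sum_const, smul_eq_mul, smul_eq_mul, mul_one, Finset.card_univ,
    ← Nat.card_eq_fintype_card, ← Fintype.card_subtype, ← Nat.card_eq_fintype_card] at b
  have c := (K.subgroupOf S).card_mul_index
  have k0 : 0 < Nat.card (K.subgroupOf S) := Nat.card_pos
  change Nat.card (K.subgroupOf S) * K.relIndex S = _ at c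
  change _ = _ + Nat.card (K.subgroupOf S) * _ at b
  rw [← c] at b
  generalize Nat.card (K.subgroupOf S) = k at *
  generalize K.relIndex S = i at *
  have b' : orbN S (X \ {a}) * i = i + (q - 1) := Nat.eq_of_mul_eq_mul_left k0 (by linarith)
  exact (Nat.dvd_add_right (dvd_refl i)).1 (b' ▸ dvd_mul_left i _)

theorem Ln3.main (hZ : Z ≤ M) (tr : Tr M X) (hA : A ⊆ X) (hne : A.Nonempty) (hd : A.ncard ∣ q) (inv : Inv Z A)
    (t1 : Tr Z A) (t2 : Tr Z (X \ A)) : ∃ x ∈ X, Tr (Stab M x) (X \ {x}) := by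
  have := Fact.mk h.pp
  have iB := inv_diff (h.inv.mono hZ) inv
  have cB : (X \ A).ncard = q + 1 - A.ncard := by rw [Set.ncard_sdiff hA, h.card]
  have q2 := h.two_le
  have le := Nat.le_of_dvd (by omega) hd
  by_cases b1 : A.ncard = 1
  · obtain ⟨a, rfl⟩ := Set.ncard_eq_one.1 b1
    exact ⟨a, hA rfl, t2.mono (le_Stab hZ fun g hg => inv g hg a rfl)⟩
  by_cases bq : A.ncard = q
  · obtain ⟨y, e⟩ := Set.ncard_eq_one.1 (show (X \ A).ncard = 1 by omega)
    have hy : y ∈ X \ A := e ▸ rfl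
    refine ⟨y, hy.1, (t1.mono (le_Stab hZ fun g hg => ?_)).sub fun x hx => ?_⟩
    · exact (e ▸ iB g hg y hy : g • y ∈ ({y} : Set L))
    · by_contra k
      exact hx.2 (e ▸ (⟨hx.1, k⟩ : x ∈ X \ A))
  obtain ⟨f, hf⟩ := h.qp
  obtain ⟨k, -, hk⟩ := (Nat.dvd_prime_pow h.pp).1 (hf ▸ hd)
  have pb : p ∣ A.ncard := hk ▸ dvd_pow_self p fun k0 => b1 (by rw [hk, k0, pow_zero])
  have b2 : 2 * A.ncard ≤ q := by
    obtain ⟨c, hc⟩ := hd
    rcases c with _ | _ | c
    · omega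
    · omega
    · nlinarith
  have b0 : 0 < A.ncard := (Set.ncard_pos A.toFinite).2 hne
  have pB : ¬ p ∣ (X \ A).ncard := by
    rw [cB, show q + 1 - A.ncard = q - A.ncard + 1 by omega]
    exact fun k => h.pp.not_dvd_one ((Nat.dvd_add_right (Nat.dvd_sub h.dvd pb)).1 k)
  obtain ⟨S, hS⟩ := exists_isSylowIn p Z
  have tS := syl_tr h.pp hS t1 inv hk
  obtain ⟨y, hy, fy⟩ := exists_fx h.pp hS.pgroup (iB.mono hS.le) pB
  obtain ⟨a, ha⟩ := hne
  have t3 : Tr (Stab Z a) (X \ A) := by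
    have key : ∀ u ∈ X \ A, ∃ g ∈ Stab Z a, g • y = u := fun u hu => by
      obtain ⟨z, hz, e⟩ := t2 y hy u hu
      obtain ⟨s, hs, e'⟩ := tS a ha (z⁻¹ • a) (inv _ (inv_mem hz) a ha)
      exact ⟨z * s, mem_Stab.2 ⟨mul_mem hz (hS.le hs), by
        rw [mul_smul, e', smul_inv_smul]⟩, by rw [mul_smul, fy s hs, e]⟩
    intro u hu v hv
    obtain ⟨g, hg, rfl⟩ := key u hu
    obtain ⟨g', hg', rfl⟩ := key v hv
    exact ⟨g' * g⁻¹, mul_mem hg' (inv_mem hg), by rw [mul_smul, inv_smul_smul]⟩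
  have d1 := h.idx_dvd ((Stab_le Z a).trans hZ) (hA ha) (fx_Stab Z a) fun g hg k e => by
    have hP := isPGroup_zpowers_of_pow e
    have hz : zpowers g ≤ Z := zpowers_le.2 hg.1
    obtain ⟨u, hu, fu⟩ := exists_fx h.pp hP (iB.mono hz) pB
    exact (mem_fixingSubgroup_iff G).2 fun x hx => h.two_fix hP (hz.trans hZ) (hA ha) hu.1
      (fun k => hu.2 (k ▸ ha)) (fx_zpowers hg.2) fu x hx g (mem_zpowers g)
  have d2 : (X \ A).ncard ∣ (fixingSubgroup G X).relIndex (Stab Z a) := by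
    rw [← t3.relIndex (iB.mono (Stab_le Z a)) hy, Stab, inf_relIndex_left]
    exact relIndex_dvd_of_le_left _ fun g hg => (mem_fixingSubgroup_iff G).1 hg y hy.1
  have two : A.ncard = 2 := by
    have := d2.trans d1
    rw [cB, show q - 1 = q + 1 - A.ncard + (A.ncard - 2) by omega, Nat.dvd_add_right (dvd_refl _)] at this
    have := Nat.eq_zero_of_dvd_of_lt this (by omega)
    omega
  obtain ⟨a', aa, e⟩ : ∃ a', a ≠ a' ∧ A = {a, a'} := by
    obtain ⟨u, v, uv, e⟩ := Set.ncard_eq_two.1 two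
    rcases (e ▸ ha : a ∈ ({u, v} : Set L)) with rfl | rfl
    · exact ⟨v, uv, e⟩
    · exact ⟨u, uv.symm, e.trans (Set.pair_comm _ _)⟩
  have ha' : a' ∈ A := e ▸ Or.inr rfl
  by_cases fx : Fx (Stab M a) a'
  · exfalso
    obtain ⟨g, hg, rfl⟩ := tr a (hA ha) y hy.1
    have f' : Fx S (g • a') := fun s hs => by
      have := fx (g⁻¹ * s * g) (mem_Stab.2 ⟨mul_mem (mul_mem (inv_mem hg) (hZ (hS.le hs))) hg, by
        rw [mul_smul, mul_smul, fy s hs, inv_smul_smul]⟩)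
      rwa [mul_smul, mul_smul, inv_smul_eq_iff] at this
    obtain ⟨s, hs, e'⟩ := tS a ha a' ha'
    exact aa ((h.two_fix hS.pgroup (hS.le.trans hZ) hy.1 (h.inv g hg a' (hA ha'))
      (fun k => aa (MulAction.injective g k)) fy f' a (hA ha) s hs).symm.trans e')
  refine ⟨a, hA ha, ?_⟩
  simp only [Fx, not_forall] at fx
  obtain ⟨m, hm, ma⟩ := fx
  have hB : m • a' ∈ X \ A := ⟨h.inv m hm.1 a' (hA ha'), fun k => by
    rcases (e ▸ k : m • a' ∈ ({a, a'} : Set L)) with k | k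
    · exact aa (MulAction.injective m ((mem_Stab.1 hm).2.trans k.symm))
    · exact ma k⟩
  have t4 : Tr (Stab M a) (X \ A) := t3.mono (le_Stab ((Stab_le Z a).trans hZ) (fx_Stab Z a))
  have key : ∀ u ∈ X \ {a}, ∃ g ∈ Stab M a, g • u ∈ X \ A := fun u hu => by
    by_cases k : u ∈ A
    · rcases (e ▸ k : u ∈ ({a, a'} : Set L)) with k | k
      · exact (hu.2 k).elim
      · exact ⟨m, hm, k ▸ hB⟩
    · exact ⟨1, one_mem _, by rw [one_smul]; exact ⟨hu.1, k⟩⟩
  intro u hu v hv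
  obtain ⟨g, hg, e1⟩ := key u hu
  obtain ⟨g', hg', e2⟩ := key v hv
  obtain ⟨s, hs, e3⟩ := t4 _ e1 _ e2
  exact ⟨g'⁻¹ * s * g, mul_mem (mul_mem (inv_mem hg') hs) hg, by rw [mul_smul, mul_smul, e3, inv_smul_smul]⟩

end Abs

variable {F V : Type*} [Field F] [Finite F] [AddCommGroup V] [Module F V] [Finite V]

omit [Finite F] [Finite V] in
theorem eig {g : V ≃ₗ[F] V} {v : V} (h : g • (F ∙ v) = F ∙ v) : ∃ c : F, g v = c • v := by
  obtain ⟨c, e⟩ := Submodule.mem_span_singleton.1 (apply_mem_of_smul_eq h (Submodule.mem_span_singleton_self v))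
  exact ⟨c, e.symm⟩

theorem three {l : Submodule F V} (hl : (lin F V).rk l = 2) (g : V ≃ₗ[F] V) {a b c : Submodule F V}
    (ha : (lin F V).Pt ⊥ l a) (hb : (lin F V).Pt ⊥ l b) (hc : (lin F V).Pt ⊥ l c) (ab : a ≠ b) (ac : a ≠ c)
    (bc : b ≠ c) (fa : g • a = a) (fb : g • b = b) (fc : g • c = c) {x : Submodule F V}
    (hx : (lin F V).Pt ⊥ l x) : g • x = x := by
  rw [PG.pt_bot] at ha hb hc hx
  have el : a ⊔ b = l := (lin F V).eq_of_rk_le (sup_le ha.1 hb.1) (by rw [hl, (lin F V).rk_sup_pts ha.2 hb.2 ab])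
  have nl : ∀ {e e' : Submodule F V}, (lin F V).rk e = 1 → (lin F V).rk e' = 1 → e ≠ e' → ¬ e ≤ e' :=
    fun h h' k => (lin F V).not_le_of_ne (by rw [h, h']) k
  obtain ⟨u, -, rfl⟩ := exists_of_rk ha.2
  obtain ⟨v, -, rfl⟩ := exists_of_rk hb.2
  obtain ⟨w, -, rfl⟩ := exists_of_rk hc.2
  obtain ⟨α, e1⟩ := eig fa
  obtain ⟨β, e2⟩ := eig fb
  obtain ⟨γ, e3⟩ := eig fc
  have dec : ∀ z ∈ l, ∃ s t : F, z = s • u + t • v := fun z hz => by
    obtain ⟨y, hy, y', hy', e⟩ := Submodule.mem_sup.1 (el ▸ hz : z ∈ (F ∙ u) ⊔ (F ∙ v))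
    obtain ⟨s, rfl⟩ := Submodule.mem_span_singleton.1 hy
    obtain ⟨t, rfl⟩ := Submodule.mem_span_singleton.1 hy'
    exact ⟨s, t, e.symm⟩
  have sp : ∀ {y z : V} {s : F}, y = s • z → (F ∙ y) ≤ F ∙ z := fun {y z s} e =>
    (Submodule.span_singleton_le_iff_mem _ _).2 (Submodule.mem_span_singleton.2 ⟨s, e.symm⟩)
  have ind : ∀ s t : F, s • u = t • v → s = 0 := fun s t e => by
    by_contra k
    exact nl ha.2 hb.2 ab (sp (s := s⁻¹ * t) (by rw [mul_smul, ← e, inv_smul_smul₀ k]))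
  have ind' : ∀ s t : F, t • v = s • u → t = 0 := fun s t e => by
    by_contra k
    exact nl hb.2 ha.2 ab.symm (sp (s := t⁻¹ * s) (by rw [mul_smul, ← e, inv_smul_smul₀ k]))
  obtain ⟨s, t, rfl⟩ := dec w (hc.1 (Submodule.mem_span_singleton_self w))
  have s0 : s ≠ 0 := by
    rintro rfl
    exact nl hc.2 hb.2 bc.symm (sp (s := t) (by rw [zero_smul, zero_add]))
  have t0 : t ≠ 0 := by
    rintro rfl
    exact nl hc.2 ha.2 ac.symm (sp (s := s) (by rw [zero_smul, add_zero]))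
  rw [map_add, map_smul, map_smul, e1, e2] at e3
  have e4 : (s * (α - γ)) • u = (t * (γ - β)) • v := by
    linear_combination (norm := module) e3
  have k1 : α = γ := sub_eq_zero.1 ((mul_eq_zero.1 (ind _ _ e4)).resolve_left s0)
  have k2 : γ = β := sub_eq_zero.1 ((mul_eq_zero.1 (ind' _ _ e4.symm)).resolve_left t0)
  refine smul_eq_of_le fun z hz => ?_
  obtain ⟨s', t', rfl⟩ := dec z (hx.1 hz)
  have : g (s' • u + t' • v) = γ • (s' • u + t' • v) := by
    rw [map_add, map_smul, map_smul, e1, e2, k1, ← k2, smul_add, smul_comm s', smul_comm t']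
  rw [this]
  exact x.smul_mem γ hz

end ZP

variable {F V : Type*} [Field F] [Finite F] [AddCommGroup V] [Module F V] [Finite V]

theorem lemZ {M Z : Subgroup (V ≃ₗ[F] V)} {l : Submodule F V} (hl : (lin F V).rk l = 2) (hZ : Z ≤ M) (hM : Fx M l)
    (tr : Tr M {e | (lin F V).Pt ⊥ l e}) {A : Set (Submodule F V)} (hA : ∀ e ∈ A, (lin F V).Pt ⊥ l e)
    (hne : A.Nonempty) (hd : A.ncard ∣ (lin F V).q) (inv : Inv Z A) (t1 : Tr Z A)
    (t2 : Tr Z ({e | (lin F V).Pt ⊥ l e} \ A)) :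
    ∃ x, (lin F V).Pt ⊥ l x ∧ Tr (Stab M x) {e | (lin F V).Pt ⊥ l e ∧ e ≠ x} := by
  have : Finite (V ≃ₗ[F] V) := Finite.of_injective (fun g : V ≃ₗ[F] V => (g : V → V)) DFunLike.coe_injective
  have h : ZP.Ln3 (lin F V).p (lin F V).q M {e | (lin F V).Pt ⊥ l e} :=
    ⟨(lin F V).pp, (lin F V).qp, by
      rw [← PG.θ_two, ← hl, ← PG.d_bot]
      exact PG.ncard_pt (P := lin F V) bot_le,
      PG.inv_pt ((lin F V).fx_bot M) hM, fun g _ a ha b hb c hc ab ac bc fa fb fc x hx =>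
        ZP.three hl g ha hb hc ab ac bc fa fb fc hx⟩
  exact h.main hZ tr hA hne hd inv t1 t2

end CfsgLib.KL
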