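import Mathlib
import Cfsg.Agent.Lib.KL.How
import Cfsg.Agent.Lib.KL.Spk
import Cfsg.Agent.Lib.KL.Flag
import Cfsg.Agent.Lib.KL.Red
import Cfsg.Agent.Lib.KL.Ac
import Cfsg.Agent.Lib.KL.Bi
import Cfsg.Agent.Lib.KL.Bm
import Cfsg.Agent.Lib.KL.Bs2
import Cfsg.Agent.Lib.KL.Bh
import Cfsg.Agent.Lib.KL.D12
import Cfsg.Agent.Lib.KL.D3
import Cfsg.Agent.Lib.KL.Z
import Cfsg.Agent.Lib.KL.De
import Cfsg.Agent.Lib.CK.Main

/-! KL: rank 3 actions of the linear groups. -/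

set_option autoImplicit false

namespace CfsgLib.KL

open CfsgLib.CK Module MulAction CfsgLib.ClMax

variable {F V : Type*} [Field F] [Finite F] [AddCommGroup V] [Module F V] [Finite V]

theorem Hyp.two {H : Subgroup (V ≃ₗ[F] V)} (h : Hyp H) : (lin F V).Two H ⊥ ⊤ := by
  have h5 : 5 ≤ (lin F V).n := by rw [lin_n]; exact h.five
  have t1 := caseA h.gsp h5 h.irr
  have t2 : Tr H (F1 (lin F V) 2) := by
    by_contra t2
    obtain ⟨C, W, w, b⟩ := exists_bs h.gsp h5 t1 t2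
    have := b.two
    have := b.lt
    by_cases h2 : w = 2
    · subst h2
      exact b.spread
    by_cases h1 : w + 1 = (lin F V).n
    · exact b.null h1
    exact b.mid (by omega) (by omega)
  have t12 := caseC h.gsp h5 t1 t2
  refine two_of_loc t12 ?_
  have k := loc_of_plfl (by have := h.five; omega) h.sc h.inv
  by_cases t3 : Tr H (F1 (lin F V) 3)
  swap
  · exact k (caseD1 h.gsp h5 t2 t3)
  by_cases t13 : Tr H (F2 (lin F V) 1 3)
  · exact k fun y hy y' hy' _ => caseD3 h.gsp h5 t12 t13 y hy y' hy'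
  obtain ⟨l, π, A, hl, hA, hne, hd, hi, a1, a2⟩ := caseD2 h.gsp h5 t12 t3 t13
  obtain ⟨x, hx, ht⟩ := lemZ hl (Stab_le _ π) (fx_Stab H l) (fun a ha b hb => by
    obtain ⟨g, hg, e⟩ := t12 (a, l) ⟨ha.2.1, ha.2.2, hl⟩ (b, l) ⟨hb.2.1, hb.2.2, hl⟩
    exact ⟨g, ⟨hg, congrArg Prod.snd e⟩, congrArg Prod.fst e⟩) hA hne hd hi a1 a2
  exact ⟨x, l, hx.2.2, hl, hx.2.1, ht⟩

/-- the scalar maps -/
def scal (F V : Type*) [Field F] [AddCommGroup V] [Module F V] : Subgroup (V ≃ₗ[F] V) where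
  carrier := {g | Sc g}
  one_mem' := ⟨1, fun v => by simp⟩
  mul_mem' := by
    rintro a b ⟨c, hc⟩ ⟨d, hd⟩
    exact ⟨c * d, fun v => by rw [LinearEquiv.mul_apply, hc, hd, smul_smul]⟩
  inv_mem' := by
    rintro a ⟨c, hc⟩
    refine ⟨c⁻¹, fun v => ?_⟩
    obtain ⟨v, rfl⟩ := a.surjective v
    by_cases h : c = 0
    · have : v = 0 := a.map_eq_zero_iff.1 (by rw [hc, h, zero_smul])
      simp [this]
    · rw [show a⁻¹ (a v) = v from a.symm_apply_apply v, hc, smul_smul, inv_mul_cancel₀ h, one_smul]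

omit [Finite F] [Finite V] in
instance scal_normal : (scal F V).Normal := ⟨by
  rintro a ⟨c, hc⟩ g
  exact ⟨c, fun v => by
    rw [LinearEquiv.mul_apply, LinearEquiv.mul_apply, hc, map_smul, show g (g⁻¹ v) = v from g.apply_symm_apply v]⟩⟩

omit [Finite F] in
theorem scal_fx {g : V ≃ₗ[F] V} (hg : g ∈ scal F V) (U : Submodule F V) : g • U = U :=
  let ⟨c, hc⟩ := hg; smul_eq_of_le fun v hv => hc v ▸ U.smul_mem c hv

theorem main_sl {p : ℕ} [Fact p.Prime] [CharP F p] {Ω : Type*} [Finite Ω] [MulAction (SLV F V) Ω]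
    (h5 : 5 ≤ finrank F V) [IsPreprimitive (SLV F V) Ω] (ω : Ω)
    (h3 : Nat.card (orbitRel.Quotient (stabilizer (SLV F V) ω) Ω) = 3)
    (hZ : ∀ z : SLV F V, Sc (z : V ≃ₗ[F] V) → ∀ a : Ω, z • a = a) (hN : p ∣ Nat.card Ω → NGen p (SLV F V) Ω) :
    Nat.card Ω * ((Nat.card F ^ 2 - 1) * (Nat.card F - 1)) =
      (Nat.card F ^ finrank F V - 1) * (Nat.card F ^ (finrank F V - 1) - 1) := by
  have : Nontrivial Ω := by
    have : Nontrivial (orbitRel.Quotient (stabilizer (SLV F V) ω) Ω) :=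
      Finite.one_lt_card_iff_nontrivial.1 (by omega)
    exact (Quotient.mk_surjective (s := orbitRel (stabilizer (SLV F V) ω) Ω)).nontrivial
  by_contra hc
  have irr : ∀ W : Submodule F V, (∀ g ∈ stabilizer (SLV F V) ω, (g : V ≃ₗ[F] V) • W = W) → W = ⊥ ∨ W = ⊤ :=
    fun W hW => by
      by_contra! h
      exact hc (red_count h5 ω h3 h.1 h.2 hW)
  have hp : p ∣ Nat.card Ω := by
    by_contra hp
    obtain ⟨W, h0, h1, hW⟩ := red_exists h5 hp ω
    exact (irr W hW).elim h0 h1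
  have hK : ∀ k ∈ stabilizer (SLV F V) ω, (k : V ≃ₗ[F] V) ∈
      (stabilizer (SLV F V) ω).map (SLV F V).subtype ⊔ scal F V := fun k hk =>
    Subgroup.mem_sup_left ⟨k, hk, rfl⟩
  obtain ⟨s, s1, s2⟩ : ∃ s : SLV F V, s ∉ (scal F V).subgroupOf (SLV F V) ∧
      s * s ∈ (scal F V).subgroupOf (SLV F V) := by
    let b := Module.finBasis F V
    let i : Fin 4 → Fin (finrank F V) := Fin.castLE (by omega)
    have hi : ∀ a c, a ≠ c → i a ≠ i c := fun a c h e => h (Fin.castLE_injective _ e)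
    let σ : Equiv.Perm (Fin (finrank F V)) := Equiv.swap (i 0) (i 1) * Equiv.swap (i 2) (i 3)
    have hσ : σ * σ = 1 := by
      have : Commute (Equiv.swap (i 0) (i 1)) (Equiv.swap (i 2) (i 3)) :=
        (Equiv.Perm.disjoint_swap_swap ((List.nodup_map_iff (f := i) (l := [0, 1, 2, 3])
          (Fin.castLE_injective _)).2 (by decide))).commute
      rw [← sq, this.mul_pow, sq, sq, Equiv.swap_mul_self, Equiv.swap_mul_self, mul_one]
    refine ⟨⟨b.equiv b σ, mem_SLV.2 ?_⟩, ?_, 1, fun v => ?_⟩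
    · rw [← LinearMap.det_toMatrix b, show LinearMap.toMatrix b b (b.equiv b σ : V →ₗ[F] V) =
        (σ⁻¹).permMatrix F from ?_, Matrix.det_permutation]
      · simp [σ, Equiv.Perm.sign_swap (hi 0 1 (by decide)), Equiv.Perm.sign_swap (hi 2 3 (by decide))]
      · ext a c
        simp [LinearMap.toMatrix_apply, Finsupp.single_apply, Equiv.Perm.permMatrix, PEquiv.toMatrix_apply,
          Equiv.eq_symm_apply, eq_comm]
    · rintro ⟨c, hc⟩
      have h1 : b.equiv b σ (b (i 0)) = c • b (i 0) := hc _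
      have h2 : σ (i 0) = i 1 := by
        simp [σ, Equiv.swap_apply_of_ne_of_ne (hi 0 2 (by decide)) (hi 0 3 (by decide))]
      have := congrArg (fun v => b.repr v (i 1)) h1
      simp [h2, Finsupp.single_apply, hi 0 1 (by decide)] at this
    · change ((b.equiv b σ : V →ₗ[F] V) ∘ₗ (b.equiv b σ : V →ₗ[F] V)) v = _
      rw [show (b.equiv b σ : V →ₗ[F] V) ∘ₗ (b.equiv b σ : V →ₗ[F] V) = LinearMap.id from b.ext fun a => by
        simp [← Equiv.Perm.mul_apply, hσ], one_smul, LinearMap.id_apply]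
  obtain ⟨t, t1, t2, t3⟩ := exists_inv ω h3 ((scal F V).subgroupOf (SLV F V)) hZ s1 s2
  have H : Hyp ((stabilizer (SLV F V) ω).map (SLV F V).subtype ⊔ scal F V) :=
    ⟨h5, gsp_lin (sp_of_rank ω h3 (hN hp)) hK, fun U hU => irr U fun g hg => hU _ (hK g hg),
      fun g hg => Subgroup.mem_sup_right hg, t, hK t t1, t2, t3⟩
  obtain ⟨a, ha⟩ := exists_ne ω
  obtain ⟨g, rfl⟩ := exists_smul_eq (SLV F V) ω a
  have h1 := sl_le (by omega) (by omega) (fun a b a' b' ha hb hab ha' hb' hab' => by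
    rw [← lin_rk, ← PG.pt_bot_top] at ha hb ha' hb'
    exact H.two.tr a b a' b' ha hb hab ha' hb' hab') g.1 (mem_SLV.1 g.2)
  rw [← SetLike.mem_coe, Subgroup.mul_normal] at h1
  obtain ⟨_, ⟨k, hk, rfl⟩, z, hz, e⟩ := h1
  have e' : g = k * (k⁻¹ * g) := by group
  have hz' : Sc ((k⁻¹ * g : SLV F V) : V ≃ₗ[F] V) := by
    rw [Subgroup.coe_mul, ← show (k : V ≃ₗ[F] V) * z = g from e, Subgroup.coe_inv, inv_mul_cancel_left]
    exact hz
  exact ha (by rw [e', mul_smul, hZ _ hz', mem_stabilizer_iff.1 hk])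

end CfsgLib.KL
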